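import Cfsg.Agent.H29.CmF1
import Cfsg.Agent.H03.PResidual
import Cfsg.Agent.H04.Basic
import Cfsg.Agent.S0111
import Cfsg.Agent.S0245
import Cfsg.Agent.S0246
import Cfsg.Prelude.Def_CaseTheorems

/-!
# The last step of the 3-local characterization of the alternating group of degree eight
-/

set_option autoImplicit false
set_option maxRecDepth 100000
set_option synthInstance.maxSize 4000

namespace H29.Cm
open Equiv Subgroup H19.Cm Cfsg

variable {G : Type*} [Group G] [Finite G] {f : L →* G} {s : G}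

def FC : Subgroup C where
  carrier := {x | x.1 / 4 % 4 = 0}
  mul_mem' := fun {a b} => (by decide +kernel : ∀ a b : C, a.1 / 4 % 4 = 0 → b.1 / 4 % 4 = 0 → (a * b).1 / 4 % 4 = 0) a b
  one_mem' := by decide +kernel
  inv_mem' := fun {a} => (by decide +kernel : ∀ a : C, a.1 / 4 % 4 = 0 → (a⁻¹).1 / 4 % 4 = 0) a

def QC : Subgroup C where
  carrier := {x | x.1 / 4 % 2 = 0}
  mul_mem' := fun {a b} => (by decide +kernel : ∀ a b : C, a.1 / 4 % 2 = 0 → b.1 / 4 % 2 = 0 → (a * b).1 / 4 % 2 = 0) a b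
  one_mem' := by decide +kernel
  inv_mem' := fun {a} => (by decide +kernel : ∀ a : C, a.1 / 4 % 2 = 0 → (a⁻¹).1 / 4 % 2 = 0) a

theorem syl (h : Hy f s) (ne : NE f s) {φ : C →* G} (p0 : Function.Injective φ) (p2 : φ (c 2) = f A) (p32 : φ (c 32) = f A')
    (p3 : φ (c 3) = s * f A * s) (p48 : φ (c 48) = s * f A' * s) : H26.IsSyl 2 φ.range ⊤ := by
  have m1 : f A ∈ E f s := subset_closure (by simp)
  have m2 : f A' ∈ E f s := subset_closure (by simp)
  have m3 : s * f A * s ∈ E f s := subset_closure (by simp)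
  have m4 : s * f A' * s ∈ E f s := subset_closure (by simp)
  have hE : E f s = FC.map φ := by
    refine le_antisymm ((closure_le _).2 ?_) ?_
    · rintro _ (rfl | rfl | rfl | rfl)
      exacts [⟨_, (by decide +kernel : (c 2).1 / 4 % 4 = 0), p2⟩, ⟨_, (by decide +kernel : (c 32).1 / 4 % 4 = 0), p32⟩,
        ⟨_, (by decide +kernel : (c 3).1 / 4 % 4 = 0), p3⟩, ⟨_, (by decide +kernel : (c 48).1 / 4 % 4 = 0), p48⟩]
    · rintro _ ⟨x, hx, rfl⟩
      obtain ⟨i, j, k, l, rfl⟩ := (by decide +kernel : ∀ x : C, x.1 / 4 % 4 = 0 → ∃ i j k l : Bool,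
        x = (if i then c 2 else 1) * (if j then c 32 else 1) * (if k then c 3 else 1) * (if l then c 48 else 1)) x hx
      simp only [map_mul]
      refine mul_mem (mul_mem (mul_mem ?_ ?_) ?_) ?_ <;> split_ifs <;> simp only [map_one, one_mem, p2, p32, p3, p48, m1, m2, m3, m4]
  have hN : normalizer (φ.range : Set G) ≤ normalizer (E f s : Set G) := fun g hg => mem_normalizer_fintype fun x hx => by
    rw [SetLike.mem_coe, hE] at hx ⊢
    obtain ⟨y, hy, rfl⟩ := hx
    obtain ⟨y', e⟩ := (mem_normalizer_iff.1 hg _).1 (⟨y, rfl⟩ : φ y ∈ φ.range)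
    have key : ∀ p q : C, y' * (p * q * p⁻¹ * q⁻¹) = p * q * p⁻¹ * q⁻¹ * y' := fun p q => p0 (by
      obtain ⟨p', ep⟩ := (mem_normalizer_iff.1 (inv_mem hg) _).1 (⟨p, rfl⟩ : φ p ∈ φ.range)
      obtain ⟨q', eq⟩ := (mem_normalizer_iff.1 (inv_mem hg) _).1 (⟨q, rfl⟩ : φ q ∈ φ.range)
      have := congrArg φ ((by decide +kernel : ∀ a b : C, a.1 / 4 % 4 = 0 → b.1 / 4 % 4 = 0 → a * b = b * a) y _ hy
        ((by decide +kernel : ∀ p q : C, (p * q * p⁻¹ * q⁻¹).1 / 4 % 4 = 0) p' q'))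
      simp only [map_mul, map_inv, ep, eq, e] at this ⊢
      calc _ = g * (φ y * (g⁻¹ * φ p * g⁻¹⁻¹ * (g⁻¹ * φ q * g⁻¹⁻¹) * (g⁻¹ * φ p * g⁻¹⁻¹)⁻¹ * (g⁻¹ * φ q * g⁻¹⁻¹)⁻¹)) * g⁻¹ := by
            group
        _ = _ := by rw [this]; group)
    exact ⟨y', (by decide +kernel : ∀ y : C, y * (c 8 * c 32 * (c 8)⁻¹ * (c 32)⁻¹) = c 8 * c 32 * (c 8)⁻¹ * (c 32)⁻¹ * y →
      y * (c 4 * c 32 * (c 4)⁻¹ * (c 32)⁻¹) = c 4 * c 32 * (c 4)⁻¹ * (c 32)⁻¹ * y → y.1 / 4 % 4 = 0) y' (key _ _) (key _ _), e⟩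
  have nz : ∀ g : G, g * f A * g⁻¹ ∈ E f s → g * f A' * g⁻¹ ∈ E f s → g * (s * f A * s) * g⁻¹ ∈ E f s →
      g * (s * f A' * s) * g⁻¹ ∈ E f s → g ∈ normalizer (E f s : Set G) := fun g a1 a2 a3 a4 =>
    mem_normalizer_fintype fun x hx => (show E f s ≤ (E f s).comap (MulAut.conj g).toMonoidHom from (closure_le _).2 (by
      rintro _ (rfl | rfl | rfl | rfl)
      exacts [a1, a2, a3, a4])) hx
  obtain ⟨⟨z1, z2, z3, z4⟩, z5, z6, z7, z8⟩ := act h
  have hD : D f ≤ normalizer (E f s : Set G) := (closure_le _).2 (by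
    rintro _ (rfl | rfl)
    · exact nz _ (z1.symm ▸ m1) (z2.symm ▸ m2) (z3.symm ▸ m4) (z4.symm ▸ mul_mem m3 m4)
    · exact nz _ (z5.symm ▸ m2) (z6.symm ▸ mul_mem m1 m2) (z7.symm ▸ m3) (z8.symm ▸ m4))
  have cT : Nat.card φ.range = 64 := (Nat.card_congr (MonoidHom.ofInjective p0).toEquiv).symm.trans card_C
  have hT : φ.range ≤ normalizer (E f s : Set G) := le_normalizer.trans hN
  have h1 := card_dvd_of_le hD
  have h2 := (φ.range.subgroupOf (normalizer (E f s : Set G))).card_mul_index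
  rw [Nat.card_congr (subgroupOfEquivOfLe hT).toEquiv, cT] at h2
  have h3 : 0 < Nat.card (normalizer (E f s : Set G)) := Nat.card_pos
  rw [h.cD] at h1
  unfold NE at ne
  refine H26.isSyl_of_normalizer ((H26.isSyl_of_not_dvd hT (IsPGroup.of_card (n := 6) cT) ?_).mono
    (le_inf le_top le_normalizer) (inf_le_right.trans hN))
  unfold relIndex
  omega

omit [Finite G] in
theorem i_u (h : Hy f s) : IsConj (f U) (f I) := by
  obtain ⟨x, hx⟩ : ∃ x : L, x * (A * A8) * x⁻¹ = Z' := by decide +kernel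
  have e : s * f x * f (A * A8) * (s * f x)⁻¹ = f Z := by
    rw [← h.sz', ← hx, mul_inv_rev, h.si']; simp only [map_mul, map_inv, mul_assoc]
  have c : f I * f (A * A8) = f (A * A8) * f I := by
    rw [← map_mul, ← map_mul, show I * (A * A8) = A * A8 * I by decide +kernel]
  obtain ⟨y, hy, y1⟩ := h.cz (g := s * f x * f I * (s * f x)⁻¹) (by rw [← e, conj_mul, conj_mul, c])
  have y2 : y * y = 1 := h.inj (by rw [map_mul, hy, conj_mul, ← map_mul, lf.2.2.1]; simp)
  have y3 : y ≠ 1 := fun r => by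
    rw [r, map_one, eq_comm, conj_eq_one_iff, ← map_one f] at hy
    exact absurd (h.inj hy) (by decide +kernel)
  obtain ⟨w, hw⟩ := (by decide +kernel : ∀ y : L, y * Z = Z * y → y * y = 1 → y ≠ 1 → ∃ w : L, w * y = U * w) y y1 y2 y3
  exact (IsConj.symm (isConj_iff.2 ⟨f w, by rw [← map_inv, ← map_mul, ← map_mul, hw, mul_inv_cancel_right]⟩)).trans
    (IsConj.symm (isConj_iff.2 ⟨_, hy.symm⟩))

omit [Finite G] in
theorem cen_map {x y : G} (c : IsConj x y) :
    ∃ ψ : centralizer ({x} : Set G) →* centralizer ({y} : Set G), Function.Injective ψ := by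
  obtain ⟨g, rfl⟩ := isConj_iff.1 c
  exact ⟨((MulAut.conj g).toMonoidHom.comp (Subgroup.subtype _)).codRestrict _ fun k => mem_centralizer_singleton_iff.2 (by
    show g * k * g⁻¹ * _ = _ * (g * k * g⁻¹)
    rw [conj_mul, conj_mul, mem_centralizer_singleton_iff.1 k.2]), fun a b e =>
      Subtype.ext ((MulAut.conj g).injective (congrArg Subtype.val e))⟩

/-- the statement of the Sylow recognition theorem for `G` -/
def Rec (G : Type*) [Group G] : Prop := pResidual 2 G = ⊤ → pCore 2 G = ⊥ → oddCore G = ⊥ → ∀ S : Sylow 2 G,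
  (∀ P : Sylow 2 ↥(alternatingGroup (Fin 8)), Nonempty (↥(S : Subgroup G) ≃* ↥(P : Subgroup ↥(alternatingGroup (Fin 8))))) →
  (∀ z : G, z ∈ (S : Subgroup G) → (∀ s ∈ (S : Subgroup G), s * z = z * s) → orderOf z = 2 →
    Group.IsSolvable ↥(Subgroup.centralizer ({z} : Set G))) →
  Nonempty (G ≃* ↥(alternatingGroup (Fin 8))) ∨ Nonempty (G ≃* ↥(alternatingGroup (Fin 9))) ∨
    (∃ (F : Type) (_ : Field F) (_ : Fintype F), Fintype.card F = 3 ∧ Nonempty (G ≃* Cfsg.PSp 2 F))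

theorem fin (R : Rec G) (h : Hy f s) (al : Al f s) (ne : NE f s) (so : Sol s) (us : US f s) (i2 : I2 G) (oc : Oc G) :
    Nonempty (G ≃* alternatingGroup (Fin 8)) := by
  obtain ⟨φ, p0, p1, p2, p4, p8, p32, p3, p48⟩ := ex_phi h al
  obtain ⟨S, hS⟩ := (syl h ne p0 p2 p32 p3 p48).exists_sylow_top
  have cT : Nat.card φ.range = 64 := (Nat.card_congr (MonoidHom.ofInjective p0).toEquiv).symm.trans card_C
  have s1 : s ≠ 1 := fun e => absurd (p0 (p4.trans (e.trans (map_one φ).symm))) (by decide +kernel)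
  obtain ⟨⟨z1, z2, z3, z4⟩, z5, z6, z7, z8⟩ := act h
  have cz : IsConj s (φ (c 1)) := by
    rcases Cfsg.Agent.S0111.result S (QC.map φ) (hS ▸ map_le_range φ _) (by
      rw [hS, MonoidHom.range_eq_map, relIndex_map_map_of_injective _ _ p0, relIndex_top_right]
      exact index_eq_two_iff.2 ⟨c 4, (by decide +kernel : ∀ b : C, Xor ((b * c 4).1 / 4 % 2 = 0) (b.1 / 4 % 2 = 0))⟩) s
      (orderOf_eq_prime ((pow_two s).trans h.s2) s1) (hS ▸ ⟨_, p4⟩)
      (fun ⟨y, hy, e⟩ => by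
        rw [p0 (e.trans p4.symm)] at hy
        exact absurd (show (c 4).1 / 4 % 2 = 0 from hy) (by decide +kernel)) with ⟨M, -, e, -⟩ | ⟨g, y, hy, e⟩
    · exact absurd e (i2 M)
    have y2 : y * y = 1 := p0 (by rw [map_mul, e, conj_mul, h.s2]; simp)
    have y1 : y ≠ 1 := fun r => s1 (by rw [r, map_one, eq_comm, conj_eq_one_iff] at e; exact e)
    obtain ⟨d, hd⟩ := (by decide +kernel : ∀ y : C, y.1 / 4 % 2 = 0 → y * y = 1 → y ≠ 1 → ∃ d : C,
      d * y * d⁻¹ ∈ [c 1, c 2, c 8, c 32, c 32 * c 48, c 2 * c 32 * c 48, c 2 * c 32 * c 3]) y hy y2 y1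
    have k : IsConj s (φ (d * y * d⁻¹)) := (isConj_iff.2 ⟨g, e.symm⟩).trans (isConj_iff.2 ⟨φ d, by simp⟩)
    have ua : IsConj (f U) (f A) := f.map_isConj (isConj_iff.2 (by decide +kernel))
    have j : ∀ (g : G) {x y x' y' : G}, g * x * g⁻¹ = x' → g * y * g⁻¹ = y' → IsConj (x' * y') (x * y) := fun g x y _ _ a b =>
      IsConj.symm (isConj_iff.2 ⟨g, by rw [← a, ← b, conj_mul]⟩)
    simp only [List.mem_cons, List.not_mem_nil, or_false] at hd
    rcases hd with r | r | r | r | r | r | r <;> rw [r] at k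
    · exact k
    · exact absurd (ua.trans (p2 ▸ k.symm)) us
    · exact absurd ((i_u h).trans (p8 ▸ k.symm)) us
    · exact absurd ((ua.trans (isConj_iff.2 ⟨_, z5⟩)).trans (p32 ▸ k.symm)) us
    all_goals simp only [map_mul, p2, p32, p3, p48] at k; rw [p1]
    · exact (k.trans (j _ z5 z8)).trans (j _ z1 z3)
    · exact ((k.trans (j _ z6 z8)).trans (j _ z5 z8)).trans (j _ z1 z3)
    · exact (k.trans (j _ z6 z7)).trans (j _ z5 z7)
  have h27 : ¬ 27 ∣ Nat.card G := fun d => by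
    obtain ⟨P, hP⟩ := h.syl
    have := Fact.mk Nat.prime_three
    have a1 := P.not_dvd_index
    have a2 := (P : Subgroup G).card_mul_index
    rw [hP, h.cD] at a2
    rw [hP] at a1
    omega
  have r1 : pResidual 2 G = ⊤ := by
    by_contra n
    have := QuotientGroup.nontrivial_iff.2 n
    obtain ⟨M, -, -, hM⟩ := H04.exists_index_eq_of_ne_top (H03.isPGroup_quotient_pResidual (p := 2) (G := G)) (H := ⊥) bot_ne_top
    exact i2 (M.comap (QuotientGroup.mk' _)) ((index_comap_of_surjective _ (QuotientGroup.mk'_surjective _)).trans hM)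
  have r2 : ∀ z : G, z ∈ (S : Subgroup G) → (∀ s ∈ (S : Subgroup G), s * z = z * s) → orderOf z = 2 →
      Group.IsSolvable ↥(Subgroup.centralizer ({z} : Set G)) := fun z hz c2 o => by
    rw [hS] at hz c2
    obtain ⟨y, rfl⟩ := hz
    obtain rfl | rfl := (by decide +kernel : ∀ y : C, (∀ x : C, x * y = y * x) → y = 1 ∨ y = c 1) y fun x =>
      p0 (by rw [map_mul, map_mul]; exact c2 _ ⟨x, rfl⟩)
    · simp at o
    obtain ⟨ψ, hψ⟩ := cen_map cz.symm
    have := so ((cT ▸ card_dvd_of_le (fun x hx => mem_centralizer_singleton_iff.2 (c2 x hx))).trans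
      (card_dvd_of_injective ψ hψ)) fun d => by
      have a1 := S.not_dvd_index
      have a2 := (S : Subgroup G).card_mul_index
      rw [hS, cT] at a2
      rw [hS] at a1
      omega
    exact solvable_of_solvable_injective hψ
  rcases R r1 (sSup_eq_bot.2 fun N hN => oc N hN.1 (.inr hN.2))
    (sSup_eq_bot.2 fun N hN => oc N hN.1 (.inl (Nat.coprime_two_right.1 hN.2))) S
    (fun P => (model P).elim fun e => ⟨(MulEquiv.subgroupCongr hS).trans ((MonoidHom.ofInjective p0).symm.trans e)⟩)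
    r2 with r | ⟨⟨e⟩⟩ | ⟨F, _, _, hF, ⟨e⟩⟩
  · exact r
  · refine absurd ?_ h27
    have := two_mul_nat_card_alternatingGroup (α := Fin 9)
    rw [Nat.card_perm, Nat.card_eq_fintype_card (α := Fin 9), Fintype.card_fin] at this
    rw [Nat.card_congr e.toEquiv]
    simp [Nat.factorial] at this ⊢
    omega
  · refine absurd ?_ h27
    have h1 := Cfsg.Agent.S0245.result hF 2
    have h2 := Cfsg.Agent.S0246.result hF 2 (by norm_num)
    have h3 := (Subgroup.center (Matrix.symplecticGroup (Fin 2) F)).card_eq_card_quotient_mul_card_subgroup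
    rw [h1, h2] at h3
    rw [Nat.card_congr e.toEquiv]
    generalize Nat.card (PSp 2 F) = x at h3 ⊢
    simp [Finset.prod_range_succ] at h3
    omega

end H29.Cm
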