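import Cfsg.Agent.H29.CmE
import Cfsg.Agent.H19.Cm0
import Cfsg.Agent.H26.Syl

/-!
# The Sylow 2-subgroup in the 3-local characterization of the alternating group of degree eight
-/

set_option autoImplicit false
set_option maxRecDepth 100000
set_option synthInstance.maxSize 4000

namespace H29.Cm
open Equiv Subgroup H19.Cm

variable {G : Type*} [Group G]

theorem holds {a a' b b' s i : G} (ha : a * a = 1) (ha' : a' * a' = 1) (hb : b * b = 1) (hb' : b' * b' = 1) (hs : s * s = 1)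
    (hi : i * i = 1) (c1 : a' * a = a * a') (c2 : b * a = a * b) (c3 : b' * a = a * b') (c4 : b * a' = a' * b)
    (c5 : b' * a' = a' * b') (c6 : b' * b = b * b') (s1 : s * a = b * s) (s2 : s * b = a * s) (s3 : s * a' = b' * s)
    (s4 : s * b' = a' * s) (i1 : i * a = a * i) (i2 : i * b = b * i) (i3 : i * a' = a * (a' * i))
    (i4 : i * b' = b * (b' * i)) (i5 : i * s = s * i) : Holds fun n => [a * b, a, s, i, a' * b', a'].getD n 1 := by
  have x : ∀ {p q r : G}, p * q = r → ∀ x, p * (q * x) = r * x := fun e x => by rw [← mul_assoc, e]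
  intro t ht
  simp only [RU, List.mem_cons, List.not_mem_nil, or_false] at ht
  rcases ht with rfl | rfl | rfl | rfl | rfl | rfl | rfl | rfl | rfl | rfl | rfl | rfl | rfl | rfl | rfl | rfl | rfl | rfl |
    rfl | rfl | rfl <;>
  simp only [List.getD_cons_zero, List.getD_cons_succ, List.map_cons, List.map_nil, List.prod_cons, List.prod_nil, mul_one,
    one_mul, mul_assoc, ha, ha', hb, hb', hs, hi, c1, c2, c3, c4, c5, c6, s1, s2, s3, s4, i1, i2, i3, i4, i5, x ha, x ha',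
    x hb, x hb', x hs, x hi, x c1, x c2, x c3, x c4, x c5, x c6, x s1, x s2, x s3, x s4, x i1, x i2, x i3, x i4, x i5]

theorem lf : A * A = 1 ∧ A' * A' = 1 ∧ I * I = 1 ∧ A' * A = A * A' ∧ I * A = A * I ∧ I * A' = A * (A' * I) ∧ Z * A * Z⁻¹ = A ∧
    Z * A' * Z⁻¹ = A' ∧ Z' * A' * Z'⁻¹ = A * A' ∧ Z' * A * Z'⁻¹ = A' := by decide +kernel

variable {f : L →* G} {s : G}

theorem sc (h : Hy f s) (x y : G) : s * x * s * (s * y * s) = s * (x * y) * s := by
  calc _ = s * x * (s * s) * y * s := by simp only [mul_assoc]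
    _ = _ := by rw [h.s2]; simp only [mul_one, mul_assoc]

theorem sj (h : Hy f s) {x y w : L} (e : x * y * x⁻¹ = w) :
    s * f x * s * (s * f y * s) * (s * f x * s)⁻¹ = s * f w * s := by
  rw [sc h, ← e, show (s * f x * s)⁻¹ = s * (f x)⁻¹ * s by rw [mul_inv_rev, mul_inv_rev, h.si', mul_assoc], sc h, map_mul,
    map_mul, map_inv]

theorem fj {x y w : L} (e : x * y * x⁻¹ = w) : f x * f y * (f x)⁻¹ = f w := by rw [← e, map_mul, map_mul, map_inv]

/-- the action of `z` and `z'` -/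
theorem act (h : Hy f s) : (f Z * f A * (f Z)⁻¹ = f A ∧ f Z * f A' * (f Z)⁻¹ = f A' ∧
      f Z * (s * f A * s) * (f Z)⁻¹ = s * f A' * s ∧ f Z * (s * f A' * s) * (f Z)⁻¹ = s * f A * s * (s * f A' * s)) ∧
    f Z' * f A * (f Z')⁻¹ = f A' ∧ f Z' * f A' * (f Z')⁻¹ = f A * f A' ∧
      f Z' * (s * f A * s) * (f Z')⁻¹ = s * f A * s ∧ f Z' * (s * f A' * s) * (f Z')⁻¹ = s * f A' * s := by
  obtain ⟨-, -, -, -, -, -, l1, l2, l3, l4⟩ := lf
  refine ⟨⟨fj l1, fj l2, ?_, ?_⟩, fj l4, (fj l3).trans (map_mul _ _ _), ?_, ?_⟩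
  · rw [← h.sz']; exact sj h l4
  · rw [sc h, ← map_mul, ← h.sz']; exact sj h l3
  · rw [← h.sz]; exact sj h l1
  · rw [← h.sz]; exact sj h l2

theorem ex_phi (h : Hy f s) (al : Al f s) : ∃ φ : C →* G, Function.Injective φ ∧ φ (c 1) = f A * (s * f A * s) ∧
    φ (c 2) = f A ∧ φ (c 4) = s ∧ φ (c 8) = f I ∧ φ (c 32) = f A' ∧ φ (c 3) = s * f A * s ∧ φ (c 48) = s * f A' * s := by
  obtain ⟨l1, l2, l3, l4, l5, l6, -⟩ := lf
  obtain ⟨⟨z1, z2, z3, -⟩, z5, -, z7, z8⟩ := act h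
  have m : ∀ {x y w : L}, x * y = w → f x * f y = f w := fun e => by rw [← map_mul, e]
  have m1 : ∀ {x : L}, x * x = 1 → f x * f x = 1 := fun e => by rw [← map_mul, e, map_one]
  have m2 : ∀ {x : L}, x * x = 1 → s * f x * s * (s * f x * s) = 1 := fun e => by rw [sc h, m1 e, mul_one, h.s2]
  have cj : ∀ (g : G) {x y : G}, x * y = y * x → g * x * g⁻¹ * (g * y * g⁻¹) = g * y * g⁻¹ * (g * x * g⁻¹) := fun g x y e => by
    rw [conj_mul, conj_mul, e]
  have c2 : s * f A * s * f A = f A * (s * f A * s) := al.symm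
  have c3 := cj (f Z) c2
  rw [z1, z3] at c3
  have c4 := cj (f Z') c2
  rw [z5, z7] at c4
  have c5 := cj (f Z') c3
  rw [z5, z8] at c5
  have c1 : f A' * f A = f A * f A' := by rw [← map_mul, l4, map_mul]
  have s1 : ∀ x : G, s * x = s * x * s * s := fun x => by rw [mul_assoc, h.s2, mul_one]
  have s2 : ∀ x : G, s * (s * x * s) = x * s := fun x => by rw [← mul_assoc, ← mul_assoc, h.s2, one_mul]
  have si : s * f I * s = f I := by rw [h.si, mul_assoc, h.s2, mul_one]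
  have i1 : f I * f A = f A * f I := by rw [← map_mul, l5, map_mul]
  have i3 : f I * f A' = f A * (f A' * f I) := by rw [← map_mul, l6, map_mul, map_mul]
  have hz : f A * (s * f A * s) ≠ 1 := fun e => by
    have e1 : s * f A * s = f A := (inv_eq_of_mul_eq_one_right e).symm.trans (inv_eq_of_mul_eq_one_right (m1 l1))
    rw [e1, z5] at z7
    exact absurd (h.inj z7) (by decide +kernel)
  obtain ⟨φ, p0, p1, p2, p3, p4, p5, p6⟩ := ex_hom (holds (m1 l1) (m1 l2) (m2 l1) (m2 l2) h.s2 (m1 l3) c1 c2 c3 c4 c5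
    (by rw [sc h, sc h, c1]) (s1 _) (s2 _) (s1 _) (s2 _) i1 (by rw [← si, sc h, sc h, i1]) i3
    (by rw [← si, sc h, sc h, sc h, i3]) h.si.symm) hz
  · refine ⟨φ, p0, p1, p2, p3, p4, p6, ?_, ?_⟩
    · rw [show c 3 = c 2 * c 1 by decide +kernel, map_mul, p1, p2]
      show f A * (f A * _) = _
      rw [← mul_assoc, m1 l1, one_mul]
    · rw [show c 48 = c 32 * c 16 by decide +kernel, map_mul, p5, p6]
      show f A' * (f A' * _) = _
      rw [← mul_assoc, m1 l2, one_mul]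

end H29.Cm
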