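import Mathlib
import Cfsg.Agent.H07.Schur

/-! Dihedral groups are B-groups, part 1: rational subsets of cyclic groups. -/

set_option autoImplicit false

namespace H29.DB

open Finset MonoidAlgebra H07.Dih
open scoped Pointwise

variable {K : Type*} [CommGroup K] [Fintype K] [DecidableEq K]

/-- closed under passing to elements of the same order -/
def Rat (A : Finset K) : Prop := ∀ g ∈ A, ∀ g', orderOf g' = orderOf g → g' ∈ A

theorem coeff_mul' {D R : Type*} [Group D] [Fintype D] [CommRing R] (x y : R[D]) (g : D) :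
    (x * y).coeff g = ∑ a, x.coeff a * y.coeff (a⁻¹ * g) := by
  rw [coeff_mul_apply_left, Finsupp.sum_fintype]
  simp

theorem eq_sum {D R : Type*} [Group D] [Fintype D] [CommRing R] (x : R[D]) : x = ∑ g, single g (x.coeff g) := by
  classical
  ext g; simp [coeff_sum, Finsupp.finsetSum_apply, Finsupp.single_apply]

theorem coeff_pow_char (l n : ℕ) [Fact l.Prime] (x : (ZMod l)[K]) (g : K) :
    (x ^ l ^ n).coeff g = ∑ c with c ^ l ^ n = g, x.coeff c := by
  have := charP (K := K) l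
  conv_lhs => rw [eq_sum x]
  simp [sum_pow_char_pow, single_pow, coeff_sum, Finsupp.finsetSum_apply, Finsupp.single_apply,
    ZMod.pow_card_pow, sum_filter]

omit [DecidableEq K] in
theorem ord_mul_eq {p : ℕ} {c z : K} (hz : z ^ p = 1) (h1 : p ∣ orderOf c) (h2 : p ∣ orderOf (c * z)) :
    orderOf (c * z) = orderOf c := by
  have key : ∀ c z : K, z ^ p = 1 → p ∣ orderOf c → orderOf (c * z) ∣ orderOf c := by
    intro c z hz ⟨k, hk⟩
    apply orderOf_dvd_of_pow_eq_one
    rw [mul_pow, pow_orderOf_eq_one, one_mul, hk, pow_mul, hz, one_pow]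
  refine Nat.dvd_antisymm (key c z hz h1) ?_
  have := key (c * z) z⁻¹ (by simp [hz]) h2
  simpa using this

omit [DecidableEq K] in
theorem dvd_ord_mul {p : ℕ} (hp : p.Prime) {c z : K} (hz : z ^ p = 1) (hz1 : z ≠ 1) (h1 : ¬ p ∣ orderOf c) :
    p ∣ orderOf (c * z) := by
  by_contra h2
  apply hz1
  have h3 : z ^ (orderOf c * orderOf (c * z)) = 1 := by
    have e : (c * z) ^ (orderOf c * orderOf (c * z)) = 1 := by rw [mul_comm (orderOf c), pow_mul, pow_orderOf_eq_one, one_pow]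
    rwa [mul_pow, pow_mul c, pow_orderOf_eq_one, one_pow, one_mul] at e
  have h4 : (orderOf c * orderOf (c * z)).Coprime p :=
    Nat.Coprime.mul_left ((hp.coprime_iff_not_dvd.2 h1).symm) ((hp.coprime_iff_not_dvd.2 h2).symm)
  exact orderOf_eq_one_iff.1 (Nat.eq_one_of_dvd_coprimes h4 (orderOf_dvd_of_pow_eq_one h3) (orderOf_dvd_of_pow_eq_one hz))

theorem two_step {A : Finset K} (hA : Rat A) {w c : ℤ}
    (hf : gs ℤ A ^ 3 = (w : ℤ[K]) ^ 2 * gs ℤ A + (c : ℤ[K]) * gs ℤ univ) (hw : (2 : ℤ) ∣ w) {z : K}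
    (hz : orderOf z = 2) : ∀ g ∈ A, g * z ∈ A := by
  have hz2 : z ^ 2 = 1 := hz ▸ pow_orderOf_eq_one z
  have hz1 : z ≠ 1 := by rintro rfl; simp at hz
  have hzi : z⁻¹ = z := inv_eq_of_mul_eq_one_right (by rw [← sq, hz2])
  have hzz : ∀ g : K, g * z * z = g := fun g => by rw [mul_assoc, ← sq, hz2, mul_one]
  let e : K → ℤ := fun h => if 2 ∣ orderOf h then 0 else (if h ∈ A then 1 else 0) - (if h * z ∈ A then 1 else 0)
  let F : ℤ[K] := ∑ h, single h (e h)
  have hF : ∀ g, F.coeff g = e g := fun g => by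
    simp [F, coeff_sum, Finsupp.finsetSum_apply, Finsupp.single_apply]
  let u : ℤ[K] := 1 - single z 1
  have hu : ∀ (x : ℤ[K]) g, (x * u).coeff g = x.coeff g - x.coeff (g * z) := fun x g => by
    simp [u, mul_sub, hzi]
  have hsame : ∀ g, 2 ∣ orderOf g → 2 ∣ orderOf (g * z) → (g ∈ A ↔ g * z ∈ A) := fun g h1 h2 =>
    ⟨fun h => hA g h _ (ord_mul_eq hz2 h1 h2), fun h => hA _ h _ (ord_mul_eq hz2 h1 h2).symm⟩
  have e1 : gs ℤ A * u = F * u := by
    ext g
    rw [hu, hu, hF, hF, coeff_gs, coeff_gs]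
    simp only [e, hzz]
    by_cases h1 : 2 ∣ orderOf g <;> by_cases h2 : 2 ∣ orderOf (g * z)
    · simp [h1, h2, hsame g h1 h2]
    · simp [h1, h2]
    · simp [h1, h2]
    · exact absurd (dvd_ord_mul Nat.prime_two hz2 hz1 h1) h2
  have e2 : u * u = 2 * u := by
    have : (single z 1 : ℤ[K]) * single z 1 = 1 := by rw [single_mul_single, ← sq, hz2, mul_one]; rfl
    simp only [u]; linear_combination this
  have e3 : gs ℤ univ * u = 0 := by
    ext g; rw [hu]; simp [coeff_gs]
  have e4 : 4 * ((F ^ 3 - (w : ℤ[K]) ^ 2 * F) * u) = 0 := by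
    have a1 : F ^ 3 * u ^ 3 = gs ℤ A ^ 3 * u ^ 3 := by rw [← mul_pow, ← mul_pow, e1]
    have a2 : u ^ 3 = 4 * u := by linear_combination (u + 2) * e2
    rw [a2, hf] at a1
    linear_combination a1 + 4 * (w : ℤ[K]) ^ 2 * e1 + 4 * (c : ℤ[K]) * e3
  let S : ℤ[K] → Prop := fun x => ∀ g, 2 ∣ orderOf g → x.coeff g = 0
  have hS : ∀ x y, S x → S y → S (x * y) := by
    intro x y hx hy g hg
    rw [coeff_mul']
    refine sum_eq_zero fun a _ => ?_
    by_cases h1 : 2 ∣ orderOf a
    · rw [hx a h1, zero_mul]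
    by_cases h2 : 2 ∣ orderOf (a⁻¹ * g)
    · rw [hy _ h2, mul_zero]
    exfalso
    have : orderOf g ∣ orderOf a * orderOf (a⁻¹ * g) := by
      simpa using (Commute.all a (a⁻¹ * g)).orderOf_mul_dvd_mul_orderOf
    rcases (Nat.prime_two.dvd_mul).1 (hg.trans this) with h | h
    exacts [h1 h, h2 h]
  have hSF : S F := fun g hg => by rw [hF]; simp [e, hg]
  have e5 : F ^ 3 = (w : ℤ[K]) ^ 2 * F := by
    have a1 : S (F ^ 3 - (w : ℤ[K]) ^ 2 * F) := by
      intro g hg
      have b1 : (F ^ 3).coeff g = 0 := by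
        rw [show F ^ 3 = F * (F * F) by ring]; exact hS _ _ hSF (hS _ _ hSF hSF) g hg
      have b2 : ((w : ℤ[K]) ^ 2 * F) = (w ^ 2) • F := by rw [zsmul_eq_mul]; push_cast; rfl
      rw [b2, coeff_sub, Finsupp.sub_apply, b1, coeff_smul_apply, hSF g hg]
      simp
    rw [← sub_eq_zero]
    ext g
    by_cases h1 : 2 ∣ orderOf g
    · exact a1 g h1
    have a2 := congrArg (fun x : ℤ[K] => x.coeff g) e4
    rw [show (4 : ℤ[K]) = ((4 : ℤ) : ℤ[K]) by norm_num, ← zsmul_eq_mul] at a2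
    simp only [coeff_smul_apply, hu, a1 _ (dvd_ord_mul Nat.prime_two hz2 hz1 h1), smul_eq_mul, coeff_zero,
      Finsupp.zero_apply] at a2
    simpa using a2
  have hodd : ∀ h, ¬ 2 ∣ orderOf h → (h ∈ A ↔ h * z ∈ A) := by
    intro h hh
    haveI := charP (K := K) 2
    have a1 := congrArg (mapRingHom K (Int.castRingHom (ZMod 2))) e5
    simp only [map_pow, map_mul, map_intCast] at a1
    rw [(CharP.intCast_eq_zero_iff ((ZMod 2)[K]) 2 w).2 hw, zero_pow two_ne_zero, zero_mul] at a1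
    have a2 : (mapRingHom K (Int.castRingHom (ZMod 2)) F) ^ 2 ^ 2 = 0 := by
      rw [show 2 ^ 2 = 3 + 1 by norm_num, pow_succ, a1, zero_mul]
    have a3 := coeff_pow_char 2 2 (mapRingHom K (Int.castRingHom (ZMod 2)) F) (h ^ 2 ^ 2)
    rw [a2, sum_eq_single_of_mem h (by simp)] at a3
    · simp only [coeff_zero, Finsupp.zero_apply, coeff_mapRingHom, hF, e, if_neg hh] at a3
      by_cases b1 : h ∈ A <;> by_cases b2 : h * z ∈ A <;> simp [b1, b2] at a3 ⊢
    · intro d hd hdh
      rw [coeff_mapRingHom, hF]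
      by_cases b1 : 2 ∣ orderOf d
      · simp [e, b1]
      exfalso
      apply hdh
      have b2 : (d * h⁻¹) ^ 2 ^ 2 = 1 := by rw [mul_pow, (mem_filter.1 hd).2]; simp
      have b3 : orderOf (d * h⁻¹) ∣ orderOf d * orderOf h := by
        simpa using (Commute.all d h⁻¹).orderOf_mul_dvd_mul_orderOf
      have b4 : (orderOf d * orderOf h).Coprime (2 ^ 2) :=
        (Nat.Coprime.mul_left ((Nat.prime_two.coprime_iff_not_dvd.2 b1).symm)
          ((Nat.prime_two.coprime_iff_not_dvd.2 hh).symm)).pow_right 2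
      exact mul_inv_eq_one.1 (orderOf_eq_one_iff.1 (Nat.eq_one_of_dvd_coprimes b4 b3 (orderOf_dvd_of_pow_eq_one b2)))
  intro g hg
  by_cases h1 : 2 ∣ orderOf g
  · by_cases h2 : 2 ∣ orderOf (g * z)
    · exact (hsame g h1 h2).1 hg
    · exact (hodd _ h2).2 (by rwa [hzz])
  · exact (hodd g h1).1 hg

theorem step2 [IsCyclic K] {A : Finset K} (hA : Rat A) {w c : ℤ}
    (hf : gs ℤ A ^ 3 = (w : ℤ[K]) ^ 2 * gs ℤ A + (c : ℤ[K]) * gs ℤ univ) {l : ℕ} (hl : l.Prime)
    (hw : (l : ℤ) ∣ w) :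
    (∃ y : K, orderOf y = l ∧ ∀ g ∈ A, g * y ∈ A) ∨ ∀ g g', (g ∈ A ↔ g' ∈ A) := by
  have := Fact.mk hl
  have := charP (K := K) l
  have h1 : ∀ n, 3 ≤ l ^ n → ∃ r : ZMod l, ∀ g, (#{x ∈ A | x ^ l ^ n = g} : ZMod l) = r := fun n hn => by
    have a1 := congrArg (mapRingHom K (Int.castRingHom (ZMod l))) hf
    simp only [map_pow, map_add, map_mul, map_gs, map_intCast,
      (CharP.intCast_eq_zero_iff _ l w).2 hw] at a1
    obtain ⟨m, hm⟩ := Nat.exists_eq_add_of_le' hn
    have a2 : gs (ZMod l) A ^ l ^ n = (aug (ZMod l) K (gs (ZMod l) A ^ m * c)) • gs (ZMod l) univ := by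
      rw [hm, pow_add, a1, zero_pow two_ne_zero, zero_mul, zero_add, ← mul_assoc, mul_J]
    generalize aug (ZMod l) K _ = r at a2
    refine ⟨r, fun g => ?_⟩
    have := congrArg (fun x => x.coeff g) a2
    simpa [coeff_gs_pow, coeff_gs] using this
  by_cases h2 : l ∣ Fintype.card K
  · obtain ⟨y, hy⟩ := exists_prime_orderOf_dvd_card l h2
    by_cases hl2 : l = 2
    · subst hl2
      exact .inl ⟨y, hy, two_step hA hf hw hy⟩
    obtain ⟨r, hr⟩ := h1 1 (by have := hl.two_le; rw [pow_one]; omega)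
    simp only [pow_one] at hr
    have hy1 : y ^ l = 1 := hy ▸ pow_orderOf_eq_one y
    obtain ⟨z, hz⟩ : ∃ z : K, ∀ x, x ^ l ≠ z := by
      by_contra! h3
      have := Finite.injective_iff_surjective.2 h3 (hy1.trans (one_pow l).symm)
      rw [this, orderOf_one] at hy
      exact hl.one_lt.ne hy
    have h3 := hr z
    rw [filter_false_of_mem fun x _ => hz x] at h3
    refine .inl ⟨y, hy, fun g hg => coset hy1 hg ?_⟩
    simpa [← h3] using hr (g ^ l)
  · obtain ⟨r, hr⟩ := h1 2 (by have := hl.two_le; nlinarith)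
    have h3 : Function.Injective fun x : K => x ^ l ^ 2 :=
      (powCoprime (G := K) (n := l ^ 2) (by
        rw [Nat.card_eq_fintype_card]
        exact ((hl.coprime_iff_not_dvd.2 h2).pow_left 2).symm)).injective
    have h4 : ∀ g, (if g ∈ A then 1 else 0) = r := fun g => by
      have := hr (g ^ l ^ 2)
      rw [filter_congr fun x _ => h3.eq_iff, filter_eq'] at this
      split_ifs at this ⊢ <;> simpa using this
    refine .inr fun g g' => ?_
    have := (h4 g).trans (h4 g').symm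
    by_cases a : g ∈ A <;> by_cases b : g' ∈ A <;> simp [a, b] at this ⊢

theorem same_order [IsCyclic K] {g g' : K} (h : orderOf g' = orderOf g) :
    ∃ k, k.Coprime (Fintype.card K) ∧ g ^ k = g' := by
  classical
  have ho := orderOf_pos g
  have h1 : g' ∈ Subgroup.zpowers g := by
    have a1 := IsCyclic.card_pow_eq_one_le (α := K) ho
    have a2 : (Subgroup.zpowers g : Set K).toFinset ⊆ ({a | a ^ orderOf g = 1} : Finset K) := by
      intro x hx
      obtain ⟨k, rfl⟩ : x ∈ Subgroup.zpowers g := by simpa using hx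
      simp only [mem_filter, mem_univ, true_and]
      rw [← zpow_natCast, ← zpow_mul, mul_comm, zpow_mul, zpow_natCast, pow_orderOf_eq_one, one_zpow]
    have a3 : #(Subgroup.zpowers g : Set K).toFinset = orderOf g := by
      rw [Set.toFinset_card, ← Nat.card_eq_fintype_card]; exact Nat.card_zpowers g
    have a4 := eq_of_subset_of_card_le a2 (a3 ▸ a1)
    have : g' ∈ (Subgroup.zpowers g : Set K).toFinset := by
      rw [a4]; simp [← h, pow_orderOf_eq_one]
    simpa using this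
  obtain ⟨j, rfl⟩ := (Submonoid.mem_powers_iff ..).1 (mem_powers_iff_mem_zpowers.2 h1)
  have h2 : (orderOf g).Coprime j := by
    rw [orderOf_pow] at h
    exact (Nat.div_eq_self.1 h).resolve_left ho.ne'
  haveI : NeZero (Fintype.card K) := ⟨Fintype.card_ne_zero⟩
  obtain ⟨U, hU⟩ := ZMod.unitsMap_surjective (orderOf_dvd_card (x := g)) (ZMod.unitOfCoprime j h2.symm)
  refine ⟨(U : ZMod (Fintype.card K)).val, ZMod.val_coe_unit_coprime U, ?_⟩
  rw [pow_eq_pow_iff_modEq, ← ZMod.natCast_eq_natCast_iff]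
  have := congrArg Units.val hU
  simpa [ZMod.unitsMap_def] using this

theorem ind2.{u} (n : ℕ) : ∀ (K : Type u) [CommGroup K] [Fintype K] [DecidableEq K] [IsCyclic K],
    Fintype.card K = n → ∀ A : Finset K, 1 ∉ A → Rat A → ∀ (w : ℕ) (c : ℤ),
      gs ℤ A ^ 3 = (w : ℤ[K]) ^ 2 * gs ℤ A + (c : ℤ[K]) * gs ℤ univ → A = ∅ ∨ #A + w = n ∨ #A = w := by
  induction n using Nat.strong_induction_on with
  | _ n ih =>
  intro K _ _ _ _ hn A h1 hA w c hf
  subst hn
  classical
  have hs : ∀ g ∈ A, g⁻¹ ∈ A := fun g hg => hA g hg _ (orderOf_inv g)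
  rw [or_iff_not_imp_left, ← Ne, ← nonempty_iff_ne_empty]
  rintro ⟨g, hg⟩
  by_cases hw : w = 1
  · by_cases h2 : 2 ≤ #A
    · exact .inl (hw ▸ base h1 hs h2 (c := c) (by simpa [hw] using hf))
    · have := card_pos.2 ⟨g, hg⟩
      exact .inr (by omega)
  obtain ⟨l, hl, w, rfl⟩ := Nat.exists_prime_and_dvd hw
  obtain ⟨y, hy, h2⟩ := (step2 hA (w := (l * w : ℕ)) (c := c) (by simpa using hf) hl
    (by simp)).resolve_right fun h => h1 ((h 1 g).2 hg)
  let E := Subgroup.zpowers y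
  let f := QuotientGroup.mk' E
  have := Fintype.ofFinite (K ⧸ E)
  have := isCyclic_of_surjective f (QuotientGroup.mk'_surjective E)
  have h3 : ∀ a ∈ A, ∀ b, f b = f a → b ∈ A := fun a ha b h => by
    obtain ⟨m, hm⟩ := (Submonoid.mem_powers_iff ..).1 (mem_powers_iff_mem_zpowers.2 (QuotientGroup.eq.1 h.symm))
    rw [← mul_inv_cancel_left a b, ← hm]
    clear hm
    induction m with
    | zero => simpa
    | succ m ih => rw [pow_succ, ← mul_assoc]; exact h2 _ ih
  have h4 : ∀ A : Finset K, (∀ a ∈ A, ∀ b, f b = f a → b ∈ A) →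
      mapDomainRingHom ℤ f (gs ℤ A) = l * gs ℤ (A.image f) := fun A h => by
    rw [gs, map_sum, ← sum_fiberwise_of_maps_to (g := f) fun a ha => mem_image_of_mem f ha, gs, mul_sum]
    refine sum_congr rfl fun b hb => ?_
    obtain ⟨a, ha, rfl⟩ := mem_image.1 hb
    rw [sum_congr rfl (g := fun _ => single (f a) 1) fun x hx => by simp [(mem_filter.1 hx).2], sum_const,
      nsmul_eq_mul, show A.filter (f · = f a) = univ.filter (f · = f a) by ext; simpa using h a ha _,
      MonoidHom.card_fiber_eq_of_mem_range f (y := 1) ⟨a, rfl⟩ ⟨1, rfl⟩, ← hy, ← Nat.card_zpowers,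
      ← Fintype.card_subtype, ← Nat.card_eq_fintype_card]
    congr 2
    exact Nat.card_congr (Equiv.subtypeEquivRight fun x => QuotientGroup.eq_one_iff x)
  have h5 := congrArg (mapDomainRingHom ℤ f) hf
  simp only [map_pow, map_add, map_mul, map_natCast, map_intCast, h4 A h3, h4 univ (by simp),
    image_univ_of_surjective (f := f) (QuotientGroup.mk'_surjective E), Nat.cast_mul] at h5
  have hl0 : ∀ x : ℤ[K ⧸ E], l * x = 0 → x = 0 := fun x hx => by
    ext a
    have := congrArg (fun x => x.coeff a) ((nsmul_eq_mul l x).trans hx)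
    simp only [coeff_smul_apply] at this
    simpa [hl.ne_zero] using this
  have h6 := sub_eq_zero.1 (hl0 ((l ^ 2 : ℤ) • (gs ℤ (A.image f) ^ 3 - (w : ℤ[K ⧸ E]) ^ 2 * gs ℤ (A.image f)) -
    c • gs ℤ univ)
    (by simp only [zsmul_eq_mul]; push_cast; linear_combination h5))
  have h7 := congrArg (fun x => x.coeff 1) h6
  simp only [coeff_smul_apply, coeff_gs, mem_univ, if_true, smul_eq_mul, mul_one] at h7
  have h8 := E.card_mul_index
  have h9 := congrArg (aug ℤ _) (h4 A h3)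
  rw [Nat.card_zpowers, hy, Subgroup.index, Nat.card_eq_fintype_card, Nat.card_eq_fintype_card] at h8
  rw [map_mul, aug_gs, map_natCast] at h9
  have h10 : aug ℤ _ (mapDomainRingHom ℤ f (gs ℤ A)) = #A := by simp [gs, aug]
  have h11 : #A = l * #(A.image f) := by exact_mod_cast h10.symm.trans h9
  rcases ih _ (h8 ▸ (Nat.lt_mul_iff_one_lt_left Fintype.card_pos).2 hl.one_lt) (K ⧸ E) rfl
    (A.image f) (fun h => by
      obtain ⟨a, ha, h⟩ := mem_image.1 h
      exact h1 (h3 a ha 1 h.symm)) (fun b hb b' hb' => by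
      obtain ⟨a, ha, rfl⟩ := mem_image.1 hb
      obtain ⟨k, hk, rfl⟩ := same_order hb'
      obtain ⟨k', hk', hkk⟩ : ∃ k', k'.Coprime (Fintype.card K) ∧ f a ^ k' = f a ^ k := by
        haveI : NeZero (Fintype.card K) := ⟨Fintype.card_ne_zero⟩
        obtain ⟨U, hU⟩ := ZMod.unitsMap_surjective (show Fintype.card (K ⧸ E) ∣ Fintype.card K from ⟨l, by rw [← h8, mul_comm]⟩)
          (ZMod.unitOfCoprime k hk)
        refine ⟨(U : ZMod (Fintype.card K)).val, ZMod.val_coe_unit_coprime U, ?_⟩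
        rw [pow_eq_pow_iff_modEq]
        refine Nat.ModEq.of_dvd orderOf_dvd_card ?_
        rw [← ZMod.natCast_eq_natCast_iff]
        have := congrArg Units.val hU
        simpa [ZMod.unitsMap_def] using this
      rw [← hkk, ← map_pow]
      refine mem_image_of_mem f (hA a ha _ ?_)
      exact Nat.Coprime.orderOf_pow (hk'.symm.coprime_dvd_left orderOf_dvd_card)) w
      ((gs ℤ (A.image f) ^ 3 - (w : ℤ[K ⧸ E]) ^ 2 * gs ℤ (A.image f)).coeff 1) (sub_eq_iff_eq_add'.1 (sub_eq_zero.1 (hl0 _ (hl0 _ (by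
        rw [← h7, zsmul_eq_mul, zsmul_eq_mul] at h6
        push_cast at h6
        linear_combination h6))))) with h | h | h
  · exact absurd (mem_image_of_mem f hg) (by simp [h])
  · left; rw [← h8, ← h, mul_add, h11]
  · right; rw [h11, h]

end H29.DB
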