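import Mathlib
import Cfsg.Agent.H29.DB1

/-! Dihedral groups are B-groups, part 2: the rank-three computation. -/

set_option autoImplicit false

namespace H29.DB

open Finset MonoidAlgebra H07.Dih

variable {K : Type*} [CommGroup K] [Fintype K] [DecidableEq K]

/-- the antipode -/
noncomputable def st {R : Type*} [CommRing R] : R[K] →+* R[K] := mapDomainRingHom R (invMonoidHom : K →* K)

omit [Fintype K] [DecidableEq K] in
@[simp] theorem st_single {R : Type*} [CommRing R] (g : K) (a : R) : st (single g a) = single g⁻¹ a := by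
  simp [st]

omit [Fintype K] [DecidableEq K] in
@[simp] theorem coeff_st {R : Type*} [CommRing R] (x : R[K]) (g : K) : (st x).coeff g = x.coeff g⁻¹ := by
  classical
  induction x using induction_linear with
  | zero => simp
  | add x y hx hy => simp [hx, hy]
  | single a r => simp [Finsupp.single_apply, inv_eq_iff_eq_inv]

omit [Fintype K] [DecidableEq K] in
@[simp] theorem st_st {R : Type*} [CommRing R] (x : R[K]) : st (st x) = x := by
  ext g; simp

omit [Fintype K] [DecidableEq K] in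
@[simp] theorem aug_st {R : Type*} [CommRing R] (x : R[K]) : aug R K (st x) = aug R K x := by
  induction x using induction_linear with
  | zero => simp
  | add x y hx hy => simp [hx, hy]
  | single a r => simp [aug]

theorem eight (a1 a2 b0 b1 b2 b3 b4 b5 b6 b7 : Bool) (h : a1 ∨ a2) :
    let α : ZMod 8 → ℤ := fun i => if ![false, a1, a2, a1, false, a1, a2, a1] i then 1 else 0
    let β : ZMod 8 → ℤ := fun i => if ![b0, b1, b2, b3, b4, b5, b6, b7] i then 1 else 0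
    ¬ ∀ j : ZMod 8, j ≠ 0 → ∑ i, α i * α (-i + j) + ∑ i, β i * β (-(-i + j)) =
      ∑ i, α i * α (-i + 1) + ∑ i, β i * β (-(-i + 1)) := by
  revert a1 a2 b0 b1 b2 b3 b4 b5 b6 b7
  decide +kernel

theorem core [IsCyclic K] {A B : Finset K} (hA : Rat A) (h1 : 1 ∉ A) (hne : A.Nonempty) {y : K}
    (hy : (orderOf y).Prime) (hAy : ∀ g ∈ A, g * y ∈ A) (hB : B.Nonempty) (hB' : B ≠ univ) {μ : ℤ}
    (e1 : ∀ g ≠ 1, (gs ℤ A * gs ℤ A + gs ℤ B * st (gs ℤ B)).coeff g = μ)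
    (e2 : ∀ g, (gs ℤ A * gs ℤ B + gs ℤ B * gs ℤ A).coeff g = μ) : False := by
  have hs : ∀ g ∈ A, g⁻¹ ∈ A := fun g hg => hA g hg _ (orderOf_inv g)
  set n := Fintype.card K with hn
  have c1 : (gs ℤ A * gs ℤ A + gs ℤ B * st (gs ℤ B)).coeff 1 = #A + #B := by
    rw [coeff_add, Finsupp.add_apply, coeff_gs_mul, coeff_gs_mul,
      sum_congr rfl (g := fun _ => (1 : ℤ)) fun a ha => by simp [coeff_gs, hs a ha],
      sum_congr rfl (s₁ := B) (g := fun _ => (1 : ℤ)) fun a ha => by simp [coeff_gs, ha]]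
    simp
  have E1 : gs ℤ A * gs ℤ A + gs ℤ B * st (gs ℤ B) = ((#A + #B - μ : ℤ) : ℤ[K]) + (μ : ℤ[K]) * gs ℤ univ := by
    ext g
    rw [← zsmul_eq_mul, coeff_add (_ : ℤ[K]) (μ • _), Finsupp.add_apply, coeff_int, coeff_smul_apply, coeff_gs]
    by_cases hg : g = 1
    · subst hg; rw [c1]; simp
    · rw [e1 g hg]; simp [hg]
  set ν := (gs ℤ A * gs ℤ B).coeff 1 with hν
  have hμ : μ = 2 * ν := by
    rw [← e2 1, mul_comm (gs ℤ B), coeff_add, Finsupp.add_apply]; ring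
  have E2 : gs ℤ A * gs ℤ B = (ν : ℤ[K]) * gs ℤ univ := by
    ext g
    have := e2 g
    rw [mul_comm (gs ℤ B), coeff_add, Finsupp.add_apply] at this
    rw [← zsmul_eq_mul, coeff_smul_apply, coeff_gs]
    simp; omega
  have a1 := congrArg (aug ℤ K) E1
  have a2 := congrArg (aug ℤ K) E2
  simp only [map_add, map_mul, aug_gs, aug_st, map_intCast, Int.cast_id, card_univ, ← hn] at a1 a2
  obtain ⟨w, hw⟩ : ∃ w : ℕ, (#A : ℤ) - #B = w ∨ (#A : ℤ) - #B = -w := ⟨_, Int.natAbs_eq _⟩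
  have hk : (#A + #B - μ : ℤ) = (w : ℤ) ^ 2 := by
    have : (w : ℤ) ^ 2 = ((#A : ℤ) - #B) ^ 2 := by rcases hw with h | h <;> rw [h] <;> ring
    rw [this]; linear_combination -a1 + 2 * a2 - n * hμ
  have hJ : ∀ x : ℤ[K], x * gs ℤ univ = (aug ℤ K x : ℤ[K]) * gs ℤ univ := fun x => by
    rw [mul_J, zsmul_eq_mul]
  have hf : gs ℤ A ^ 3 = (w : ℤ[K]) ^ 2 * gs ℤ A + ((μ * #A - ν * #B : ℤ) : ℤ[K]) * gs ℤ univ := by
    have b1 := hJ (gs ℤ A)
    have b2 := hJ (st (gs ℤ B))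
    rw [aug_gs] at b1
    rw [aug_st, aug_gs] at b2
    rw [hk] at E1
    push_cast at E1 b1 b2 ⊢
    linear_combination gs ℤ A * E1 - st (gs ℤ B) * E2 + μ * b1 - ν * b2
  have := Fact.mk hy
  have hy1 : y ≠ 1 := fun h => hy.one_lt.ne' (by rw [h, orderOf_one])
  have p1 : orderOf y ∣ #A := (ZMod.natCast_eq_zero_iff _ _).1 (H07.Schur.card_inv hy1 (pow_orderOf_eq_one y) hAy)
  have p2 : orderOf y ∣ n := orderOf_dvd_card
  have hApos := card_pos.2 hne
  have hBpos := card_pos.2 hB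
  have hBlt : #B < n := card_lt_card (ssubset_univ_iff.2 hB')
  have hAlt : #A < n := card_lt_card (ssubset_univ_iff.2 fun h => h1 (h ▸ mem_univ _))
  have key : orderOf y ∣ w ∧ 0 < w ∧ 4 * (w : ℤ) = n * (3 - w) := by
    rcases ind2 n K rfl A h1 hA w _ hf with h | h | h
    · exact absurd h hne.ne_empty
    · have hw0 : 0 < w := by omega
      refine ⟨(Nat.dvd_add_right p1).1 (h ▸ p2), hw0, ?_⟩
      have b1 : (#A : ℤ) = n - w := by omega
      have b2 : (#B : ℤ) = n - 2 * w := by omega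
      have b3 : (w : ℤ) ≠ 0 := by omega
      apply mul_left_cancel₀ b3
      rw [b1, b2] at hk a2
      linear_combination 2 * a2 - n * hμ - n * hk
    · refine ⟨h ▸ p1, h ▸ hApos, ?_⟩
      have b1 : (#A : ℤ) = w := by omega
      have b2 : (#B : ℤ) = 2 * w := by omega
      have b3 : (w : ℤ) ≠ 0 := by omega
      apply mul_left_cancel₀ b3
      rw [b1, b2] at hk a2
      linear_combination 2 * a2 - n * hμ - n * hk
  obtain ⟨k1, k2, k3⟩ := key
  have k4 := (Nat.le_of_dvd k2 k1)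
  have k5 := hy.two_le
  have hw2 : w = 2 := by
    by_contra h
    have : (3 : ℤ) ≤ w := by omega
    have : (0 : ℤ) ≤ n := by omega
    nlinarith
  subst hw2
  have hn8 : n = 8 := by omega
  have hy2 : orderOf y = 2 := by omega
  have hc : Nat.card K = 8 := by rw [Nat.card_eq_fintype_card]; exact hn8
  obtain ⟨φ⟩ : Nonempty (Multiplicative (ZMod 8) ≃* K) := ⟨hc ▸ zmodCyclicMulEquiv (G := K) inferInstance⟩
  let ψ : ZMod 8 ≃ K := Multiplicative.ofAdd.trans φ.toEquiv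
  have hψ : ∀ i j, ψ (i + j) = ψ i * ψ j := fun i j => φ.map_mul _ _
  have hψ' : ∀ i, ψ (-i) = (ψ i)⁻¹ := fun i => φ.map_inv _
  have hψ0 : ψ 0 = 1 := φ.map_one
  have ho : ∀ i, orderOf (ψ i) = addOrderOf i := fun i => φ.orderOf_eq _
  have hR : ∀ i j, addOrderOf i = addOrderOf j → (ψ i ∈ A ↔ ψ j ∈ A) := fun i j h =>
    ⟨fun g => hA _ g _ (by rw [ho, ho, h]), fun g => hA _ g _ (by rw [ho, ho, h])⟩
  have ao : ∀ i : ℕ, addOrderOf (i : ZMod 8) = 8 / Nat.gcd 8 i := fun i => ZMod.addOrderOf_coe i (by norm_num)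
  have o1 : addOrderOf (1 : ZMod 8) = 8 := ao 1
  have o2 : addOrderOf (2 : ZMod 8) = 4 := ao 2
  have o3 : addOrderOf (3 : ZMod 8) = 8 := ao 3
  have o4 : addOrderOf (4 : ZMod 8) = 2 := ao 4
  have o5 : addOrderOf (5 : ZMod 8) = 8 := ao 5
  have o6 : addOrderOf (6 : ZMod 8) = 4 := ao 6
  have o7 : addOrderOf (7 : ZMod 8) = 8 := ao 7
  have n0 : ψ 0 ∉ A := by rwa [hψ0]
  have n4 : ψ 4 ∉ A := fun h => h1 (by
    have := hAy _ (hA _ h y (by rw [ho, o4, hy2]))
    rwa [← sq, ← hy2, pow_orderOf_eq_one] at this)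
  have hα : ∀ i, (gs ℤ A).coeff (ψ i) = if ![false, decide (ψ 1 ∈ A), decide (ψ 2 ∈ A), decide (ψ 1 ∈ A), false,
      decide (ψ 1 ∈ A), decide (ψ 2 ∈ A), decide (ψ 1 ∈ A)] i then 1 else 0 := by
    intro i
    rw [coeff_gs]
    have : i = 0 ∨ i = 1 ∨ i = 2 ∨ i = 3 ∨ i = 4 ∨ i = 5 ∨ i = 6 ∨ i = 7 := by revert i; decide
    rcases this with rfl | rfl | rfl | rfl | rfl | rfl | rfl | rfl
    · exact if_congr (by simpa using n0) rfl rfl
    · exact if_congr decide_eq_true_iff.symm rfl rfl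
    · exact if_congr decide_eq_true_iff.symm rfl rfl
    · exact if_congr ((hR 3 1 (by rw [o3, o1])).trans decide_eq_true_iff.symm) rfl rfl
    · exact if_congr (iff_of_false n4 Bool.false_ne_true) rfl rfl
    · exact if_congr ((hR 5 1 (by rw [o5, o1])).trans decide_eq_true_iff.symm) rfl rfl
    · exact if_congr ((hR 6 2 (by rw [o6, o2])).trans decide_eq_true_iff.symm) rfl rfl
    · exact if_congr ((hR 7 1 (by rw [o7, o1])).trans decide_eq_true_iff.symm) rfl rfl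
  have hβ : ∀ i, (gs ℤ B).coeff (ψ i) = if ![decide (ψ 0 ∈ B), decide (ψ 1 ∈ B), decide (ψ 2 ∈ B), decide (ψ 3 ∈ B),
      decide (ψ 4 ∈ B), decide (ψ 5 ∈ B), decide (ψ 6 ∈ B), decide (ψ 7 ∈ B)] i then 1 else 0 := by
    intro i
    rw [coeff_gs]
    have : i = 0 ∨ i = 1 ∨ i = 2 ∨ i = 3 ∨ i = 4 ∨ i = 5 ∨ i = 6 ∨ i = 7 := by revert i; decide
    rcases this with rfl | rfl | rfl | rfl | rfl | rfl | rfl | rfl <;>
      exact if_congr decide_eq_true_iff.symm rfl rfl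
  have hor : decide (ψ 1 ∈ A) ∨ decide (ψ 2 ∈ A) := by
    obtain ⟨g, hg⟩ := hne
    obtain ⟨i, rfl⟩ := ψ.surjective g
    have := hα i
    rw [coeff_gs, if_pos hg] at this
    by_contra h
    rw [not_or, Bool.not_eq_true, Bool.not_eq_true] at h
    rw [h.1, h.2] at this
    clear hg; revert this; revert i; decide
  have E : ∀ j, j ≠ 0 → ∑ i, (gs ℤ A).coeff (ψ i) * (gs ℤ A).coeff (ψ (-i + j)) +
      ∑ i, (gs ℤ B).coeff (ψ i) * (gs ℤ B).coeff (ψ (-(-i + j))) = μ := fun j hj => by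
    rw [← e1 (ψ j) (fun h => hj (ψ.injective (h.trans hψ0.symm))), coeff_add, Finsupp.add_apply, coeff_mul',
      coeff_mul', ← ψ.sum_comp, ← ψ.sum_comp (fun a => (gs ℤ B).coeff a * _)]
    simp only [hψ, hψ', coeff_st]
  refine eight _ _ (decide (ψ 0 ∈ B)) (decide (ψ 1 ∈ B)) (decide (ψ 2 ∈ B)) (decide (ψ 3 ∈ B)) (decide (ψ 4 ∈ B))
    (decide (ψ 5 ∈ B)) (decide (ψ 6 ∈ B)) (decide (ψ 7 ∈ B)) hor fun j hj => ?_
  simp only [← hα, ← hβ]
  rw [E j hj, E 1 (by decide)]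

end H29.DB
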