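import Mathlib
import Cfsg.Agent.H29.DB2

/-! Dihedral groups are B-groups, part 3: Schur partitions of a dihedral group, multipliers. -/

set_option autoImplicit false

namespace H29.DB

open Finset MonoidAlgebra H07.Dih Sum

variable {K : Type*} [CommGroup K] [Fintype K] [DecidableEq K]

/-- coefficient function on rotations and reflections -/
def co {R : Type*} [CommRing R] (x y : R[K]) : K ⊕ K → R
  | inl c => x.coeff c
  | inr d => y.coeff d

/-- constant on classes -/
def In {R : Type*} [CommRing R] (r : K ⊕ K → K ⊕ K → Prop) (x y : R[K]) : Prop :=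
  ∀ u v, r u v → co x y u = co x y v

/-- primitive Schur partition of the dihedral group over `K` -/
structure SR (r : K ⊕ K → K ⊕ K → Prop) : Prop where
  eqv : Equivalence r
  one : ∀ u, r (inl 1) u → u = inl 1
  mul : ∀ x y x' y' : ℤ[K], In r x y → In r x' y' → In r (x * x' + y * st y') (x * y' + y * x')
  a1 : ∀ c ≠ 1, ∃ d, r (inl c) (inr d)
  a2 : ∀ d, ∃ c, r (inr d) (inl c)
  sym : ∀ c, r (inl c) (inl c⁻¹)
  a4 : ∀ S : K ⊕ K → Prop, (∀ u v, r u v → S u → S v) → ∀ y ≠ (1 : K), (∀ c, S (inl c) → S (inl (c * y))) →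
    (∀ d, S (inr d) → S (inr (d * y))) → ∀ u v, S u → S v

variable {r : K ⊕ K → K ⊕ K → Prop}

omit [Fintype K] [DecidableEq K] in
theorem In.sub {R : Type*} [CommRing R] {x y x' y' : R[K]} (h : In r x y) (h' : In r x' y') :
    In r (x - x') (y - y') := fun u v huv => by
  have e : ∀ u, co (x - x') (y - y') u = co x y u - co x' y' u := by rintro (c | c) <;> simp [co]
  rw [e, e, h u v huv, h' u v huv]

omit [Fintype K] [DecidableEq K] in
theorem In.map {R S : Type*} [CommRing R] [CommRing S] (f : R →+* S) {x y : R[K]} (h : In r x y) :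
    In r (mapRingHom K f x) (mapRingHom K f y) := fun u v huv => by
  have e : ∀ u, co (mapRingHom K f x) (mapRingHom K f y) u = f (co x y u) := by
    rintro (c | c) <;> simp [co]
  rw [e, e, h u v huv]

omit [Fintype K] [DecidableEq K] in
theorem SR.st_eq (h : SR r) {R : Type*} [CommRing R] {x y : R[K]} (hx : In r x y) : st x = x := by
  ext c; rw [coeff_st]; exact (hx _ _ (h.sym c)).symm

omit [Fintype K] [DecidableEq K] in
theorem SR.zero_y (h : SR r) {R : Type*} [CommRing R] {y : R[K]} (hx : In r 0 y) : y = 0 := by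
  ext d
  obtain ⟨c, hc⟩ := h.a2 d
  simpa [co] using hx _ _ hc

omit [Fintype K] [DecidableEq K] in
theorem SR.zero_x (h : SR r) {R : Type*} [CommRing R] {x : R[K]} (hx : In r x 0) {c : K} (hc : c ≠ 1) :
    x.coeff c = 0 := by
  obtain ⟨d, hd⟩ := h.a1 c hc
  simpa [co] using hx _ _ hd

omit [Fintype K] [DecidableEq K] in
theorem map_st {R S : Type*} [CommRing R] [CommRing S] (f : R →+* S) (x : R[K]) :
    mapRingHom K f (st x) = st (mapRingHom K f x) := by
  ext g; simp

theorem SR.mulq (h : SR r) {q : ℕ} [NeZero q] {x y x' y' : (ZMod q)[K]} (h1 : In r x y) (h2 : In r x' y') :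
    In r (x * x' + y * st y') (x * y' + y * x') := by
  let L : (ZMod q)[K] → ℤ[K] := fun x => ∑ g, single g ((x.coeff g).val : ℤ)
  have hL : ∀ x g, (L x).coeff g = (x.coeff g).val := fun x g => by
    simp [L, coeff_sum, Finsupp.finsetSum_apply, Finsupp.single_apply]
  have hm : ∀ x, mapRingHom K (Int.castRingHom (ZMod q)) (L x) = x := fun x => by
    ext g; simp [hL]
  have hI : ∀ x y, In r x y → In r (L x) (L y) := fun x y hxy u v huv => by
    have e : ∀ u, co (L x) (L y) u = (co x y u).val := by rintro (c | c) <;> simp [co, hL]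
    rw [e, e, hxy u v huv]
  have := (h.mul _ _ _ _ (hI _ _ h1) (hI _ _ h2)).map (Int.castRingHom (ZMod q))
  simpa only [map_add, map_mul, map_st, hm] using this

omit [Fintype K] in
theorem SR.in_one (h : SR r) {R : Type*} [CommRing R] : In r (1 : R[K]) 0 := fun u v huv => by
  have e : ∀ u : K ⊕ K, co (1 : R[K]) 0 u = if u = inl 1 then 1 else 0 := by
    rintro (c | c) <;> simp [co, one_def, Finsupp.single_apply, eq_comm]
  have : u = inl 1 ↔ v = inl 1 := ⟨fun h1 => h.one _ (h1 ▸ huv), fun h1 => h.one _ (h1 ▸ h.eqv.symm huv)⟩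
  simp only [e, this]

theorem SR.pow (h : SR r) {q : ℕ} [hq : Fact q.Prime] {x y : (ZMod q)[K]} (h1 : In r x y) :
    (∀ k, q = 2 * k + 1 → In r (x ^ q) ((y * st y) ^ k * y)) ∧ (y * st y = 0 → In r (x ^ q) 0) := by
  let N := y * st y
  let z : QuadraticAlgebra (ZMod q)[K] N 0 := ⟨x, 1⟩
  have a1 : ∀ k : ℕ, In r (z ^ k).re ((z ^ k).im * y) := fun k => by
    induction k with
    | zero => rw [pow_zero, QuadraticAlgebra.re_one, QuadraticAlgebra.im_one, zero_mul]; exact h.in_one
    | succ k ih =>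
      have := h.mulq ih h1
      convert this using 1
      · simp [pow_succ, z, N]; ring
      · simp [pow_succ, z, N]; ring
  have := charP (K := K) q
  have : CharP (QuadraticAlgebra (ZMod q)[K] N 0) q :=
    charP_of_injective_ringHom (f := algebraMap (ZMod q)[K] _) QuadraticAlgebra.algebraMap_injective q
  let w : QuadraticAlgebra (ZMod q)[K] N 0 := ⟨0, 1⟩
  have a2 : z ^ q = algebraMap _ _ (x ^ q) + w ^ q := by
    rw [map_pow, ← add_pow_char]; congr 1; ext <;> simp [z, w]
  have a3 : w ^ 2 = algebraMap _ _ N := by ext <;> simp [w, sq]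
  have a4 := a1 q
  rw [a2] at a4
  refine ⟨fun k hk => ?_, fun hN => ?_⟩
  · have : w ^ q = algebraMap _ _ (N ^ k) * w :=
      (congrArg (w ^ ·) hk).trans (by rw [pow_succ, pow_mul, a3, map_pow])
    rw [this] at a4
    simpa [w, -map_pow] using a4
  · have : w ^ q = 0 := by
      obtain ⟨m, hm⟩ := Nat.exists_eq_add_of_le hq.out.two_le
      have : algebraMap _ (QuadraticAlgebra (ZMod q)[K] N 0) N = 0 := by
        rw [← map_zero (algebraMap (ZMod q)[K] _)]; exact congrArg _ hN
      exact (congrArg (w ^ ·) hm).trans (by rw [pow_add, a3, this, zero_mul])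
    rw [this] at a4
    simpa [-map_pow] using a4

open Classical in
/-- rotations in a set -/
noncomputable def XS (S : K ⊕ K → Prop) : Finset K := {c | S (inl c)}

open Classical in
/-- reflections in a set -/
noncomputable def YS (S : K ⊕ K → Prop) : Finset K := {c | S (inr c)}

omit [CommGroup K] [DecidableEq K] in
@[simp] theorem mem_XS {S : K ⊕ K → Prop} {c : K} : c ∈ XS S ↔ S (inl c) := by simp [XS]

omit [CommGroup K] [DecidableEq K] in
@[simp] theorem mem_YS {S : K ⊕ K → Prop} {c : K} : c ∈ YS S ↔ S (inr c) := by simp [YS]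

theorem SR.in_gs (h : SR r) (R : Type*) [CommRing R] {S : K ⊕ K → Prop} (hS : ∀ u v, r u v → S u → S v) :
    In r (gs R (XS S)) (gs R (YS S)) := fun u v huv => by
  classical
  have e : ∀ u, co (gs R (XS S)) (gs R (YS S)) u = if S u then 1 else 0 := by
    rintro (c | c) <;> simp [co, coeff_gs]
  have : S u ↔ S v := ⟨hS u v huv, hS v u (h.eqv.symm huv)⟩
  simp only [e, this]

theorem SR.in_cl (h : SR r) (R : Type*) [CommRing R] (u : K ⊕ K) : In r (gs R (XS (r u))) (gs R (YS (r u))) :=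
  h.in_gs R fun _ _ h1 h2 => h.eqv.trans h2 h1

omit [DecidableEq K] in
theorem pow_inj {k : ℕ} (hk : k.Coprime (Fintype.card K)) : Function.Injective fun x : K => x ^ k :=
  (powCoprime (G := K) (n := k) (by rw [Nat.card_eq_fintype_card]; exact hk.symm)).injective

theorem coeff_pow_q {q : ℕ} [Fact q.Prime] (hk : q.Coprime (Fintype.card K)) (x : (ZMod q)[K]) (c : K) :
    (x ^ q).coeff (c ^ q) = x.coeff c := by
  have := coeff_pow_char q 1 x (c ^ q)
  rw [pow_one] at this
  rw [this, filter_congr fun x _ => (pow_inj hk).eq_iff, filter_eq', if_pos (mem_univ _), sum_singleton]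

omit [DecidableEq K] in
theorem ex_q {k : ℕ} (hk : k.Coprime (Fintype.card K)) (N : ℕ) :
    ∃ q, q.Prime ∧ N < q ∧ q.Coprime (Fintype.card K) ∧ (∀ c : K, c ^ q = c ^ k) ∧ ∃ j, q = 2 * j + 1 := by
  obtain ⟨q, h1, h2, h3⟩ := Nat.forall_exists_prime_gt_and_modEq (N + 2) Fintype.card_ne_zero hk
  refine ⟨q, h2, by omega, ?_, fun c => pow_eq_pow_iff_modEq.2 (h3.of_dvd orderOf_dvd_card), ?_⟩
  · rw [Nat.Coprime, h3.gcd_eq]; exact hk
  · exact h2.odd_of_ne_two (by omega)

theorem SR.m1 (h : SR r) {k : ℕ} (hk : k.Coprime (Fintype.card K)) {c d : K}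
    (h1 : r (inl (c ^ k)) (inl (d ^ k))) : r (inl c) (inl d) := by
  obtain ⟨q, hq, -, h2, h3, j, hj⟩ := ex_q hk 0
  have := Fact.mk hq
  have a := (h.pow (h.in_cl (ZMod q) (inl c))).1 j hj _ _ h1
  simp only [co, ← h3, coeff_pow_q h2, coeff_gs, mem_XS, h.eqv.refl, if_true] at a
  by_contra h4
  simp [h4] at a

theorem SR.m2 (h : SR r) {k : ℕ} (hk : k.Coprime (Fintype.card K)) {c d : K} :
    r (inl (c ^ k)) (inl (d ^ k)) ↔ r (inl c) (inl d) := by
  refine ⟨h.m1 hk, fun h1 => h.m1 (k := k ^ ((Fintype.card K).totient - 1)) (hk.pow_left _) ?_⟩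
  have : ∀ c : K, (c ^ k) ^ k ^ ((Fintype.card K).totient - 1) = c := fun c => by
    rw [← pow_mul, ← pow_succ', Nat.sub_add_cancel (Nat.totient_pos.2 Fintype.card_pos)]
    conv_rhs => rw [← pow_one c]
    exact pow_eq_pow_iff_modEq.2 ((Nat.ModEq.pow_totient hk).of_dvd orderOf_dvd_card)
  rwa [this, this]

theorem SR.sizes [IsCyclic K] (h : SR r) {c c' : K} (hc : orderOf c' = orderOf c) :
    #(XS (r (inl c'))) = #(XS (r (inl c))) ∧ #(YS (r (inl c'))) = #(YS (r (inl c))) := by
  obtain ⟨k, hk, rfl⟩ := same_order hc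
  obtain ⟨q, hq, h1, h2, h3, j, hj⟩ := ex_q hk (Fintype.card K)
  have := Fact.mk hq
  have hs := Finite.injective_iff_surjective.1 (pow_inj hk)
  have a := (h.pow (h.in_cl (ZMod q) (inl c))).1 j hj
  have b : gs (ZMod q) (XS (r (inl c))) ^ q = gs (ZMod q) (XS (r (inl (c ^ k)))) := by
    ext g
    obtain ⟨d, rfl⟩ := hs g
    simp only
    rw [← h3 d, coeff_pow_q h2, h3]
    rw [coeff_gs, coeff_gs]
    exact if_congr (by rw [mem_XS, mem_XS, h.m2 hk]) rfl rfl
  have a2 := a.sub (h.in_cl (ZMod q) (inl (c ^ k)))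
  rw [b, sub_self] at a2
  have a3 := congrArg (aug (ZMod q) K) (sub_eq_zero.1 (h.zero_y a2))
  have a4 := congrArg (aug (ZMod q) K) b
  simp only [map_mul, map_pow, aug_st, aug_gs, ZMod.pow_card] at a3 a4
  rw [← sq, ← pow_mul, ← pow_succ, ← hj, ZMod.pow_card] at a3
  have e : ∀ A B : Finset K, (#A : ZMod q) = #B → #B = #A := fun A B hAB => by
    have := (ZMod.natCast_eq_natCast_iff' _ _ _).1 hAB
    rwa [Nat.mod_eq_of_lt ((card_le_univ _).trans_lt h1), Nat.mod_eq_of_lt ((card_le_univ _).trans_lt h1),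
      eq_comm] at this
  exact ⟨e _ _ a4, e _ _ a3⟩

/-- rank two -/
def Two (r : K ⊕ K → K ⊕ K → Prop) : Prop := ∀ u v, u ≠ inl 1 → v ≠ inl 1 → r u v

omit [DecidableEq K] in
theorem SR.l5 (h : SR r) (hs : ∀ u v, u ≠ inl 1 → v ≠ inl 1 → #(XS (r u)) = #(XS (r v)) ∧ #(YS (r u)) = #(YS (r v))) :
    Two r := by
  classical
  let u0 : K ⊕ K := inr 1
  have hu0 : u0 ≠ inl 1 := by simp [u0]
  have e1 : ∑ c ∈ univ.erase (1 : K), #(YS (r (inl c))) = ∑ d : K, #(XS (r (inr d))) := by
    have := sum_card_bipartiteAbove_eq_sum_card_bipartiteBelow (s := univ.erase (1 : K)) (t := univ)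
      (fun c d => r (inl c) (inr d))
    refine ((sum_congr rfl fun c _ => ?_).trans this).trans (sum_congr rfl fun d _ => ?_)
    · congr 1
    · symm; congr 1; ext c
      simp only [mem_XS, mem_bipartiteBelow, mem_erase, mem_univ, and_true]
      exact ⟨fun h1 => ⟨fun h2 => inr_ne_inl (h.one _ (h2 ▸ h.eqv.symm h1)), h.eqv.symm h1⟩,
        fun h1 => h.eqv.symm h1.2⟩
  rw [sum_congr rfl (g := fun _ => #(YS (r u0))) fun c hc => (hs _ _ (by simpa using hc) hu0).2,
    sum_congr rfl (s₁ := univ) (g := fun _ => #(XS (r u0))) fun c hc => (hs _ _ (by simp) hu0).1] at e1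
  simp only [sum_const, card_erase_of_mem (mem_univ _), card_univ, smul_eq_mul] at e1
  have hn : 0 < Fintype.card K := Fintype.card_pos
  have e2 : Fintype.card K ∣ #(YS (r u0)) := by
    refine Nat.Coprime.dvd_of_dvd_mul_left (m := Fintype.card K - 1) ?_ ⟨_, e1⟩
    exact (Nat.coprime_self_sub_right hn).2 (Nat.coprime_one_right _)
  have e3 : ∀ u, u ≠ inl 1 → r u u0 := fun u hu => by
    have : YS (r u) = univ := by
      apply eq_univ_of_card
      rw [(hs u u0 hu hu0).2]
      exact le_antisymm (card_le_univ _) (Nat.le_of_dvd (card_pos.2 ⟨1, mem_YS.2 (h.eqv.refl _)⟩) e2)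
    exact mem_YS.1 (this ▸ mem_univ 1)
  exact fun u v hu hv => h.eqv.trans (e3 u hu) (h.eqv.symm (e3 v hv))

omit [CommGroup K] [Fintype K] [DecidableEq K] in
theorem cl_eq (h : Equivalence r) {u v : K ⊕ K} (huv : r u v) : r u = r v :=
  funext fun _ => propext ⟨h.trans (h.symm huv), h.trans huv⟩

theorem SR.l6 [IsCyclic K] (h : SR r) {y : K} (hy : (orderOf y).Prime) (hinv : ∀ d, r (inr d) (inr (d * y))) :
    Two r := by
  have := Fact.mk hy
  set p := orderOf y with hp
  have hy1 : y ≠ 1 := fun h => hy.one_lt.ne' (by rw [hp, h, orderOf_one])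
  have hyp : y ^ p = 1 := pow_orderOf_eq_one y
  have key : ∀ u, u ≠ inl 1 → ∃ c, orderOf c = p ∧ r u (inl c) := fun u hu => by
    by_contra! h1
    have hN : gs (ZMod p) (YS (r u)) * st (gs (ZMod p) (YS (r u))) = 0 := by
      ext g
      simp only [coeff_gs_mul, coeff_st, coeff_gs, sum_boole]
      refine H07.Schur.card_inv hy1 hyp fun x hx => ?_
      simp only [mem_filter, mem_YS] at hx ⊢
      refine ⟨h.eqv.trans hx.1 (hinv _), ?_⟩
      have := h.eqv.trans hx.2 (hinv _)
      convert this using 2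
      simp [mul_assoc]
    have a := (h.pow (h.in_cl (ZMod p) u)).2 hN
    have b := h.a4 (r u) (fun _ _ h1 h2 => h.eqv.trans h2 h1) y hy1 (fun c hc => by
      have hc1 : c ^ p ≠ 1 := fun h2 => by
        rcases (Nat.dvd_prime hy).1 (orderOf_dvd_of_pow_eq_one h2) with h3 | h3
        · rw [orderOf_eq_one_iff.1 h3] at hc
          exact hu (h.one _ (h.eqv.symm hc))
        · exact h1 c h3 hc
      have a2 := h.zero_x a hc1
      have a3 := coeff_gs_pow p 1 (XS (r u)) (c ^ p)
      rw [pow_one] at a3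
      exact mem_XS.1 (coset hyp (mem_XS.2 hc) (a3.symm.trans a2)))
      (fun d hd => h.eqv.trans hd (hinv d)) u (inl 1) (h.eqv.refl u)
    exact hu (h.one _ (h.eqv.symm b))
  refine h.l5 fun u v hu hv => ?_
  obtain ⟨c, hc, huc⟩ := key u hu
  obtain ⟨d, hd, hvd⟩ := key v hv
  rw [cl_eq h.eqv huc, cl_eq h.eqv hvd]
  exact h.sizes (hc.trans hd.symm)

end H29.DB
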