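import Mathlib
import Cfsg.Agent.H29.DB3

/-! Dihedral groups are B-groups, part 4: fusions; every primitive Schur partition has rank two. -/

set_option autoImplicit false

namespace H29.DB

open Finset MonoidAlgebra H07.Dih Sum Relation

variable {K : Type*} [CommGroup K] [Fintype K] [DecidableEq K] {r s : K ⊕ K → K ⊕ K → Prop}

theorem eg_const {α β : Type*} {r s : α → α → Prop} (F : α → β) (hr : ∀ u v, r u v → F u = F v)
    (hs : ∀ u v, s u v → F u = F v) : ∀ u v, EqvGen (fun u v => r u v ∨ s u v) u v → F u = F v := by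
  intro u v h
  induction h with
  | rel u v h => exact h.elim (hr u v) (hs u v)
  | refl => rfl
  | symm _ _ _ ih => exact ih.symm
  | trans _ _ _ _ _ ih ih' => exact ih.trans ih'

omit [Fintype K] [DecidableEq K] in
theorem SR.fuse (h : SR r) (hs1 : ∀ u v, s u v → (u = inl 1 ↔ v = inl 1))
    (hm : ∀ x y x' y' : ℤ[K], In r x y → In s x y → In r x' y' → In s x' y' →
      In s (x * x' + y * st y') (x * y' + y * x')) : SR (EqvGen fun u v => r u v ∨ s u v) where
  eqv := EqvGen.is_equivalence _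
  one u hu := (eg_const (fun u => u = inl 1) (fun u v huv => propext
    ⟨fun h1 => h.one _ (h1 ▸ huv), fun h1 => h.one _ (h1 ▸ h.eqv.symm huv)⟩) (fun u v huv => propext (hs1 u v huv))
    _ _ hu).mp rfl
  mul x y x' y' h1 h2 := by
    have a1 : In r x y := fun u v huv => h1 u v (.rel _ _ (.inl huv))
    have a2 : In s x y := fun u v huv => h1 u v (.rel _ _ (.inr huv))
    have a3 : In r x' y' := fun u v huv => h2 u v (.rel _ _ (.inl huv))
    have a4 : In s x' y' := fun u v huv => h2 u v (.rel _ _ (.inr huv))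
    exact eg_const _ (h.mul _ _ _ _ a1 a3) (hm _ _ _ _ a1 a2 a3 a4)
  a1 c hc := (h.a1 c hc).imp fun _ h => .rel _ _ (.inl h)
  a2 c := (h.a2 c).imp fun _ h => .rel _ _ (.inl h)
  sym c := .rel _ _ (.inl (h.sym c))
  a4 S hS := h.a4 S fun u v huv => hS u v (.rel _ _ (.inl huv))

omit [DecidableEq K] in
theorem inv_mul' {x w : ℤ[K]} {y : K} (hw : ∀ d, w.coeff d = w.coeff (d * y)) (d : K) :
    (x * w).coeff d = (x * w).coeff (d * y) := by
  rw [coeff_mul', coeff_mul']
  exact sum_congr rfl fun a _ => by rw [hw, mul_assoc]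

theorem SR.star [IsCyclic K] (h : SR r) {y : K} (hy : (orderOf y).Prime) {x w : ℤ[K]} (hx : In r x w)
    (hw : ∀ d, w.coeff d = w.coeff (d * y)) : ∀ u v, u ≠ inl 1 → v ≠ inl 1 → co x w u = co x w v := by
  let s : K ⊕ K → K ⊕ K → Prop := fun u v => ∃ d, u = inr d ∧ v = inr (d * y)
  have h2 : SR (EqvGen fun u v => r u v ∨ s u v) := h.fuse (by rintro _ _ ⟨d, rfl, rfl⟩; simp) (by
    rintro x w x' w' - a1 - a2 _ _ ⟨d, rfl, rfl⟩
    have b1 := inv_mul' (x := x) (fun d => a2 _ _ ⟨d, rfl, rfl⟩) d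
    have b2 := inv_mul' (x := x') (fun d => a1 _ _ ⟨d, rfl, rfl⟩) d
    simp only [co, coeff_add, Finsupp.add_apply, mul_comm w x', b1, b2])
  have h3 := h2.l6 hy fun d => .rel _ _ (.inr ⟨d, rfl, rfl⟩)
  exact fun u v hu hv => eg_const _ hx (by rintro _ _ ⟨d, rfl, rfl⟩; exact hw d) u v (h3 u v hu hv)

omit [DecidableEq K] in
theorem inv_iff {P : K → Prop} {y : K} (h : ∀ c, P c → P (c * y)) (c : K) : P (c * y) ↔ P c := by
  refine ⟨fun h1 => ?_, h c⟩
  have : ∀ n, P (c * y * y ^ n) := fun n => by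
    induction n with
    | zero => simpa
    | succ n ih => rw [pow_succ, ← mul_assoc]; exact h _ ih
  have h2 := this (orderOf y - 1)
  rwa [mul_assoc, mul_pow_sub_one (orderOf_pos y).ne', pow_orderOf_eq_one, mul_one] at h2

theorem SR.l8 [IsCyclic K] (h : SR r) (hr : ∀ c c', orderOf c' = orderOf c → r (inl c) (inl c')) {y : K}
    (hy : (orderOf y).Prime) {S : K ⊕ K → Prop} (hS : ∀ u v, r u v → S u → S v)
    (hi : ∀ c, S (inl c) → S (inl (c * y))) (h1 : ¬ S (inl 1)) (c : K) : ¬ S (inl c) := fun hc => by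
  have hy1 : y ≠ 1 := fun h => hy.one_lt.ne' (by rw [h, orderOf_one])
  have a1 := h.in_gs ℤ hS
  have a2 := h.mul _ _ _ _ a1 a1
  have a3 : ∀ d, (gs ℤ (XS S)).coeff d = (gs ℤ (XS S)).coeff (d * y) := fun d => by
    rw [coeff_gs, coeff_gs]
    exact if_congr (by rw [mem_XS, mem_XS, inv_iff (P := fun c => S (inl c)) hi]) rfl rfl
  have a4 := h.star hy a2 fun d => by
    have := inv_mul' (x := gs ℤ (YS S)) a3 d
    simp only [coeff_add, Finsupp.add_apply, mul_comm (gs ℤ (XS S)), this]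
  refine core (A := XS S) (B := YS S) (fun g hg g' hg' => mem_XS.2 (hS _ _ (hr g g' hg') (mem_XS.1 hg)))
    (by simpa) ⟨c, mem_XS.2 hc⟩ hy (fun g hg => mem_XS.2 (hi g (mem_XS.1 hg))) ?_ (fun h2 => h1 ?_)
    (fun g hg => a4 (inl g) (inr 1) (by simpa) (by simp)) (fun g => a4 (inr g) (inr 1) (by simp) (by simp))
  · obtain ⟨d, hd⟩ := h.a1 c (by rintro rfl; exact h1 hc)
    exact ⟨d, mem_YS.2 (hS _ _ hd hc)⟩
  · obtain ⟨d, hd⟩ := h.a1 y⁻¹ (by simpa)
    simpa using hi _ (hS _ _ (h.eqv.symm hd) (mem_YS.1 (h2 ▸ mem_univ d)))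

theorem SR.l8' [IsCyclic K] (h : SR r) (hr : ∀ c c', orderOf c' = orderOf c → r (inl c) (inl c')) {y : K}
    (hy : (orderOf y).Prime) {S : K ⊕ K → Prop} (hS : ∀ u v, r u v → S u → S v)
    (hi : ∀ c, S (inl c) → S (inl (c * y))) {c : K} (hc : S (inl c)) (c' : K) : S (inl c') := by
  by_cases h1 : S (inl 1)
  · exact not_not.1 (h.l8 hr hy (S := fun u => ¬ S u) (fun u v huv h2 h3 => h2 (hS v u (h.eqv.symm huv) h3))
      (fun c h2 h3 => h2 ((inv_iff (P := fun c => S (inl c)) hi c).1 h3)) (not_not.2 h1) c')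
  · exact absurd hc (h.l8 hr hy hS hi h1 c)

theorem SR.sing [IsCyclic K] (h : SR r) (hr : ∀ c c', orderOf c' = orderOf c → r (inl c) (inl c')) {p : ℕ}
    (hp : p.Prime) (hp2 : p ≠ 2) {c0 c1 : K} (h0 : p ∣ orderOf c0) (h1 : p ∣ orderOf c1) : r (inl c0) (inl c1) := by
  have := Fact.mk hp
  obtain ⟨y, hy⟩ := exists_prime_orderOf_dvd_card (G := K) p (h0.trans orderOf_dvd_card)
  have hy1 : y ≠ 1 := fun h => hp.one_lt.ne' (by rw [← hy, h, orderOf_one])
  have hyp : y ^ p = 1 := hy ▸ pow_orderOf_eq_one y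
  obtain ⟨k, hk⟩ := hp.odd_of_ne_two hp2
  set X := XS (r (inl c0)) with hX
  have hR : Rat X := fun g hg g' hg' => mem_XS.2 (h.eqv.trans (mem_XS.1 hg) (hr g g' hg'))
  have a0 := h.in_cl (ZMod p) (inl c0)
  have a1 := (h.pow a0).1 k hk
  have a2 := a0.sub a1
  rw [← hX] at a1 a2
  have hc : ∀ c, (gs (ZMod p) X ^ p).coeff c = #{x ∈ X | x ^ p = c} := fun c => by
    simpa using coeff_gs_pow p 1 X c
  have key : ∀ c, (gs (ZMod p) X - gs (ZMod p) X ^ p).coeff c = 1 ↔ if p ∣ orderOf c then c ∈ X else c * y ∈ X := by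
    intro c
    rw [coeff_sub, Finsupp.sub_apply, coeff_gs]
    by_cases b1 : p ∣ orderOf c
    · rw [if_pos b1, hc, H07.Schur.card_inv hy1 hyp]
      · by_cases b2 : c ∈ X <;> simp [b2]
      intro x hx
      rw [mem_filter] at hx ⊢
      have b3 : (x * y) ^ p = c := by rw [mul_pow, hyp, mul_one, hx.2]
      exact ⟨hR x hx.1 _ (ord_mul_eq hyp (b1.trans (hx.2 ▸ orderOf_pow_dvd _)) (b1.trans (b3 ▸ orderOf_pow_dvd _))), b3⟩
    have b2 : (gs (ZMod p) X ^ p).coeff c = (gs (ZMod p) X ^ p).coeff (c ^ p) :=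
      a1 _ _ (hr c (c ^ p) (Nat.Coprime.orderOf_pow ((hp.coprime_iff_not_dvd.2 b1).symm)))
    have b3 : ∀ x, x ^ p = c ^ p → x ≠ c → (x ∈ X ↔ c * y ∈ X) := fun x hx hxc => by
      have d1 : (c⁻¹ * x) ^ p = 1 := by rw [mul_pow, hx]; simp
      have d2 := dvd_ord_mul hp d1 (fun h => hxc (inv_mul_eq_one.1 h).symm) b1
      rw [mul_inv_cancel_left] at d2
      have d3 := dvd_ord_mul hp hyp hy1 b1
      have d4 : orderOf (c * y) = orderOf x := by
        have := ord_mul_eq (c := x) (z := x⁻¹ * (c * y)) (p := p) (by rw [mul_pow, mul_pow, hyp, inv_pow, hx]; simp) d2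
          (by rwa [mul_inv_cancel_left])
        rwa [mul_inv_cancel_left] at this
      exact ⟨fun h => hR _ h _ d4, fun h => hR _ h _ d4.symm⟩
    rw [if_neg b1, b2, hc]
    by_cases b4 : c * y ∈ X
    · have := H07.Schur.card_inv hy1 hyp (A := insert c {x ∈ X | x ^ p = c ^ p}) fun x hx => by
        have d1 : (x * y) ^ p = c ^ p := by
          rw [mul_pow, hyp, mul_one]
          rcases mem_insert.1 hx with rfl | hx
          exacts [rfl, (mem_filter.1 hx).2]
        by_cases d2 : x * y = c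
        · rw [d2]; exact mem_insert_self _ _
        · exact mem_insert_of_mem (mem_filter.2 ⟨(b3 _ d1 d2).2 b4, d1⟩)
      simp only [b4, iff_true]
      by_cases b5 : c ∈ X
      · rw [insert_eq_of_mem (by simp [b5])] at this
        simp [b5, this]
      · rw [card_insert_of_notMem (by simp [b5])] at this
        push_cast at this
        rw [if_neg b5]
        linear_combination -this
    · simp only [b4, iff_false]
      by_cases b5 : c ∈ X
      · rw [show ({x ∈ X | x ^ p = c ^ p} : Finset K) = {c} from eq_singleton_iff_unique_mem.2 ⟨by simp [b5],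
          fun x hx => by_contra fun hxc => b4 ((b3 x (mem_filter.1 hx).2 hxc).1 (mem_filter.1 hx).1)⟩]
        simp [b5]
      · rw [filter_false_of_mem fun x hx h => b4 ((b3 x h (by rintro rfl; exact b5 hx)).1 hx)]
        simp [b5]
  have a3 := h.l8' hr (y := y) (hy ▸ hp) (S := fun u => co _ _ u = 1) (fun u v huv h => (a2 u v huv).symm.trans h)
    (fun c hc => (key _).2 (by
      have hc := (key c).1 hc
      by_cases b1 : p ∣ orderOf c <;> by_cases b2 : p ∣ orderOf (c * y)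
      · rw [if_pos b1] at hc
        rw [if_pos b2]
        exact hR _ hc _ (ord_mul_eq hyp b1 b2)
      · rw [if_pos b1] at hc
        rw [if_neg b2]
        have := dvd_ord_mul hp hyp hy1 b2
        rw [mul_assoc] at this ⊢
        exact hR _ hc _ (ord_mul_eq (by rw [mul_pow, hyp, mul_one]) b1 this)
      · rwa [if_neg b1, ← if_pos b2 (t := c * y ∈ X)] at hc
      · exact absurd (dvd_ord_mul hp hyp hy1 b1) b2)) (c := c0)
    ((key c0).2 (by rw [if_pos h0]; exact mem_XS.2 (h.eqv.refl _))) c1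
  have a4 := (key c1).1 a3
  rw [if_pos h1] at a4
  exact mem_XS.1 a4

omit [Fintype K] [DecidableEq K] in
theorem odd_dvd {p : ℕ} (hp : p.Prime) (hp2 : p ≠ 2) {x z : K} (hz : z ^ 2 = 1) (h : p ∣ orderOf x) :
    p ∣ orderOf (x * z) := by
  have : orderOf x ∣ 2 * orderOf (x * z) := by
    apply orderOf_dvd_of_pow_eq_one
    have : x ^ 2 = (x * z) ^ 2 := by rw [mul_pow, hz, mul_one]
    rw [pow_mul, this, ← pow_mul, mul_comm 2, pow_mul, pow_orderOf_eq_one, one_pow]
  exact ((hp.dvd_mul.1 (h.trans this)).resolve_left fun h =>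
    hp2 ((Nat.prime_dvd_prime_iff_eq hp Nat.prime_two).1 h))

theorem SR.l9 [IsCyclic K] (h : SR r) (hr : ∀ c c', orderOf c' = orderOf c → r (inl c) (inl c')) : Two r := by
  have ex : ∀ x : K, x ≠ 1 → ¬ 2 ∣ orderOf x → ∃ p, p.Prime ∧ p ≠ 2 ∧ p ∣ orderOf x := fun x hx h2 => by
    obtain ⟨p, hp, h3⟩ := Nat.exists_prime_and_dvd (mt orderOf_eq_one_iff.1 hx)
    exact ⟨p, hp, by rintro rfl; exact h2 h3, h3⟩
  have key : ∃ g, ∀ c ≠ 1, r (inl c) (inl g) := by
    by_cases h2 : 2 ∣ Fintype.card K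
    · obtain ⟨z, hz⟩ := exists_prime_orderOf_dvd_card (G := K) 2 h2
      have hz2 : z ^ 2 = 1 := hz ▸ pow_orderOf_eq_one z
      refine ⟨z, fun c hc => by_contra fun h3 => ?_⟩
      have n1 : ¬ r (inl c) (inl 1) := fun h4 => hc (inl_injective (h.one _ (h.eqv.symm h4)))
      refine n1 (h.l8' hr (y := z) (hz ▸ Nat.prime_two) (S := r (inl c)) (fun _ _ h1 h2 => h.eqv.trans h2 h1)
        (fun x hx => h.eqv.trans hx ?_) (h.eqv.refl _) 1)
      have b1 : x ≠ 1 := by rintro rfl; exact n1 hx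
      have b2 : x * z ≠ 1 := fun h4 => h3 (by
        have : x = z := by rw [← mul_one x, ← hz2, sq, ← mul_assoc, h4, one_mul]
        rwa [← this])
      by_cases b3 : 2 ∣ orderOf x
      · by_cases b4 : 2 ∣ orderOf (x * z)
        · exact hr _ _ (ord_mul_eq hz2 b3 b4)
        · obtain ⟨p, hp, hp2, h4⟩ := ex _ b2 b4
          have := odd_dvd hp hp2 hz2 h4
          rw [mul_assoc, ← sq, hz2, mul_one] at this
          exact h.sing hr hp hp2 this h4
      · obtain ⟨p, hp, hp2, h4⟩ := ex _ b1 b3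
        exact h.sing hr hp hp2 h4 (odd_dvd hp hp2 hz2 h4)
    · obtain ⟨g, hg⟩ := IsCyclic.exists_ofOrder_eq_natCard (α := K)
      refine ⟨g, fun c hc => ?_⟩
      obtain ⟨p, hp, hp2, h4⟩ := ex c hc fun h => h2 (h.trans orderOf_dvd_card)
      exact h.sing hr hp hp2 h4 (hg ▸ h4.trans (orderOf_dvd_natCard c))
  obtain ⟨g, hg⟩ := key
  have k2 : ∀ u, u ≠ inl 1 → r u (inl g) := by
    rintro (c | d) hu
    · exact hg c (by simpa using hu)
    · obtain ⟨c, hc⟩ := h.a2 d
      exact h.eqv.trans hc (hg c (by rintro rfl; exact inr_ne_inl (h.one _ (h.eqv.symm hc))))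
  exact fun u v hu hv => h.eqv.trans (k2 u hu) (h.eqv.symm (k2 v hv))

theorem SR.fix (h : SR r) {q j : ℕ} [Fact q.Prime] (hq : q.Coprime (Fintype.card K)) (hj : q = 2 * j + 1)
    {x y : (ZMod q)[K]} (hx : In r x y) (hx' : ∀ c c', orderOf c' = orderOf c → x.coeff c = x.coeff c') :
    x ^ q = x ∧ (y * st y) ^ j * y = y := by
  have a1 : x ^ q = x := by
    ext g
    obtain ⟨d, rfl⟩ := Finite.injective_iff_surjective.1 (pow_inj hq) g
    exact (coeff_pow_q hq x d).trans (hx' _ _ (Nat.Coprime.orderOf_pow (hq.symm.coprime_dvd_left orderOf_dvd_card)))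
  have a2 := ((h.pow hx).1 j hj).sub hx
  rw [a1, sub_self] at a2
  exact ⟨a1, sub_eq_zero.1 (h.zero_y a2)⟩

theorem SR.two [IsCyclic K] (h : SR r) : Two r := by
  let s : K ⊕ K → K ⊕ K → Prop := fun u v => ∃ c c', orderOf c' = orderOf c ∧ u = inl c ∧ v = inl c'
  have h2 : SR (EqvGen fun u v => r u v ∨ s u v) := h.fuse (by
    rintro _ _ ⟨c, c', hc, rfl, rfl⟩
    rw [inl.injEq, inl.injEq, ← orderOf_eq_one_iff (x := c), ← orderOf_eq_one_iff (x := c'), hc]) (by
    rintro x y x' y' a1 a2 a3 a4 _ _ ⟨c, c', hc, rfl, rfl⟩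
    obtain ⟨k, hk, rfl⟩ := same_order hc
    set E := x * x' + y * st y' with hE
    obtain ⟨q, hq, h1, h2, h3, j, hj⟩ := ex_q hk (E.coeff c - E.coeff (c ^ k)).natAbs
    have := Fact.mk hq
    have := charP (K := K) q
    let f := Int.castRingHom (ZMod q)
    obtain ⟨b1, b2⟩ := h.fix h2 hj (a1.map f) fun c c' hc => (a2.map f) _ _ ⟨c, c', hc, rfl, rfl⟩
    obtain ⟨b3, b4⟩ := h.fix h2 hj (a3.map f) fun c c' hc => (a4.map f) _ _ ⟨c, c', hc, rfl, rfl⟩
    have b5 := h.st_eq (h.mulq (a1.map f) (a3.map f))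
    have b6 : mapRingHom K f E = mapRingHom K f x * mapRingHom K f x' + mapRingHom K f y * st (mapRingHom K f y') := by
      simp only [hE, map_add, map_mul, map_st]
    simp only [map_add, map_mul, h.st_eq (a1.map f), h.st_eq (a3.map f), st_st, add_right_inj] at b5
    have b7 := congrArg st b4
    simp only [map_mul, map_pow, st_st] at b7
    generalize mapRingHom K f x = X at *
    generalize mapRingHom K f x' = X' at *
    generalize mapRingHom K f y = Y at *
    generalize mapRingHom K f y' = Y' at *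
    have b8 : (Y * st Y') ^ q = Y * st Y' := by
      have e : (Y * st Y') ^ 2 = (Y * st Y) * (st Y' * Y') := by linear_combination (-(Y * st Y')) * b5
      calc (Y * st Y') ^ q = (Y * st Y') ^ (2 * j + 1) := congrArg _ hj
        _ = ((Y * st Y) ^ j * Y) * ((st Y' * Y') ^ j * st Y') := by rw [pow_succ, pow_mul, e, mul_pow]; ring
        _ = _ := by rw [b2, b7]
    have b9 : mapRingHom K f E ^ q = mapRingHom K f E := by rw [b6, add_pow_char, mul_pow, b1, b3, b8]
    have b10 := coeff_pow_q h2 (mapRingHom K f E) c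
    rw [b9, h3, coeff_mapRingHom, coeff_mapRingHom] at b10
    have b11 : (q : ℤ) ∣ E.coeff c - E.coeff (c ^ k) := (ZMod.intCast_eq_intCast_iff_dvd_sub _ _ _).1 b10
    have := Int.eq_zero_of_dvd_of_natAbs_lt_natAbs b11 (by simpa using h1)
    exact sub_eq_zero.1 this)
  have h3 := h2.l9 fun c c' hc => .rel _ _ (.inr ⟨c, c', hc, rfl, rfl⟩)
  refine h.l5 fun u v hu hv => Prod.ext_iff.1 (eg_const (fun u => (#(XS (r u)), #(YS (r u))))
    (fun u v huv => by rw [cl_eq h.eqv huv]) ?_ u v (h3 u v hu hv))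
  rintro _ _ ⟨c, c', hc, rfl, rfl⟩
  exact Prod.ext (h.sizes hc).1.symm (h.sizes hc).2.symm

end H29.DB
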