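import Mathlib
import Cfsg.Agent.H29.DB4

/-! Wielandt: dihedral groups are B-groups (the passage from the action follows H07.Schur). -/

set_option autoImplicit false

namespace H29.DB

open Finset MonoidAlgebra H07.Dih Sum

/-- primitive Schur partition of an arbitrary group -/
structure SD {D : Type*} [Group D] (r : D → D → Prop) : Prop where
  eqv : Equivalence r
  one : ∀ c, r 1 c → c = 1
  inv : ∀ c d, r c d → r c⁻¹ d⁻¹
  mul : ∀ c d, r c d → ∃ σ : Equiv.Perm D, ∀ u, r u (σ u) ∧ r (u⁻¹ * c) ((σ u)⁻¹ * d)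
  prim : ∀ H : Subgroup D, (∀ c d, r c d → c ∈ H → d ∈ H) → H = ⊥ ∨ H = ⊤

variable {D : Type*} [Group D] {r : D → D → Prop}

theorem SD.top (h : SD r) {H : Subgroup D} {u : D} (hu : u ≠ 1) (hD : ∀ v, r u v → v ∈ H) : H = ⊤ := by
  let D' : Subgroup D :=
    { carrier := {x | ∀ v, r x v → v ∈ H}
      one_mem' := fun v hv => h.one v hv ▸ H.one_mem
      inv_mem' := fun {x} hx v hv => by simpa using hx v⁻¹ (by simpa using h.inv _ _ hv)
      mul_mem' := fun {x y} hx hy v hv => by
        obtain ⟨σ, hσ⟩ := h.mul _ _ hv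
        have := H.mul_mem (hx _ (hσ x).1) (hy _ (by simpa using (hσ x).2))
        rwa [mul_inv_cancel_left] at this }
  rcases h.prim D' (fun c d hcd hc v hv => hc v (h.eqv.trans hcd hv)) with h1 | h1
  · exact (hu ((Subgroup.eq_bot_iff_forall _).1 h1 u hD)).elim
  · exact top_le_iff.1 fun x _ => (h1.ge (Subgroup.mem_top x) : x ∈ D') x (h.eqv.refl x)

theorem SD.a4 [Finite D] (h : SD r) {S : D → Prop} (hS : ∀ u v, r u v → S u → S v) {y : D} (hy : y ≠ 1)
    (h1 : ∀ v, S v → S (y * v)) {u : D} (hu : S u) (v : D) : S v := by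
  let M : Submonoid D :=
    { carrier := {x | ∀ v, S v → S (x * v)}
      one_mem' := fun v => by simp
      mul_mem' := fun {x y} hx hy v hv => by rw [mul_assoc]; exact hx _ (hy v hv) }
  let H : Subgroup D :=
    { M with
      inv_mem' := fun {x} hx => by
        rw [inv_eq_of_mul_eq_one_right
          ((mul_pow_sub_one (orderOf_pos x).ne' x).trans (pow_orderOf_eq_one x))]
        exact M.pow_mem hx _ }
  have h2 : H = ⊤ := h.top hy fun x' hx' => H.inv_mem_iff.1 fun v hv => by
    obtain ⟨σ, hσ⟩ := h.mul _ _ hx'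
    have h3 := hσ (σ.symm v)
    rw [σ.apply_symm_apply] at h3
    exact hS _ _ (by simpa using h.inv _ _ h3.2)
      ((H.inv_mem (show y ∈ H from h1) : y⁻¹ ∈ H) _ (hS _ _ (h.eqv.symm h3.1) hv))
  simpa using (h2.ge (Subgroup.mem_top (v * u⁻¹)) : v * u⁻¹ ∈ H) u hu

variable {K : Type*} [CommGroup K] [Fintype K] [DecidableEq K]

theorem SD.two [IsCyclic K] (h : SD r) (e : K ⊕ K ≃ D) (e1 : ∀ a b, e (inl a) * e (inl b) = e (inl (a * b)))
    (e2 : ∀ a b, e (inl a) * e (inr b) = e (inr (a * b))) (e3 : ∀ a b, e (inr a) * e (inl b) = e (inr (a * b⁻¹)))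
    (e4 : ∀ a b, e (inr a) * e (inr b) = e (inl (a * b⁻¹))) {u v : D} (hu : u ≠ 1) (hv : v ≠ 1) : r u v := by
  have : Finite D := .of_equiv _ e
  have e0 : e (inl 1) = 1 := mul_left_cancel (a := e (inl 1)) (by rw [e1, mul_one, mul_one])
  have i1 : ∀ a, (e (inl a))⁻¹ = e (inl a⁻¹) := fun a => inv_eq_of_mul_eq_one_right (by rw [e1, mul_inv_cancel, e0])
  have i2 : ∀ a, (e (inr a))⁻¹ = e (inr a) := fun a => inv_eq_of_mul_eq_one_right (by rw [e4, mul_inv_cancel, e0])
  have n1 : ∀ u, e u = 1 ↔ u = inl 1 := fun u => by rw [← e0, e.injective.eq_iff]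
  obtain ⟨u, rfl⟩ := e.surjective u
  obtain ⟨v, rfl⟩ := e.surjective v
  rw [Ne, n1] at hu hv
  rcases subsingleton_or_nontrivial K with hK | hK
  · have : ∀ u : K ⊕ K, u ≠ inl 1 → u = inr 1 := by
      rintro (c | c) hc
      · exact absurd (congrArg _ (Subsingleton.elim _ _)) hc
      · exact congrArg _ (Subsingleton.elim _ _)
    rw [this u hu, this v hv]
    exact h.eqv.refl _
  have a1 : ∀ c ≠ 1, ∃ d, r (e (inl c)) (e (inr d)) := fun c hc => by
    by_contra! h1
    let f : K →* D := MonoidHom.mk' (fun a => e (inl a)) fun a b => (e1 a b).symm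
    have := h.top (H := f.range) (u := e (inl c)) (by simpa [n1] using hc) fun v hv => by
      obtain ⟨d | d, rfl⟩ := e.surjective v
      exacts [⟨d, rfl⟩, absurd hv (h1 d)]
    obtain ⟨a, ha⟩ := (this.ge (Subgroup.mem_top (e (inr 1))) : e (inr 1) ∈ f.range)
    exact inl_ne_inr (e.injective ha)
  have sym : ∀ c, r (e (inl c)) (e (inl c⁻¹)) := fun c => by
    by_cases hc : c = 1
    · rw [hc, inv_one]; exact h.eqv.refl _
    obtain ⟨d, hd⟩ := a1 c hc
    have := h.inv _ _ hd
    rw [i1, i2] at this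
    exact h.eqv.trans hd (h.eqv.symm this)
  have hs : SR fun u v => r (e u) (e v) :=
    { eqv := ⟨fun _ => h.eqv.refl _, h.eqv.symm, h.eqv.trans⟩
      one := fun u hu => (n1 u).1 (h.one _ (e0 ▸ hu))
      mul := fun x y x' y' h1 h2 u v huv => by
        have E : ∀ u, co (x * x' + y * st y') (x * y' + y * x') u =
            ∑ w, co x y w * co x' y' (e.symm ((e w)⁻¹ * e u)) := by
          rintro (c | c)
          · simp [co, coeff_mul', i1, i2, e1, e3, mul_comm c⁻¹]
          · have : ∀ a, x'.coeff (a * c⁻¹) = x'.coeff (a⁻¹ * c) := fun a => by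
              simpa [co, mul_comm] using h2 (inl (a * c⁻¹)) (inl (a * c⁻¹)⁻¹) (sym _)
            simp [co, coeff_mul', i1, i2, e2, e4, this]
        obtain ⟨σ, hσ⟩ := h.mul _ _ huv
        rw [E, E]
        refine Fintype.sum_equiv (e.trans (σ.trans e.symm)) _ _ fun w => ?_
        rw [h1 w (e.symm (σ (e w))) (by simpa using (hσ (e w)).1),
          h2 (e.symm ((e w)⁻¹ * e u)) (e.symm ((σ (e w))⁻¹ * e v)) (by simpa using (hσ (e w)).2)]
        simp
      a1 := a1
      a2 := fun d => by
        by_contra! h1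
        have b1 : ∀ v, r (e (inr d)) v → v = e (inr d) := fun v hv => by
          obtain ⟨d' | d', rfl⟩ := e.surjective v
          · exact absurd hv (h1 d')
          by_contra h2
          obtain ⟨t, ht⟩ := a1 (d * d'⁻¹) fun h3 => h2 (by rw [mul_inv_eq_one.1 h3])
          obtain ⟨σ, hσ⟩ := h.mul _ _ ht
          obtain ⟨b2, b3⟩ := hσ (e (inr d))
          obtain ⟨s | s, hs⟩ := e.surjective (σ (e (inr d)))
          · exact h1 s (hs ▸ b2)
          rw [← hs, i2, i2, e3, e4] at b3
          exact h1 _ (h.eqv.trans hv (by simpa using b3))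
        let H : Subgroup D :=
          { carrier := {x | x = 1 ∨ x = e (inr d)}
            one_mem' := .inl rfl
            inv_mem' := by rintro _ (rfl | rfl) <;> simp [i2]
            mul_mem' := by rintro _ _ (rfl | rfl) (rfl | rfl) <;> simp [e4, e0] }
        have := h.top (H := H) (u := e (inr d)) (by simp [n1]) fun v hv => .inr (b1 v hv)
        obtain ⟨c, hc⟩ := exists_ne (1 : K)
        rcases (this.ge (Subgroup.mem_top (e (inl c))) : e (inl c) ∈ H) with h2 | h2
        · exact hc (inl_injective ((n1 _).1 h2))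
        · exact inl_ne_inr (e.injective h2)
      sym := sym
      a4 := fun S hS y hy h1 h2 u v hu => by
        have := h.a4 (S := fun g => S (e.symm g)) (fun u v huv => hS _ _ (by simpa)) (y := e (inl y))
          (by simpa [n1] using hy) (fun v hv => by
            obtain ⟨d | d, rfl⟩ := e.surjective v
            · simpa [e1, mul_comm] using h1 d (by simpa using hv)
            · simpa [e2, mul_comm] using h2 d (by simpa using hv)) (u := e u) (by simpa) (e v)
        simpa using this }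
  exact hs.two u v hu hv

theorem SD.dih [Finite D] (h : SD r) {m : ℕ} (φ : D ≃* DihedralGroup m) {u v : D} (hu : u ≠ 1) (hv : v ≠ 1) :
    r u v := by
  have : NeZero m := ⟨by
    rintro rfl
    have : Finite (DihedralGroup 0) := .of_equiv _ φ.toEquiv
    exact not_finite (DihedralGroup 0)⟩
  let e : Multiplicative (ZMod m) ⊕ Multiplicative (ZMod m) ≃ DihedralGroup m :=
    { toFun := Sum.elim (fun a => .r a.toAdd) fun a => .sr (-a.toAdd)
      invFun := fun g => match g with
        | .r i => inl (.ofAdd i)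
        | .sr i => inr (.ofAdd (-i))
      left_inv := by rintro (a | a) <;> simp
      right_inv := by rintro (a | a) <;> simp }
  refine h.two (e.trans φ.symm.toEquiv) (fun a b => ?_) (fun a b => ?_) (fun a b => ?_) (fun a b => ?_) hu hv <;>
    apply φ.injective <;> simp [e] <;> ring

open MulAction in
theorem two_trans {G Ω : Type*} [Group G] [Finite G] [MulAction G Ω] (hG : IsPreprimitive G Ω)
    (C : Subgroup G) {m : ℕ} (φ : C ≃* DihedralGroup m) (hC : IsPretransitive C Ω)
    (hC' : ∀ a : Ω, stabilizer C a = ⊥) : IsMultiplyPretransitive G Ω 2 := by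
  classical
  refine H18.mt_two_iff.2 fun a b c d hab hcd => ?_
  have h0 : ∀ u : C, (u : G) • a = a → u = 1 := fun u hu => (Subgroup.eq_bot_iff_forall _).1 (hC' a) u hu
  let e : C ≃ Ω := .ofBijective (fun u => (u : G) • a) ⟨fun u v huv => by
    have := h0 (v⁻¹ * u) (by rw [Subgroup.coe_mul, Subgroup.coe_inv, mul_smul, inv_smul_eq_iff]; exact huv)
    rwa [inv_mul_eq_one, eq_comm] at this, fun x => hC.exists_smul_eq a x⟩
  have he : ∀ x, (e.symm x : G) • a = x := e.apply_symm_apply
  have hr : SD (fun u v : C => ∃ h : G, h • a = a ∧ h • (u : G) • a = (v : G) • a) :=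
    { eqv := ⟨fun u => ⟨1, by simp⟩, fun ⟨h, h1, h2⟩ => ⟨h⁻¹, by simp [inv_smul_eq_iff, h1, h2]⟩,
        fun ⟨h, h1, h2⟩ ⟨k, k1, k2⟩ => ⟨k * h, by simp [mul_smul, h1, h2, k1, k2]⟩⟩
      one := fun u ⟨h, h1, h2⟩ => h0 u (by simpa [h1] using h2.symm)
      inv := fun u v ⟨h, h1, h2⟩ => ⟨(v : G)⁻¹ * h * u, by simp [mul_smul, h1, h2]⟩
      mul := fun u v ⟨h, h1, h2⟩ => ⟨e.trans ((toPerm h).trans e.symm), fun w => by
        have h3 := he (h • (w : G) • a)
        refine ⟨⟨h, h1, h3.symm⟩, (e.symm (h • (w : G) • a) : G)⁻¹ * h * w, ?_, ?_⟩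
        · rw [mul_smul, mul_smul, inv_smul_eq_iff, h3]
        · simp [mul_smul, h2]; rfl⟩
      prim := fun D hD => by
        refine or_iff_not_imp_left.2 fun h1 => ?_
        obtain ⟨⟨u, hu⟩, hu1⟩ := (Subgroup.ne_bot_iff_exists_ne_one).1 h1
        have h2 := H18.prim_rel hG (fun x y => (e.symm x)⁻¹ * e.symm y ∈ D)
          ⟨fun x => by simp, fun h => by simpa using D.inv_mem h, fun h h' => by simpa using D.mul_mem h h'⟩
          (fun g x y h => hD _ _ ⟨(e.symm (g • x) : G)⁻¹ * g * e.symm x, by simp [mul_smul, he, inv_smul_eq_iff]⟩ h)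
          (a := e 1) (b := e u) (fun h => hu1 (Subtype.ext (e.injective h).symm)) (by simpa)
        exact top_le_iff.1 fun x _ => by simpa using h2 (e 1) (e x) }
  obtain ⟨h, h1, h2⟩ := hr.dih φ (u := e.symm b)
    (v := (e.symm c)⁻¹ * e.symm d) (fun h => hab (by simpa [h] using he b))
    (fun h => hcd (e.symm.injective (inv_mul_eq_one.1 h)))
  exact ⟨e.symm c * h, by simp [mul_smul, h1, he], by rw [he] at h2; simp [mul_smul, h2, he]⟩

end H29.DB
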