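import Cfsg.Agent.H29.Coxeter
import Cfsg.Agent.H19.Dm0

/-!
# The symmetric group of degree eight from the Coxeter relations
-/

set_option autoImplicit false
set_option maxRecDepth 100000
set_option synthInstance.maxSize 4000

namespace H29.Dm
open Equiv Subgroup H19.Dm

variable {G : Type*} [Group G] {F : P35 →* G} {s : G}

def q0 : P35 := (1, swap 0 1)
def q1 : P35 := (1, swap 1 2)
def w1 : P35 := (swap 1 2, 1)
def ka : Perm (Fin 8) := swap 3 7 * swap 7 4 * swap 4 6

theorem a3 (h : Hy F s) (ca : CA F s) (ra : RA F s) : PS F s := by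
  have e0 : s * F q0 * s = F w := by
    have := ca
    rw [CA, show u = q0 * t by decide +kernel, map_mul, map_mul, h.sm, h.st'] at this
    exact mul_right_cancel this
  have e1 : s * F q1 * s = F w1 := by
    rw [show q1 = q0 * z' by decide +kernel, map_mul, h.sm, e0, h.sz', ← map_mul]
    exact congrArg F (by decide +kernel)
  have e0' : s * F w * s = F q0 := by rw [← e0, h.ss]
  have e1' : s * F w1 * s = F q1 := by rw [← e1, h.ss]
  have f2 : ∀ {x y x' y' : P35}, x * y = x' * y' → F x * F y = F x' * F y' := fun e => by rw [← map_mul, e, map_mul]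
  have f3 : ∀ {x y : P35}, x * y * x = y * x * y → F x * F y * F x = F y * F x * F y := fun e => by
    rw [← map_mul, ← map_mul, e, map_mul, map_mul]
  have f1 : ∀ {x : P35}, x * x = 1 → F x * F x = 1 := fun e => by rw [← map_mul, e, map_one]
  have g2 : ∀ {x y : P35}, x * y = y * x → s * F x * s * (s * F y * s) = s * F y * s * (s * F x * s) := fun e => by
    rw [← h.sm, ← h.sm, f2 e]
  have g3 : ∀ {x y : P35}, x * y * x = y * x * y →
      s * F x * s * (s * F y * s) * (s * F x * s) = s * F y * s * (s * F x * s) * (s * F y * s) := fun e => by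
    rw [← h.sm, ← h.sm, ← h.sm, ← h.sm, f3 e]
  obtain ⟨φ, hφ⟩ := exists_hom_perm_of_coxeter_nat (n := 7)
    (s := fun i => [F w, F w1, s * F p * s, F t, F (t * p * t), F q1, F q0].getD i 1) (fun i hi => by
      interval_cases i <;> simp only [List.getD_cons_zero, List.getD_cons_succ]
      any_goals exact f1 (by decide +kernel)
      rw [← h.sm, f1 (by decide +kernel), mul_one, h.s2])
    (fun i hi => by
      have : i < 6 := by omega
      interval_cases i <;> simp only [List.getD_cons_zero, List.getD_cons_succ, Nat.reduceAdd]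
      any_goals exact f3 (by decide +kernel)
      · rw [← e1]; exact g3 (by decide +kernel)
      · rw [← h.st']; exact g3 (by decide +kernel))
    (fun i j hij hj => by
      have : i < 5 := by omega
      interval_cases i <;> interval_cases j <;> simp only [List.getD_cons_zero, List.getD_cons_succ]
      any_goals exact f2 (by decide +kernel)
      · rw [← e0]; exact g2 (by decide +kernel)
      · exact ra
      · rw [← e1']; exact g2 (by decide +kernel)
      · rw [← e0']; exact g2 (by decide +kernel))
  have r0 : φ (swap 0 1) = F w := hφ 0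
  have r1 : φ (swap 1 2) = F w1 := hφ 1
  have r2 : φ (swap 2 3) = s * F p * s := hφ 2
  have r3 : φ (swap 3 4) = F t := hφ 3
  have r4 : φ (swap 4 5) = F (t * p * t) := hφ 4
  have r5 : φ (swap 5 6) = F q1 := hφ 5
  have r6 : φ (swap 6 7) = F q0 := hφ 6
  have inj : Function.Injective φ := by
    rw [← MonoidHom.ker_eq_bot_iff]
    by_contra n
    have := Perm.alternatingGroup_le_of_normal (N := φ.ker) (by simp) ((nontrivial_iff_ne_bot _).2 n)
      (show swap 0 1 * swap 1 2 ∈ alternatingGroup (Fin 8) from Perm.mem_alternatingGroup.2 (by decide +kernel))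
    rw [MonoidHom.mem_ker, map_mul, r0, r1, ← map_mul, ← map_one F] at this
    exact absurd (h.inj this) (by decide +kernel)
  refine ⟨φ.comp (MulAut.conj ka).toMonoidHom, inj.comp (MulAut.conj ka).injective, ?_, ?_, ?_⟩
  · exact (congrArg φ (by decide +kernel)).trans r3
  · refine (congrArg φ (show _ = swap 6 7 * swap 3 4 by decide +kernel)).trans ?_
    rw [map_mul, r6, r3, ← map_mul]
    exact congrArg F (by decide +kernel)
  · refine (congrArg φ (show _ = swap 0 7 * swap 1 6 * swap 2 5 by decide +kernel)).trans ?_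
    generalize hσ : (swap 0 7 * swap 1 6 * swap 2 5 : Perm (Fin 8)) = σ
    have k : ∀ {a b : Perm (Fin 8)} {x : P35}, σ * a = b * σ → φ a = F x → φ b = s * F x * s →
        s * φ σ * F x = F x * (s * φ σ) := fun {a b x} e ea eb => by
      rw [mul_assoc, ← ea, ← map_mul, e, map_mul, eb, ea, ← mul_assoc, ← mul_assoc, ← mul_assoc, h.s2, one_mul, mul_assoc]
    have k0 := k (hσ ▸ by decide +kernel) r0 (r6.trans e0'.symm)
    have k1 := k (hσ ▸ by decide +kernel) r1 (r5.trans e1'.symm)
    have k3 := k (hσ ▸ by decide +kernel) r3 (r3.trans h.st'.symm)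
    have k4 := k (b := swap 3 4 * swap 2 3 * swap 3 4) (hσ ▸ by decide +kernel) r4 (by
      rw [map_mul, map_mul, r3, r2, map_mul, map_mul, h.sm, h.sm, h.st'])
    have k5 := k (hσ ▸ by decide +kernel) r5 (r1.trans e1.symm)
    have k6 := k (hσ ▸ by decide +kernel) r6 (r0.trans e0.symm)
    obtain ⟨x, hx, -⟩ := h.cz (g := s * φ σ) (by
      rw [show z = w * w1 by decide +kernel, map_mul, ← mul_assoc, k0, mul_assoc, k1, mul_assoc])
    rw [← hx] at k0 k1 k3 k4 k5 k6
    have c : ∀ {y : P35}, F x * F y = F y * F x → x * y = y * x := fun e => h.inj (by rw [map_mul, map_mul, e])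
    have x1 : x = 1 := Prod.ext
      ((by decide +kernel : ∀ a : Perm (Fin 3), a * w.1 = w.1 * a → a * w1.1 = w1.1 * a → a = 1) _
        (congrArg Prod.fst (c k0)) (congrArg Prod.fst (c k1)))
      ((by decide +kernel : ∀ a : Perm (Fin 5), a * t.2 = t.2 * a → a * (t * p * t).2 = (t * p * t).2 * a →
        a * q1.2 = q1.2 * a → a * q0.2 = q0.2 * a → a = 1) _ (congrArg Prod.snd (c k3)) (congrArg Prod.snd (c k4))
        (congrArg Prod.snd (c k5)) (congrArg Prod.snd (c k6)))
    rw [x1, map_one] at hx
    exact (inv_eq_of_mul_eq_one_right hx.symm).symm.trans h.si'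

end H29.Dm
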