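import Cfsg.Agent.H19.Dm0
import Cfsg.Agent.H19.Cm0

/-!
# From the subgroup of index two to the symmetric group of degree eight
-/

set_option autoImplicit false
set_option maxRecDepth 100000
set_option synthInstance.maxSize 4000

namespace H29.Dm
open Equiv Subgroup H19.Dm

variable {G : Type*} [Group G] [Finite G] {F : P35 →* G} {s : G}

theorem hyH (h : Hy F s) (ca : CA F s) {H : Subgroup G} (hi : H.index = 2) (ht : F t ∉ H) (hs : s ∈ H) :
    ∃ f : H19.Cm.L →* H, H19.Cm.Hy f ⟨s, hs⟩ := by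
  have hn := normal_of_index_eq_two hi
  let χ : P35 →* G ⧸ H := (QuotientGroup.mk' H).comp F
  have hχ : ∀ x, χ x = 1 ↔ F x ∈ H := fun x => QuotientGroup.eq_one_iff _
  have sq : ∀ x, F (x * x) ∈ H := fun x => by rw [map_mul]; exact mul_self_mem_of_index_two hi _
  have mi : ∀ x y, F (x * y) ∈ H ↔ (F x ∈ H ↔ F y ∈ H) := fun x y => by rw [map_mul]; exact mul_mem_iff_of_index_two hi
  have hu : F u ∈ H := by
    obtain ⟨x, e⟩ : ∃ x : Perm (Fin 5), x * x = u.2 := by decide +kernel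
    exact (show ((1, x) : P35) * (1, x) = u from Prod.ext (mul_one _) e) ▸ sq (1, x)
  have hw : F w ∉ H := fun r => ht (by
    have : F (w * t) ∈ H := ca ▸ mul_mem (mul_mem hs hu) hs
    exact ((mi _ _).1 this).1 r)
  have a1 : ∀ a : Perm (Fin 3), F (a, 1) ∈ H ↔ Perm.sign a = 1 := fun a => by
    rcases (by decide +kernel : ∀ a : Perm (Fin 3), (Perm.sign a = 1 ∧ ∃ b, b * b = a) ∨
      (Perm.sign a ≠ 1 ∧ ∃ b, b * b * w.1 = a)) a with ⟨e, b, rfl⟩ | ⟨e, b, rfl⟩
    · exact iff_of_true ((show ((b, 1) : P35) * (b, 1) = (b * b, 1) from Prod.ext rfl (mul_one _)) ▸ sq (b, 1)) e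
    · refine iff_of_false (fun r => hw (((mi ((b, 1) * (b, 1)) w).1 ?_).1 (sq _))) e
      exact (show (b * b * w.1, 1) = ((b, 1) : P35) * (b, 1) * w from Prod.ext rfl (by simp [w])) ▸ r
  have a2 : ∀ a : Perm (Fin 5), F (1, a) ∈ H ↔ Perm.sign a = 1 := fun a => by
    have ev : ∀ a : Perm (Fin 5), Perm.sign a = 1 → F (1, a) ∈ H := fun a e => by
      obtain ⟨b, rfl⟩ := (by decide +kernel : ∀ a : Perm (Fin 5), Perm.sign a = 1 → ∃ b, b * b = a) a e
      exact (show ((1, b) : P35) * (1, b) = (1, b * b) from Prod.ext (mul_one _) rfl) ▸ sq (1, b)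
    refine ⟨fun r => by_contra fun e => ht (((mi (1, a) t).1 (?_ : F ((1, a) * t) ∈ H)).1 r), ev a⟩
    rw [show ((1, a) : P35) * t = (1, a * t.2) from Prod.ext (mul_one _) rfl]
    exact ev _ (by rw [map_mul, (Int.units_eq_one_or _).resolve_left e]; decide +kernel)
  have mem : ∀ x : P35, F x ∈ H ↔ x ∈ H19.Cm.L := fun x => by
    rw [show x = (x.1, 1) * (1, x.2) by simp, mi, a1, a2, MonoidHom.mem_ker]
    simp only [MonoidHom.mul_apply, MonoidHom.comp_apply, MonoidHom.coe_fst, MonoidHom.coe_snd, Prod.mk_mul_mk, mul_one, one_mul]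
    rcases Int.units_eq_one_or (Perm.sign x.1) with a | a <;> rcases Int.units_eq_one_or (Perm.sign x.2) with b | b <;>
      rw [a, b] <;> decide
  let f : H19.Cm.L →* H := (F.comp H19.Cm.L.subtype).codRestrict H fun x => (mem x).2 x.2
  have fv : ∀ x, (f x : G) = F x := fun _ => rfl
  have nm : ∀ (K : Subgroup H) (g : H), g ∈ normalizer (K : Set H) ↔ (g : G) ∈ normalizer (K.map H.subtype : Set G) :=
    fun K g => by
      refine ⟨fun r => le_normalizer_map _ ⟨g, r, rfl⟩, fun r => mem_normalizer_iff.2 fun x => ?_⟩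
      exact (mem_map_iff_mem H.subtype_injective).symm.trans ((mem_normalizer_iff.1 r x).trans
        (mem_map_iff_mem (x := g * x * g⁻¹) H.subtype_injective))
  have hD : (H19.Cm.D f).map H.subtype = D F := by
    rw [H19.Cm.D, MonoidHom.map_closure, Set.image_pair]; rfl
  have cD : Nat.card (H19.Cm.D f) = 9 := by rw [← h.cD, ← hD, card_map_of_injective H.subtype_injective]
  have lf : ∀ g : H, (∃ x, F x = g) → ∃ x, f x = g := fun g ⟨x, e⟩ => ⟨⟨x, (mem x).1 (e ▸ g.2)⟩, Subtype.ext e⟩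
  have e0 : s * F (u * t) * s = F w := by
    have := ca
    rw [CA, map_mul] at this
    rw [map_mul, h.sm, this, h.st', mul_assoc, ← map_mul, k0.1, map_one, mul_one]
  refine ⟨f, fun a b e => Subtype.ext (h.inj (congrArg Subtype.val e)), fun g => ?_, Subtype.ext h.s2, Subtype.ext h.sz,
    Subtype.ext ?_, Subtype.ext ca, ?_, cD, fun g hg => ?_, fun g c => ?_⟩
  · rw [nm, MonoidHom.map_zpowers]
    exact (h.hN g).trans ⟨lf g, fun ⟨x, e⟩ => ⟨x, congrArg Subtype.val e⟩⟩
  · show s * F H19.Cm.I = F H19.Cm.I * s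
    have e1 : s * F w * s = F (u * t) := by rw [← e0, h.ss]
    rw [show (H19.Cm.I : P35) = w * (u * t) by decide +kernel, ← mul_left_inj s, mul_assoc _ s s, h.s2, mul_one, map_mul,
      h.sm, e0, e1, ← map_mul, ← map_mul]
    exact congrArg F (by decide +kernel)
  · obtain ⟨P, hP⟩ := h.syl
    have := Fact.mk Nat.prime_three
    refine ⟨(IsPGroup.of_card (n := 2) cD).toSylow fun d => P.not_dvd_index ?_, rfl⟩
    rw [hP, ← hD, index_map_subtype]
    exact d.mul_right _
  · refine (h.hD g (hD ▸ (nm _ g).1 hg)).imp (lf g) (lf (g * ⟨s, hs⟩))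
  · exact (nm _ g).2 (hD.symm ▸ h.hy g (congrArg Subtype.val c))

theorem a5 (M : ∀ (H : Subgroup G) (f : H19.Cm.L →* H) (r : H), H19.Cm.Hy f r → Nonempty (H ≃* alternatingGroup (Fin 8)))
    (h : Hy F s) (ca : CA F s) (ps : PS F s) (ix : IX F) : Nonempty (G ≃* Perm (Fin 8)) := by
  obtain ⟨H, hi, ht⟩ := ix
  obtain ⟨ψ, hψ, -⟩ := ps
  obtain ⟨e⟩ : Nonempty (H ≃* alternatingGroup (Fin 8)) := by
    by_cases hs : s ∈ H
    · exact (hyH h ca hi ht hs).elim fun f => M H f _
    · exact (hyH h.tw (h.twA ca) hi ht ((mul_mem_iff_of_index_two hi).2 (iff_of_false hs ht))).elim fun f => M H f _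
  have c := H.card_mul_index
  rw [hi, Nat.card_congr e.toEquiv, mul_comm, two_mul_nat_card_alternatingGroup] at c
  exact ⟨(MulEquiv.ofBijective ψ ((Nat.bijective_iff_injective_and_card ψ).2 ⟨hψ, c⟩)).symm⟩

end H29.Dm
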