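import Mathlib

/-!
# Two involutions with equally many fixed points have a common neighbour in the odd product graph

`Od S x z` says that `-1` is no eigenvalue of `x z` on `S`; `H29.IG.main` is proved by surgery on the graph of `x` and `y`.
-/

set_option autoImplicit false

namespace H29.IG
open Finset

variable {α : Type*} [DecidableEq α] {S T : Finset α} {x y : α → α} {a b c d e f g h u v : α} {k l : ℕ}

/-- `x` is an involution of `S` -/
def Iv (S : Finset α) (x : α → α) : Prop := ∀ j ∈ S, x j ∈ S ∧ x (x j) = j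
/-- the number of fixed points -/
def fx (S : Finset α) (x : α → α) : ℕ := ∑ j ∈ S, if x j = j then 1 else 0
/-- the product has odd order on `S` -/
def Od (S : Finset α) (x z : α → α) : Prop := ∀ φ : α → ℤ, (∀ j ∈ S, φ (x j) + φ (z j) = 0) → ∀ j ∈ S, φ j = 0
/-- there is a common neighbour with `k` fixed points -/
def Good (S : Finset α) (x y : α → α) (k : ℕ) : Prop := ∃ z, Iv S z ∧ fx S z = k ∧ Od S x z ∧ Od S y z
/-- the exceptional quadrangle -/
def Exc (S : Finset α) (x y : α → α) : Prop := S.card = 4 ∧ ∀ j ∈ S, x j ≠ j ∧ y j ≠ j ∧ x j ≠ y j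

theorem Good.symm (h : Good S x y k) : Good S y x k := let ⟨z, h1, h2, h3, h4⟩ := h; ⟨z, h1, h2, h4, h3⟩

theorem Exc.symm (h : Exc S x y) : Exc S y x := ⟨h.1, fun j hj => ⟨(h.2 j hj).2.1, (h.2 j hj).1, (h.2 j hj).2.2.symm⟩⟩

theorem fx_insert (ha : a ∉ S) : fx (insert a S) x = (if x a = a then 1 else 0) + fx S x := sum_insert ha

theorem fx_congr (h : ∀ j ∈ S, x j = j ↔ y j = j) : fx S x = fx S y := sum_congr rfl fun j hj => by simp only [h j hj]

theorem fx_erase (ha : a ∈ S) : fx S x = (if x a = a then 1 else 0) + fx (S.erase a) x :=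
  (add_sum_erase S (fun j => if x j = j then 1 else 0) ha).symm

theorem Good.union (hd : Disjoint T S) (h1 : Good T x y k) (h2 : Good S x y l) : Good (T ∪ S) x y (k + l) := by
  obtain ⟨z, a1, a2, a3, a4⟩ := h1
  obtain ⟨w, b1, b2, b3, b4⟩ := h2
  have hd' := disjoint_left.1 hd
  have key : ∀ x, Od T x z → Od S x w → Od (T ∪ S) x fun j => if j ∈ T then z j else w j := fun x h1 h2 φ hφ j hj =>
    (mem_union.1 hj).elim (h1 φ (fun i hi => by simpa [hi] using hφ i (mem_union_left _ hi)) j)
      (h2 φ (fun i hi => by simpa [show i ∉ T from fun e => hd' e hi] using hφ i (mem_union_right _ hi)) j)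
  refine ⟨fun j => if j ∈ T then z j else w j, fun j hj => ?_, ?_, key x a3 b3, key y a4 b4⟩
  · have := a1 j
    have := b1 j
    have := @hd' (w j)
    grind
  · rw [← a2, ← b2, fx, sum_union hd]
    exact congrArg₂ _ (fx_congr fun j hj => by simp [hj]) (fx_congr fun j hj => by simp [show j ∉ T from fun e => hd' e hj])

theorem Good.absorb (hu : u ∈ T) (n : [a, b, c, d].Nodup) (ha : a ∉ T) (hb : b ∉ T) (hc : c ∉ T) (hd : d ∉ T)
    (x1 : x a = b) (x2 : x b = a) (x3 : x c = d) (x4 : x d = c) (y1 : y a = d) (y2 : y b = c) (y3 : y c = b) (y4 : y d = a)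
    (h : Good T x y k) : Good (insert a (insert b (insert c (insert d T)))) x y k := by
  obtain ⟨z, h1, h2, h3, h4⟩ := h
  simp only [List.nodup_cons, List.mem_cons, not_or, List.not_mem_nil, not_false_eq_true, List.nodup_nil, and_true] at n
  obtain ⟨hv, hvv⟩ := h1 u hu
  obtain ⟨w, w1, w2, w3, w4, w5, w6, w7⟩ : ∃ w : α → α, w u = a ∧ w a = u ∧ w b = d ∧ w d = b ∧
      w c = (if z u = u then c else z u) ∧ (z u ≠ u → w (z u) = c) ∧ ∀ j ∈ T, j ≠ u → j ≠ z u → w j = z j :=
    ⟨fun j => if j = u then a else if j = a then u else if j = b then d else if j = d then b else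
      if j = c then (if z u = u then c else z u) else if j = z u then c else z j,
      by refine ⟨?_, ?_, ?_, ?_, ?_, ?_, ?_⟩ <;> grind⟩
  have key : ∀ (x : α → α) (φ : α → ℤ), Od T x z → (∀ j ∈ T, φ (x j) + φ (w j) = 0) → φ a = φ (w c) → φ c = φ u →
      ∀ j ∈ T, φ j = 0 := fun x φ h hφ e1 e2 => h φ fun j hj => by
    have := hφ j hj
    have := w7 j hj
    by_cases h5 : z u = u <;> by_cases h6 : j = u <;> by_cases h7 : j = z u <;> grind
  refine ⟨w, fun j hj => ?_, ?_, fun φ hφ => ?_, fun φ hφ => ?_⟩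
  · clear key
    simp only [mem_insert] at hj ⊢
    rcases hj with rfl | rfl | rfl | rfl | hj
    · grind
    · grind
    · by_cases h5 : z u = u <;> grind
    · grind
    by_cases h6 : j = u
    · subst h6; simp [w1, w2]
    by_cases h7 : j = z u
    · have h5 : z u ≠ u := h7 ▸ h6
      subst h7; simp [w6 h5, w5, h5]
    obtain ⟨h8, h9⟩ := h1 j hj
    rw [w7 j hj h6 h7, w7 (z j) h8 (by grind) (by grind)]
    exact ⟨by simp [h8], h9⟩
  · rw [fx_insert (by grind), fx_insert (by grind), fx_insert (by grind), fx_insert hd, ← h2, fx_erase hu, fx_erase hu,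
      fx_congr (x := w) (y := z) (fun j hj => by have := w7 j; grind)]
    grind
  all_goals
    have e1 := hφ a (by simp)
    have e2 := hφ b (by simp)
    have e3 := hφ c (by simp)
    have e4 := hφ d (by simp)
    simp only [*] at e1 e2 e3 e4
    have := key _ φ ‹_› (fun j hj => hφ j (by simp [hj])) (by rw [w5]; omega) (by omega)
    have := this u hu
    grind

theorem Good.endS (hc : c ∈ S) (ha : a ∉ S) (hb : b ∉ S) (hab : a ≠ b) (x1 : x a = b) (x2 : x b = a) (y1 : y a = a)
    (y2 : y b = c) (y3 : y c = b) (h : Good S x (Function.update y c c) k) : Good (insert a (insert b S)) x y k := by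
  obtain ⟨z, h1, h2, h3, h4⟩ := h
  obtain ⟨w, w1, w2, w3⟩ : ∃ w : α → α, w a = b ∧ w b = a ∧ ∀ j ∈ S, w j = z j :=
    ⟨fun j => if j = a then b else if j = b then a else z j, by grind⟩
  refine ⟨w, fun j hj => ?_, ?_, fun φ hφ => ?_, fun φ hφ => ?_⟩
  · have := h1 j
    have := w3 j
    have := w3 (z j)
    grind
  · rw [fx_insert (by grind), fx_insert hb, ← h2, fx_congr (x := w) (y := z) (fun j hj => by rw [w3 j hj])]
    grind
  all_goals
    have e1 := hφ a (by simp)
    have e2 := hφ b (by simp)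
    simp only [*] at e1 e2
  · have := h3 φ fun j hj => by rw [← w3 j hj]; exact hφ j (by simp [hj])
    grind
  · have := h4 φ fun j hj => by
      have := hφ j (by simp [hj])
      have := w3 j hj
      grind
    have := this c hc
    grind

theorem Good.midS (hu : u ∈ S) (hv : v ∈ S) (n : [a, b, c, d].Nodup) (ha : a ∉ S) (hb : b ∉ S) (hc : c ∉ S) (hd : d ∉ S)
    (x1 : x a = b) (x2 : x b = a) (x3 : x c = d) (x4 : x d = c) (y0 : y u = a) (y1 : y a = u) (y2 : y b = c) (y3 : y c = b)
    (y4 : y d = v) (y5 : y v = d) (h : Good S x (fun j => if j = u then v else if j = v then u else y j) k) :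
    Good (insert a (insert b (insert c (insert d S)))) x y k := by
  obtain ⟨z, h1, h2, h3, h4⟩ := h
  simp only [List.nodup_cons, List.mem_cons, not_or, List.not_mem_nil, not_false_eq_true, List.nodup_nil, and_true] at n
  obtain ⟨w, w1, w2, w3, w4, w5⟩ : ∃ w : α → α, w a = b ∧ w b = a ∧ w c = d ∧ w d = c ∧ ∀ j ∈ S, w j = z j :=
    ⟨fun j => if j = a then b else if j = b then a else if j = c then d else if j = d then c else z j, by grind⟩
  refine ⟨w, fun j hj => ?_, ?_, fun φ hφ => ?_, fun φ hφ => ?_⟩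
  · have := h1 j
    have := w5 j
    have := w5 (z j)
    grind
  · rw [fx_insert (by grind), fx_insert (by grind), fx_insert (by grind), fx_insert hd, ← h2,
      fx_congr (x := w) (y := z) (fun j hj => by rw [w5 j hj])]
    grind
  all_goals
    have e1 := hφ a (by simp)
    have e2 := hφ b (by simp)
    have e3 := hφ c (by simp)
    have e4 := hφ d (by simp)
    simp only [*] at e1 e2 e3 e4
  · have := h3 φ fun j hj => by rw [← w5 j hj]; exact hφ j (by simp [hj])
    grind
  · have := h4 φ fun j hj => by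
      have := hφ j (by simp [hj])
      have := w5 j hj
      grind
    have := this u hu
    grind

theorem good1 (x1 : x a = a) (y1 : y a = a) : Good {a} x y 1 :=
  ⟨x, by simp [Iv, x1], by rw [fx, sum_singleton, if_pos x1], by simp [Od, x1], by simp [Od, x1, y1]⟩

theorem good2 (hab : a ≠ b) (x1 : x a = b) (x2 : x b = a) (y1 : y a = b) (y2 : y b = a) : Good {a, b} x y 0 :=
  ⟨x, by simp [Iv, *], by simp [fx, *, hab.symm], by simp +contextual [Od, *], by simp +contextual [Od, *]⟩

theorem good4 (n : [a, b, c, d].Nodup) (x1 : x a = b) (x2 : x b = a) (x3 : x c = c) (x4 : x d = d) (y1 : y a = a) (y2 : y b = b)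
    (y3 : y c = d) (y4 : y d = c) : Good {a, b, c, d} x y 2 := by
  simp only [List.nodup_cons, List.mem_cons, not_or, List.not_mem_nil, not_false_eq_true, List.nodup_nil, and_true] at n
  obtain ⟨w, w1, w2, w3, w4⟩ : ∃ w : α → α, w a = c ∧ w b = b ∧ w c = a ∧ w d = d :=
    ⟨fun j => if j = a then c else if j = c then a else j, by grind⟩
  refine ⟨w, by simp [Iv, *], ?_, fun φ hφ => ?_, fun φ hφ => ?_⟩
  · rw [fx_insert (by grind), fx_insert (by grind), fx_insert (by grind), fx, sum_singleton]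
    grind
  all_goals
    simp only [mem_insert, mem_singleton, forall_eq_or_imp, forall_eq, *] at hφ ⊢
    omega

theorem good8 {s t : α} (n : [a, b, c, d, e, f, g, h].Nodup) (x1 : x a = b) (x2 : x b = a) (x3 : x c = d) (x4 : x d = c)
    (x5 : x e = f) (x6 : x f = e) (x7 : x g = h) (x8 : x h = g) (y1 : y a = s) (y2 : y b = c) (y3 : y c = b) (y4 : y d = t)
    (y5 : y e = (if s = d then h else d)) (y6 : y f = g) (y7 : y g = f) (y8 : y h = (if s = d then e else a))
    (hs : (s = d ∧ t = a) ∨ (s = h ∧ t = e)) : Good {a, b, c, d, e, f, g, h} x y 0 := by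
  simp only [List.nodup_cons, List.mem_cons, not_or, List.not_mem_nil, not_false_eq_true, List.nodup_nil, and_true] at n
  obtain ⟨w, w1, w2, w3, w4, w5, w6, w7, w8⟩ : ∃ w : α → α, w a = b ∧ w b = a ∧ w c = e ∧ w d = h ∧ w e = c ∧ w f = g ∧
      w g = f ∧ w h = d :=
    ⟨fun j => if j = a then b else if j = b then a else if j = c then e else if j = e then c else if j = f then g else
      if j = g then f else if j = d then h else d, by grind⟩
  refine ⟨w, by simp [Iv, *], sum_eq_zero (by simp only [mem_insert, mem_singleton, forall_eq_or_imp, forall_eq]; grind),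
    fun φ hφ => ?_, fun φ hφ => ?_⟩
  · simp only [mem_insert, mem_singleton, forall_eq_or_imp, forall_eq, *] at hφ ⊢
    omega
  · rcases hs with ⟨rfl, rfl⟩ | ⟨rfl, rfl⟩
    · simp only [mem_insert, mem_singleton, forall_eq_or_imp, forall_eq, if_true, *] at hφ ⊢
      omega
    · rw [if_neg (by grind)] at y5 y8
      simp only [mem_insert, mem_singleton, forall_eq_or_imp, forall_eq, *] at hφ ⊢
      omega

theorem Exc.at (hE : Exc S x y) (hx : Iv S x) (hy : Iv S y) (hu : u ∈ S) :
    [u, x u, x (y u), y u].Nodup ∧ S = {u, x u, x (y u), y u} ∧ y (x u) = x (y u) := by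
  obtain ⟨a1, a2⟩ := hx u hu
  obtain ⟨a3, a4⟩ := hy u hu
  obtain ⟨a5, a6⟩ := hx _ a3
  obtain ⟨a7, a8⟩ := hy _ a1
  have b1 := hE.2 u hu
  have b2 := hE.2 _ a1
  have b3 := hE.2 _ a3
  have n : [u, x u, x (y u), y u].Nodup := by
    simp only [List.nodup_cons, List.mem_cons, not_or, List.not_mem_nil, not_false_eq_true, List.nodup_nil, and_true]
    grind
  have e : S = {u, x u, x (y u), y u} := (eq_of_subset_of_card_le (by grind) (by
    rw [hE.1, ← show _ = 4 from List.toFinset_card_of_nodup n]; simp)).symm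
  refine ⟨n, e, ?_⟩
  rw [e] at a7
  grind

theorem ins2 (ha : a ∈ S) (hb : b ∈ S) : S = insert a (insert b (S \ {a, b})) := by grind
theorem ins4 (ha : a ∈ S) (hb : b ∈ S) (hc : c ∈ S) (hd : d ∈ S) :
    S = insert a (insert b (insert c (insert d (S \ {a, b, c, d})))) := by
  ext j; simp only [mem_insert, mem_sdiff, mem_singleton]; grind

omit [DecidableEq α] in
theorem nodup8 (n : [a, b, c, d].Nodup) (m : [e, f, g, h].Nodup) (h1 : e ≠ a ∧ e ≠ b ∧ e ≠ c ∧ e ≠ d)
    (h2 : f ≠ a ∧ f ≠ b ∧ f ≠ c ∧ f ≠ d) (h3 : g ≠ a ∧ g ≠ b ∧ g ≠ c ∧ g ≠ d) (h4 : h ≠ a ∧ h ≠ b ∧ h ≠ c ∧ h ≠ d) :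
    [a, b, c, d, e, f, g, h].Nodup := by
  simp only [List.nodup_cons, List.mem_cons, not_or, List.not_mem_nil, not_false_eq_true, List.nodup_nil, and_true] at n m ⊢
  grind

theorem card_lt' (ha : a ∈ S) (haT : a ∈ T) : (S \ T).card < S.card := card_lt_card ⟨sdiff_subset, fun h => by grind⟩

theorem step (IH : ∀ T : Finset α, T.card < S.card → ∀ x y, Iv T x → Iv T y → fx T x = fx T y → Good T x y (fx T x) ∨ Exc T x y)
    (hx : Iv S x) (hy : Iv S y) (e : fx S x = fx S y) (hT : T ⊆ S) (ha : a ∈ T) (h1 : Iv T x) (h2 : Iv T y)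
    (e' : fx T x = fx T y) (h : Good T x y (fx T x)) : Good S x y (fx S x) := by
  have k : ∀ x, Iv S x → Iv T x → Iv (S \ T) x := fun x h1 h2 j hj => by
    have := h1 j
    have := h2 (x j)
    grind
  have s : ∀ x, fx S x = fx T x + fx (S \ T) x := fun x => by rw [add_comm]; exact (sum_sdiff hT).symm
  rcases IH (S \ T) (card_lt' (hT ha) ha) x y (k x hx h1) (k y hy h2) (by have := s x; have := s y; omega) with h3 | h3
  · have := h.union disjoint_sdiff h3
    rwa [union_sdiff_of_subset hT, ← s] at this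
  · obtain ⟨u, hu⟩ := card_pos.1 (h3.1.symm ▸ (by norm_num : 0 < 4))
    obtain ⟨n, e1, e2⟩ := h3.at (k x hx h1) (k y hy h2) hu
    have a1 := k x hx h1 u hu
    have a2 := k y hy h2 u hu
    have a3 := k x hx h1 _ a2.1
    have a4 := k y hy h2 _ a1.1
    have := h.absorb ha n (by grind) (by grind) (by grind) (by grind) rfl a1.2 a3.2 rfl rfl e2 (by grind) a2.2
    rw [s, show fx (S \ T) x = 0 from sum_eq_zero fun j hj => if_neg (h3.2 j hj).1, add_zero]
    convert this using 1
    ext j
    have : j ∈ S \ T ↔ j ∈ ({u, x u, x (y u), y u} : Finset α) := by rw [← e1]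
    have := @hT j
    have := @sdiff_subset _ _ S T j
    simp only [mem_insert, mem_sdiff, mem_singleton] at *
    grind

theorem stepE (IH : ∀ T : Finset α, T.card < S.card → ∀ x y, Iv T x → Iv T y → fx T x = fx T y → Good T x y (fx T x) ∨ Exc T x y)
    (hx : Iv S x) (hy : Iv S y) (e : fx S x = fx S y) (ha : a ∈ S) (h1 : y a = a) (h2 : x a ≠ a) (h3 : y (x a) ≠ x a) :
    Good S x y (fx S x) := by
  obtain ⟨a1, a2⟩ := hx a ha
  obtain ⟨a3, a4⟩ := hy _ a1
  have hc : y (x a) ∈ S \ {a, x a} := by grind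
  have e1 : fx S x = fx (S \ {a, x a}) x := by
    conv_lhs => rw [ins2 ha a1, fx_insert (by grind), fx_insert (by grind)]
    grind
  have e2 : fx S y = fx (S \ {a, x a}) (Function.update y (y (x a)) (y (x a))) := by
    conv_lhs => rw [ins2 ha a1, fx_insert (by grind), fx_insert (by grind)]
    rw [fx_erase hc, fx_erase hc, fx_congr (x := y) (y := Function.update y (y (x a)) (y (x a))) (by grind)]
    grind
  rcases IH (S \ {a, x a}) (card_lt' ha (by simp)) x (Function.update y (y (x a)) (y (x a)))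
    (fun j hj => by have := hx j; grind) (fun j hj => by have := hy j; grind) (by omega) with h4 | h4
  · have := h4.endS hc (by simp) (by simp) h2.symm rfl a2 h1 rfl a4
    rwa [← ins2 ha a1, ← e1] at this
  · exact absurd (by simp) (h4.2 _ hc).2.1

theorem main (n : ℕ) : ∀ S : Finset α, S.card = n → ∀ x y, Iv S x → Iv S y → fx S x = fx S y →
    Good S x y (fx S x) ∨ Exc S x y := by
  induction n using Nat.strong_induction_on with
  | _ n ih =>
  intro S hS x y hx hy e
  have IH : ∀ T : Finset α, T.card < S.card → ∀ x y, Iv T x → Iv T y → fx T x = fx T y → Good T x y (fx T x) ∨ Exc T x y :=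
    fun T hT => ih _ (hS ▸ hT) T rfl
  by_cases c1 : ∃ a ∈ S, x a = a ∧ y a = a
  · obtain ⟨a, ha, h1, h2⟩ := c1
    refine Or.inl (step IH hx hy e (singleton_subset_iff.2 ha) (mem_singleton_self a) (by simp [Iv, h1]) (by simp [Iv, h2])
      (fx_congr (by simp [h1, h2])) ?_)
    rw [fx, sum_singleton, if_pos h1]
    exact good1 h1 h2
  by_cases c2 : ∃ a ∈ S, y a = a ∧ y (x a) ≠ x a
  · obtain ⟨a, ha, h1, h2⟩ := c2
    exact Or.inl (stepE IH hx hy e ha h1 (by grind) h2)
  by_cases c3 : ∃ a ∈ S, x a = a ∧ x (y a) ≠ y a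
  · obtain ⟨a, ha, h1, h2⟩ := c3
    exact Or.inl (e ▸ (stepE IH hy hx e.symm ha h1 (by grind) h2).symm)
  push Not at c1 c2 c3
  have z0 : ∀ x : α → α, fx S x = 0 ↔ ∀ j ∈ S, x j ≠ j := fun x => by simp [fx, filter_eq_empty_iff]
  by_cases c4 : fx S x = 0
  swap
  · have c5 := e ▸ c4
    rw [z0] at c4 c5
    push Not at c4 c5
    obtain ⟨c, hc, h1⟩ := c4
    obtain ⟨a, ha, h2⟩ := c5
    have a1 := hx a ha
    have a2 := hy c hc
    have a3 := c1 a ha
    have a4 := c1 c hc
    have a5 := c2 a ha h2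
    have a6 := c3 c hc h1
    have n : [a, x a, c, y c].Nodup := by
      simp only [List.nodup_cons, List.mem_cons, not_or, List.not_mem_nil, not_false_eq_true, List.nodup_nil, and_true]
      grind
    have := good4 n rfl a1.2 h1 a6 h2 a5 rfl a2.2
    simp only [List.nodup_cons, List.mem_cons, not_or, List.not_mem_nil, not_false_eq_true, List.nodup_nil, and_true] at n
    have e1 : fx {a, x a, c, y c} x = 2 := by
      rw [fx_insert (by grind), fx_insert (by grind), fx_insert (by grind), fx, sum_singleton]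
      grind
    have e2 : fx {a, x a, c, y c} y = 2 := by
      rw [fx_insert (by grind), fx_insert (by grind), fx_insert (by grind), fx, sum_singleton]
      grind
    exact Or.inl (step IH hx hy e (T := {a, x a, c, y c}) (by grind) (mem_insert_self _ _) (by simp [Iv, *]) (by simp [Iv, *])
      (e1.trans e2.symm) (e1 ▸ this))
  have fxS := (z0 x).1 c4
  have fyS := (z0 y).1 (e ▸ c4)
  have z1 : ∀ (T : Finset α) (x : α → α), (∀ j ∈ T, x j ≠ j) → fx T x = 0 := fun T x h => sum_eq_zero fun j hj => if_neg (h j hj)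
  clear c1 c2 c3 z0 ih
  rcases S.eq_empty_or_nonempty with rfl | ⟨a, ha⟩
  · exact Or.inl ⟨x, hx, rfl, by simp [Od], by simp [Od]⟩
  obtain ⟨b, hb⟩ : ∃ b, x a = b := ⟨_, rfl⟩
  obtain ⟨c, hc⟩ : ∃ c, y b = c := ⟨_, rfl⟩
  obtain ⟨d, hd⟩ : ∃ d, x c = d := ⟨_, rfl⟩
  obtain ⟨u, hu⟩ : ∃ u, y a = u := ⟨_, rfl⟩
  obtain ⟨v, hv⟩ : ∃ v, y d = v := ⟨_, rfl⟩
  obtain ⟨bS, xb⟩ := hb ▸ hx a ha
  obtain ⟨cS, yc⟩ := hc ▸ hy b bS
  obtain ⟨dS, xd⟩ := hd ▸ hx c cS
  obtain ⟨uS, yu⟩ := hu ▸ hy a ha
  obtain ⟨vS, yv⟩ := hv ▸ hy d dS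
  have f1 := fxS a ha
  have f2 := fyS b bS
  have f3 := fxS c cS
  have f4 := fyS a ha
  have f5 := fyS d dS
  by_cases c1 : c = a
  · subst c1
    have e1 := z1 {c, b} x (by grind)
    exact Or.inl (step IH hx hy e (T := {c, b}) (by grind) (mem_insert_self _ _) (by simp [Iv, hb, xb]) (by simp [Iv, hc, yc])
      (e1.trans (z1 _ _ (by grind)).symm) (e1 ▸ good2 (by grind) hb xb yc hc))
  have n : [a, b, c, d].Nodup := by
    simp only [List.nodup_cons, List.mem_cons, not_or, List.not_mem_nil, not_false_eq_true, List.nodup_nil, and_true]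
    grind
  have n' := n
  simp only [List.nodup_cons, List.mem_cons, not_or, List.not_mem_nil, not_false_eq_true, List.nodup_nil, and_true] at n'
  set R := S \ {a, b, c, d} with hR
  have mR : ∀ j, j ∈ R ↔ j ∈ S ∧ j ≠ a ∧ j ≠ b ∧ j ≠ c ∧ j ≠ d := fun j => by simp [hR]
  have eS : S = insert a (insert b (insert c (insert d R))) := ins4 ha bS cS dS
  have hlt : R.card < S.card := card_lt' ha (by simp)
  clear_value R
  have xR : Iv R x := fun j hj => by have := hx j; grind
  have e1 := z1 R x fun j hj => fxS j ((mR j).1 hj).1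
  rw [c4]
  by_cases c2 : v = a
  · subst c2
    have yR : Iv R y := fun j hj => by have := hy j; grind
    rcases R.eq_empty_or_nonempty with rfl | ⟨w, hw⟩
    · refine Or.inr ⟨by rw [eS, ← show _ = 4 from List.toFinset_card_of_nodup n]; simp, fun j hj => ?_⟩
      rw [eS] at hj
      grind
    rcases IH R hlt x y xR yR (e1.trans (z1 _ _ fun j hj => fyS j ((mR j).1 hj).1).symm) with h | h
    · exact Or.inl (eS ▸ e1 ▸ h.absorb hw n (by grind) (by grind) (by grind) (by grind) hb xb hd xd yv hc yc hv)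
    · obtain ⟨m, e2, e3⟩ := h.at xR yR hw
      have a1 := xR w hw
      have a2 := yR w hw
      have a3 := xR _ a2.1
      have a4 := yR _ a1.1
      refine Or.inl ?_
      rw [eS, e2]
      exact good8 (nodup8 n m ((mR _).1 hw).2 ((mR _).1 a1.1).2 ((mR _).1 a3.1).2 ((mR _).1 a2.1).2) hb xb hd xd rfl a1.2 a3.2
        rfl yv hc yc hv (if_pos rfl).symm e3 (e3 ▸ a4.2) (a2.2.trans (if_pos rfl).symm) (Or.inl ⟨rfl, rfl⟩)
  · have uR : u ∈ R := by grind
    have vR : v ∈ R := by grind
    have uv : u ≠ v := by grind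
    have yR : Iv R fun j => if j = u then v else if j = v then u else y j := fun j hj => by
      by_cases h1 : j = u
      · simp [h1, vR, uv.symm]
      by_cases h2 : j = v
      · simp [h2, uR, uv.symm]
      obtain ⟨h3, h4⟩ := hy j ((mR j).1 hj).1
      have h5 := ((mR j).1 hj).2
      have h6 : y j ≠ u := fun e => h5.1 (by rw [← h4, e, yu])
      have h7 : y j ≠ v := fun e => h5.2.2.2 (by rw [← h4, e, yv])
      simp only [if_neg h1, if_neg h2, if_neg h6, if_neg h7]
      exact ⟨(mR _).2 ⟨h3, fun e => h1 (by rw [← h4, e, hu]), fun e => h5.2.2.1 (by rw [← h4, e, hc]),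
        fun e => h5.2.1 (by rw [← h4, e, yc]), fun e => h2 (by rw [← h4, e, hv])⟩, h4⟩
    have e4 : fx R (fun j => if j = u then v else if j = v then u else y j) = 0 := z1 _ _ fun j hj => by
      by_cases h1 : j = u
      · simp [h1, uv.symm]
      by_cases h2 : j = v
      · simp [h2, uv, uv.symm]
      simpa [h1, h2] using fyS j ((mR j).1 hj).1
    rcases IH R hlt x _ xR yR (e1.trans e4.symm) with h | h
    · exact Or.inl (eS ▸ e1 ▸ h.midS uR vR n (by grind) (by grind) (by grind) (by grind) hb xb hd xd yu hu hc yc hv yv)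
    · obtain ⟨m, e2, e3⟩ := h.at xR yR vR
      simp only [if_neg uv.symm, if_true] at m e2 e3
      have a1 := xR v vR
      have a2 := xR u uR
      have a3 := hy (x v) ((mR _).1 a1.1).1
      have m' := m
      simp only [List.nodup_cons, List.mem_cons, not_or, List.not_mem_nil, not_false_eq_true, List.nodup_nil, and_true] at m'
      rw [if_neg m'.2.1.2, if_neg (Ne.symm m'.1.1)] at e3
      have ud := ((mR _).1 uR).2.2.2.2
      refine Or.inl ?_
      rw [eS, e2]
      exact good8 (nodup8 n m ((mR _).1 vR).2 ((mR _).1 a1.1).2 ((mR _).1 a2.1).2 ((mR _).1 uR).2) hb xb hd xd rfl a1.2 a2.2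
        rfl hu hc yc hv (yv.trans (if_neg ud).symm) e3 (e3 ▸ a3.2) (yu.trans (if_neg ud).symm) (Or.inr ⟨rfl, rfl⟩)

end H29.IG
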