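import Mathlib
import Cfsg.Agent.H03.NPC4
import Cfsg.Agent.H04.MaxClass
import Cfsg.Agent.H04.Critical
import Cfsg.Agent.H04.Amb
import Cfsg.Agent.H02.PCore
import Cfsg.Agent.S0055
import Cfsg.Agent.S0017
import Cfsg.Agent.S0003
import Cfsg.Agent.S0026
import Cfsg.Agent.S0027
import Cfsg.Agent.S0095

/-! Two-groups without a noncyclic abelian subgroup of order eight. -/

set_option autoImplicit false

namespace H29.N8

open Subgroup Cfsg
open scoped commutatorElement

variable {G : Type*} [Group G] [Finite G]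

/-- contains a noncyclic abelian subgroup of order eight -/
def NA (Y : Subgroup G) : Prop := ∃ A : Subgroup G, A ≤ Y ∧ IsMulCommutative A ∧ ¬ IsCyclic A ∧ Nat.card A = 8

/-- four-group -/
def E4 (V : Subgroup G) : Prop := IsElementaryAbelian 2 V ∧ Nat.card V = 4

theorem E4.not_cyc {V : Subgroup G} (h : E4 V) : ¬ IsCyclic V :=
  H04.not_isCyclic_of_elemAb Nat.prime_two h.1 (by rw [h.2]; norm_num)

theorem q_not_comm {Y : Type*} [Group Y] {n : ℕ} (e : Y ≃* QuaternionGroup (2 ^ (n + 1))) :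
    ¬ IsMulCommutative Y := by
  intro h
  have h1 := congrArg e (h.is_comm.comm (e.symm (.a 1)) (e.symm (.xa 0)))
  simp only [map_mul, MulEquiv.apply_symm_apply, QuaternionGroup.a_mul_xa, QuaternionGroup.xa_mul_a,
    QuaternionGroup.xa.injEq, zero_sub, zero_add] at h1
  have h2 : ((2 : ℕ) : ZMod (2 * 2 ^ (n + 1))) = 0 := by
    push_cast
    linear_combination -h1
  rw [ZMod.natCast_eq_zero_iff] at h2
  have := Nat.le_of_dvd two_pos h2
  have : 0 < 2 ^ n := by positivity
  rw [pow_succ] at *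
  omega

theorem uniq_or {Y : Subgroup G} (hY : IsPGroup 2 Y) : (∃ V ≤ Y, E4 V) ∨
    ∀ H K : Subgroup Y, Nat.card H = 2 → Nat.card K = 2 → H = K := by
  by_cases h : ∃ V ≤ Y, E4 V
  · exact Or.inl h
  refine Or.inr (H04.unique_of_forall_isCyclic hY fun V hV hc => h ⟨V.map Y.subtype, map_subtype_le _, ⟨?_, ?_⟩, ?_⟩)
  · exact H04.isMulCommutative_map_subtype.2 hV.1
  · rintro _ ⟨a, ha, rfl⟩
    exact congrArg Subtype.val (hV.2 a ha)
  · rw [card_map_of_injective Y.subtype_injective, hc]; norm_num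

theorem v4_of_ab {A : Subgroup G} (hA : IsPGroup 2 A) (hc : IsMulCommutative A) (hn : ¬ IsCyclic A) :
    ∃ V ≤ A, E4 V := by
  refine (uniq_or hA).resolve_right fun h => ?_
  rcases H04.isCyclic_or_quaternion_of_unique hA h with h1 | ⟨-, n, ⟨e⟩⟩
  · exact hn h1
  · exact q_not_comm e hc

omit [Finite G] in
theorem comm_of_le {A B : Subgroup G} (h : IsMulCommutative B) (hA : A ≤ B) : IsMulCommutative A :=
  ⟨⟨fun x y => Subtype.ext (by
    have := congrArg Subtype.val (h.is_comm.comm (⟨x, hA x.2⟩ : B) ⟨y, hA y.2⟩)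
    exact this)⟩⟩

theorem na_of {Y V : Subgroup G} (hY : IsPGroup 2 Y) (hVY : V ≤ Y) (hV : E4 V) {c : G} (hc : c ∈ Y)
    (hcV : c ∈ centralizer (V : Set G)) (hn : c ∉ V) : NA Y := by
  have hK : V ⊔ zpowers c ≤ Y := sup_le hVY (zpowers_le.2 hc)
  have hab := H04.isMulCommutative_sup_zpowers hV.1.1 hcV
  obtain ⟨x, hx, hxn, hx1, hx2⟩ := H04.exists_card_mul_of_lt (hY.to_le hK)
    (lt_of_le_of_ne le_sup_left fun h => hn (h ▸ mem_sup_right (mem_zpowers c)))
  have hA : V ⊔ zpowers x ≤ V ⊔ zpowers c := sup_le le_sup_left (zpowers_le.2 hx)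
  refine ⟨V ⊔ zpowers x, hA.trans hK, comm_of_le hab hA, fun h => hV.not_cyc ?_, ?_⟩
  · exact isCyclic_of_le (le_sup_left : V ≤ V ⊔ zpowers x)
  · rw [H04.card_sup_zpowers V hxn hx1 hx2, hV.2]

omit [Finite G] in
theorem cent_of_pgroup {Y : Subgroup G} (h : IsPGroup 2 (MulAut Y)) {g : G} (hg : g ∈ normalizer (Y : Set G))
    (hc : (orderOf g).Coprime 2) : g ∈ centralizer (Y : Set G) := by
  obtain ⟨k, hk⟩ := h (H17.conjAut Y hg)
  have h1 : orderOf (H17.conjAut Y hg) = 1 :=
    Nat.eq_one_of_dvd_coprimes (hc.pow_right k) (H17.orderOf_conjAut_dvd Y hg) (orderOf_dvd_of_pow_eq_one hk)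
  rw [orderOf_eq_one_iff] at h1
  intro y hy
  have := congrArg (fun a : MulAut Y => ((a ⟨y, hy⟩ : Y) : G)) h1
  simp only [H17.conjAut_apply, MulAut.one_apply] at this
  exact (mul_inv_eq_iff_eq_mul.1 this).symm

theorem dsq_of {T O : Subgroup G} (hT : IsPGroup 2 T) (hO : O ≤ T)
    (h : E4 O ∨ Nonempty (O ≃* QuaternionGroup 2)) (hC : T ⊓ centralizer (O : Set G) ≤ O)
    (h8 : 8 ≤ Nat.card T) : ∃ (m : ℕ) (a b : T), H04.DSQ m a b := by
  obtain ⟨n, hn⟩ := hT.exists_card_eq
  have h3 : 3 ≤ n := by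
    by_contra hc
    have : 2 ^ n ≤ 2 ^ 2 := Nat.pow_le_pow_right two_pos (by omega)
    omega
  obtain ⟨m, rfl⟩ : ∃ m, n = m + 3 := ⟨n - 3, by omega⟩
  have hC' : centralizer (O.subgroupOf T : Set T) ≤ O.subgroupOf T := by
    rw [H04.centralizer_subgroupOf hO]
    intro x hx
    exact hC ⟨x.2, hx⟩
  refine ⟨m, H04.dsq_of_maxClass hn ?_⟩
  rcases h with h | ⟨⟨e⟩⟩
  · exact H04.maxClass_of_centralizer_le_sq (n := m + 1) hn (by rw [H04.card_subgroupOf hO, h.2]; norm_num) hC'
  · refine H04.maxClass_of_centralizer_le_cube hn ?_ ?_ hC'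
    · rw [H04.card_subgroupOf hO, Nat.card_congr e.toEquiv, Nat.card_eq_fintype_card, QuaternionGroup.card]; norm_num
    · exact q_not_comm (n := 0) ((subgroupOfEquivOfLe hO).trans e)

theorem small {Y : Subgroup G} (hY : IsPGroup 2 Y) (hn : ¬ NA Y) {g : G} (hg : g ∈ normalizer (Y : Set G))
    (hc : (orderOf g).Coprime 2) (hg' : g ∉ centralizer (Y : Set G)) :
    E4 Y ∨ Nonempty (Y ≃* QuaternionGroup 2) := by
  rcases uniq_or hY with ⟨V, hVY, hV⟩ | h
  · by_cases he : V = Y
    · exact Or.inl (he ▸ hV)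
    have hlt := H04.card_lt_of_lt (lt_of_le_of_ne hVY he)
    obtain ⟨n, hn'⟩ := hY.exists_card_eq
    have h8 : 8 ≤ Nat.card Y := by
      rw [hV.2, hn'] at hlt
      rw [hn']
      have : 2 < n := (Nat.pow_lt_pow_iff_right one_lt_two).1 (by omega : 2 ^ 2 < 2 ^ n)
      exact (Nat.pow_le_pow_right two_pos this : 2 ^ 3 ≤ 2 ^ n)
    obtain ⟨m, a, b, hd⟩ := dsq_of hY hVY (Or.inl hV) (fun c hc => by_contra fun h => hn (na_of hY hVY hV hc.1 hc.2 h)) h8
    exact Or.inr (hd.isPGroup_mulAut_or.resolve_left fun h => hg' (cent_of_pgroup h hg hc))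
  · refine Or.inr (H03.q8_of_odd_acts hY (fun x hx y hy h1 h2 => ?_) hg hc hg')
    by_cases hy1 : y = 1
    · rw [hy1]; exact one_mem _
    have := h (zpowers ⟨x, hx⟩) (zpowers ⟨y, hy⟩) (by rw [Nat.card_zpowers, ← Subgroup.orderOf_coe]; exact h1)
      (by rw [Nat.card_zpowers, ← Subgroup.orderOf_coe]; exact orderOf_eq_prime h2 hy1)
    obtain ⟨k, hk⟩ : (⟨y, hy⟩ : Y) ∈ zpowers (⟨x, hx⟩ : Y) := this ▸ mem_zpowers _
    exact ⟨k, congrArg Subtype.val hk⟩

theorem not_na {T O : Subgroup G} (hT : IsPGroup 2 T) (hO : O ≤ T)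
    (h : E4 O ∨ Nonempty (O ≃* QuaternionGroup 2)) (hC : T ⊓ centralizer (O : Set G) ≤ O) : ¬ NA T := by
  rintro ⟨A, hA, hc, hn, h8⟩
  obtain ⟨m, a, b, hd⟩ := dsq_of hT hO h hC (h8 ▸ card_le_of_le hA)
  obtain ⟨V, hVA, hV⟩ := v4_of_ab (hT.to_le hA) hc hn
  have h1 := hd.centralizer_le (H := V.subgroupOf T) (by rw [H04.isCyclic_subgroupOf_iff (hVA.trans hA)]; exact hV.not_cyc)
  rw [H04.centralizer_subgroupOf (hVA.trans hA)] at h1
  have h2 : A ≤ V := fun x hx => h1 (x := ⟨x, hA hx⟩) fun v hv =>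
    congrArg Subtype.val (hc.is_comm.comm (⟨v, hVA hv⟩ : A) ⟨x, hx⟩)
  have := card_le_of_le h2
  rw [h8, hV.2] at this
  omega

omit [Finite G] in
theorem E4.cent_of_fix {Y : Subgroup G} (hY : E4 Y) {g z : G} (hg : g ∈ normalizer (Y : Set G))
    (hc : (orderOf g).Coprime 2) (hz : z ∈ Y) (hz1 : z ≠ 1) (hgz : g * z * g⁻¹ = z) :
    g ∈ centralizer (Y : Set G) := by
  have hp : IsPGroup 2 Y := IsPGroup.of_card (n := 2) hY.2
  let N : Subgroup Y := zpowers ⟨z, hz⟩
  have hN : N.index = 2 := by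
    have h1 := N.card_mul_index
    have h2 : Nat.card N = 2 := by
      rw [Nat.card_zpowers, ← Subgroup.orderOf_coe]
      exact orderOf_eq_prime (hY.1.2 z hz) hz1
    rw [h2, hY.2] at h1
    omega
  have hfix : ∀ x ∈ N, H17.conjAut Y hg x = x := by
    rintro _ ⟨k, rfl⟩
    rw [map_zpow]
    congr 1
    exact Subtype.ext hgz
  have h1 := H04.aut_eq_one_of_trivial_on_quotient hp (a := H17.conjAut Y hg)
    (hc.coprime_dvd_left (H17.orderOf_conjAut_dvd Y hg)) N hfix (fun x => by
      rw [mul_mem_iff_of_index_two hN, inv_mem_iff]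
      constructor
      · intro h; rw [hfix x h]; exact h
      · intro h
        have := hfix _ h
        rw [(H17.conjAut Y hg).injective this] at h
        exact h)
  intro y hy
  have := congrArg (fun a : MulAut Y => ((a ⟨y, hy⟩ : Y) : G)) h1
  simp only [H17.conjAut_apply, MulAut.one_apply] at this
  exact (mul_inv_eq_iff_eq_mul.1 this).symm

theorem E4.eq_of_inv {Y W : Subgroup G} (hY : E4 Y) (hW : W ≤ Y) (hW1 : W ≠ ⊥) {g : G}
    (hg : g ∈ normalizer (Y : Set G)) (hgW : g ∈ normalizer (W : Set G))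
    (hc : (orderOf g).Coprime 2) (hn : g ∉ centralizer (Y : Set G)) : W = Y := by
  classical
  obtain ⟨z, hz, hz1⟩ := (W.bot_or_exists_ne_one).resolve_left hW1
  have h1 : g * z * g⁻¹ ≠ z := fun h => hn (hY.cent_of_fix hg hc (hW hz) hz1 h)
  have h2 : g * z * g⁻¹ ∈ W := (mem_normalizer_iff.1 hgW z).1 hz
  have hlt : zpowers z < W := by
    refine lt_of_le_of_ne (zpowers_le.2 hz) fun h => ?_
    rw [← h] at h2
    have ho : orderOf z = 2 := orderOf_eq_prime (hY.1.2 z (hW hz)) hz1
    rw [mem_zpowers_iff_mem_range_orderOf, ho] at h2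
    simp only [Finset.mem_image, Finset.mem_range] at h2
    obtain ⟨k, hk, h3⟩ := h2
    interval_cases k
    · apply hz1
      have : g * z * g⁻¹ = 1 := by simpa using h3.symm
      simpa using this
    · exact h1 (by simpa using h3.symm)
  have h3 := H04.card_lt_of_lt hlt
  rw [Nat.card_zpowers, orderOf_eq_prime (hY.1.2 z (hW hz)) hz1] at h3
  have h4 := card_dvd_of_le hW
  rw [hY.2] at h4
  refine H04.eq_of_le_of_card_le hW ?_
  rw [hY.2]
  have := Nat.le_of_dvd (by norm_num) h4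
  generalize Nat.card W = w at *
  interval_cases w <;> omega

theorem main [Group.IsSolvable G] (hO : pPrimeCore 2 G = ⊥) (h8 : NA (⊤ : Subgroup G))
    (hmin : ∀ R : Subgroup G, R ≠ ⊤ → (∃ k : ℕ, R.index = 2 ^ k) → ¬ NA R) (X : Sylow 2 G) :
    (X : Subgroup G).Normal ∧
      (IsMulCommutative ↥X ∨
        (IsExtraspecial 2 ↥X ∧ 32 ≤ Nat.card ↥X) ∨
        (∃ (X₀ : Subgroup G) (k : ℕ), X₀ ≤ (X : Subgroup G) ∧ X₀.relIndex (X : Subgroup G) = 2 ∧
          Nonempty (↥X₀ ≃* QuaternionGroup (2 ^ (k + 1))) ∧ X₀ ⊔ ((X : Subgroup G) ⊓ centralizer (X₀ : Set G)) = (X : Subgroup G)) ∨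
        (IsSpecial 2 ↥X ∧ Nat.card ↥(center ↥X) = 4)) := by
  obtain ⟨k, hk⟩ := X.isPGroup'.exists_card_eq
  have hXi : (X : Subgroup G).index.Coprime 2 :=
    ((Nat.Prime.coprime_iff_not_dvd Nat.prime_two).2 X.not_dvd_index).symm
  obtain ⟨H, hH⟩ := Cfsg.Agent.S0003.result (G := G) (X : Subgroup G).index (2 ^ k)
    (by rw [← hk, (X : Subgroup G).index_mul_card]) (hXi.pow_right k)
  have hHc : (Nat.card H).Coprime 2 := hH ▸ hXi
  have hHi : H.index = 2 ^ k := by
    have h1 := H.card_mul_index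
    rw [← (X : Subgroup G).index_mul_card, hH, hk] at h1
    exact Nat.eq_of_mul_eq_mul_left (Nat.pos_of_ne_zero index_ne_zero_of_finite) h1
  have hgo : ∀ g ∈ H, (orderOf g).Coprime 2 := fun g hg => hHc.coprime_dvd_left (H.orderOf_dvd_natCard hg)
  have hcop : ∀ Y : Subgroup G, IsPGroup 2 Y → (Nat.card H).Coprime (Nat.card Y) := fun Y hY => by
    obtain ⟨n, hn⟩ := hY.exists_card_eq
    rw [hn]; exact hHc.pow_right n
  have star : ∀ Y : Subgroup G, IsPGroup 2 Y → H ≤ normalizer (Y : Set G) → NA Y → Y = X ∧ Y.Normal := by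
    intro Y hY hn hA
    have ht : H ⊔ Y = ⊤ := by
      by_contra h
      refine hmin _ h ?_ (let ⟨A, h1, h2⟩ := hA; ⟨A, h1.trans le_sup_right, h2⟩)
      obtain ⟨j, -, hj⟩ := (Nat.dvd_prime_pow Nat.prime_two).1 (hHi ▸ index_dvd_of_le (le_sup_left : H ≤ H ⊔ Y))
      exact ⟨j, hj⟩
    haveI hN : Y.Normal := normalizer_eq_top_iff.1 (eq_top_iff.2 (ht.symm.le.trans (sup_le hn le_normalizer)))
    refine ⟨?_, hN⟩
    have hi : ¬ 2 ∣ Y.index := by
      rw [← relIndex_top_right, ← ht, relIndex_sup_right]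
      exact fun h => ((Nat.Prime.coprime_iff_not_dvd Nat.prime_two).1 hHc.symm) (h.trans (relIndex_dvd_card _ _))
    exact ((hY.toSylow hi).is_maximal' X.isPGroup' (hY.le_sylow_of_normal X)).symm
  have hbot : ∀ Y : Subgroup G, IsPGroup 2 Y → H ≤ Y → ∀ Z : Subgroup G, H ≤ normalizer (Z : Set G) := by
    intro Y hY h Z
    have h1 : Nat.card H = 1 := Nat.eq_one_of_dvd_coprimes (hcop Y hY) dvd_rfl (card_dvd_of_le h)
    rw [card_eq_one.1 h1]; exact bot_le
  have hCO := Cfsg.Agent.S0017.result (G := G) 2 hO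
  have hOp : IsPGroup 2 (pCore 2 G) := H02.pCore_isPGroup 2 G
  obtain ⟨A, -, hAc, hAn, hA8⟩ := h8
  have hAp : IsPGroup 2 A := IsPGroup.of_card (n := 3) hA8
  have hnaO : NA (pCore 2 G) := by
    by_contra hn
    by_cases hc : H ≤ centralizer (pCore 2 G : Set G)
    · obtain ⟨h1, h2⟩ := star A hAp (hbot _ hOp (hc.trans hCO) A) ⟨A, le_rfl, hAc, hAn, hA8⟩
      exact hn ⟨A, H02.le_pCore hAp, hAc, hAn, hA8⟩
    · obtain ⟨g, hg, hg'⟩ := SetLike.not_le_iff_exists.1 hc
      exact not_na (hOp.to_sup_of_normal_left hAp) le_sup_left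
        (small hOp hn (H01.le_normalizer_of_normal H _ hg) (hgo g hg) hg') (inf_le_right.trans hCO)
        ⟨A, le_sup_right, hAc, hAn, hA8⟩
  obtain ⟨hOX, -⟩ := star _ hOp (H01.le_normalizer_of_normal H _) hnaO
  rw [hOX] at hCO hnaO
  haveI hXn : (X : Subgroup G).Normal := hOX ▸ inferInstance
  refine ⟨hXn, ?_⟩
  by_cases hab : IsMulCommutative X
  · exact Or.inl hab
  right
  have hXp := X.isPGroup'
  set P : Subgroup G := (X : Subgroup G) with hP
  have hHP : H ≤ normalizer (P : Set G) := H01.le_normalizer_of_normal H _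
  have hnab : ∀ B : Subgroup G, B ≤ P → H ≤ normalizer (B : Set G) → IsMulCommutative B → ¬ NA B := by
    intro B hB hn hc hA
    exact hab ((star B (hXp.to_le hB) hn hA).1 ▸ hc)
  have hHc' : ¬ H ≤ centralizer (P : Set G) := by
    intro hc
    obtain ⟨B, h1, h2, h3⟩ := hnaO
    exact hnab B h1 (hbot _ hXp (hc.trans hCO) B) h2 ⟨B, le_rfl, h2, h3⟩
  have hYP : ⁅P, H⁆ ≤ P := H01.commutator_le_left_of_le_normalizer hHP
  have hYp := hXp.to_le hYP
  have hHY : H ≤ normalizer ((⁅P, H⁆ : Subgroup G) : Set G) := H01.right_le_normalizer_commutator _ _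
  have hPY : P ≤ normalizer ((⁅P, H⁆ : Subgroup G) : Set G) := H01.left_le_normalizer_commutator _ _
  have hst := Cfsg.Agent.S0027.result H P hHP (hcop P hXp) (Or.inl inferInstance)
  have hdec := Cfsg.Agent.S0026.result H P hHP (hcop P hXp) (Or.inl inferInstance)
  set Y := ⁅P, H⁆ with hY
  set C := P ⊓ centralizer (H : Set G) with hC
  obtain ⟨g, hg, hg'⟩ : ∃ g ∈ H, g ∉ centralizer (Y : Set G) := by
    by_contra hc
    push Not at hc
    have h1 : ⁅Y, H⁆ = ⊥ := by
      rw [commutator_comm, commutator_eq_bot_iff_le_centralizer]; exact hc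
    rw [hst, hY, commutator_comm, commutator_eq_bot_iff_le_centralizer] at h1
    exact hHc' h1
  have hzn : ∀ x ∈ C, H ≤ normalizer ((zpowers x : Subgroup G) : Set G) := by
    intro x hx
    refine le_trans ?_ (centralizer_le_normalizer _)
    rw [le_centralizer_iff]
    exact zpowers_le.2 hx.2
  by_cases hna : NA Y
  swap
  · have hCY : ¬ C ≤ Y := by
      intro h
      rw [sup_eq_left.2 h] at hdec
      exact hna (hdec ▸ hnaO)
    obtain ⟨c, hc, hc'⟩ := SetLike.not_le_iff_exists.1 hCY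
    rcases small hYp hna (hHY hg) (hgo g hg) hg' with h4 | ⟨⟨e⟩⟩
    · exfalso
      have hY1 : Y ≠ ⊥ := by
        intro h
        have := h4.2
        rw [h, card_bot] at this
        omega
      obtain ⟨z, hz, hz1, hz2⟩ := H04.exists_fixed_of_normalizes hXp hYp hPY hY1
      have h1 : Y ⊓ centralizer (P : Set G) = Y := h4.eq_of_inv inf_le_left
        (fun h => hz1 (mem_bot.1 (h ▸ (⟨hz, hz2⟩ : z ∈ Y ⊓ centralizer (P : Set G))))) (hHY hg)
        (H01.le_normalizer_inf hHY (H01.le_normalizer_centralizer hHP) hg) (hgo g hg) hg'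
      have h2 : c ∈ centralizer (Y : Set G) := fun y hy => ((inf_eq_left.1 h1 hy) c hc.1).symm
      have hB : Y ⊔ zpowers c ≤ P := sup_le hYP (zpowers_le.2 hc.1)
      exact hnab (Y ⊔ zpowers c) hB (H01.le_normalizer_sup hHY (hzn c hc))
        (H04.isMulCommutative_sup_zpowers h4.1.1 h2)
        (na_of (hXp.to_le hB) le_sup_left h4 (mem_sup_right (mem_zpowers c)) h2 hc')
    · have hY8 : Nat.card Y = 8 := by
        rw [Nat.card_congr e.toEquiv, Nat.card_eq_fintype_card, QuaternionGroup.card]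
      have hCP : C ≤ P := inf_le_left
      have hlt : ⁅Y, C⁆ < Y := H04.commutator_lt_of_isPGroup hYp (hXp.to_le hCP) (hCP.trans hPY)
        (fun h => by rw [h, card_bot] at hY8; omega)
      have hHC : H ≤ normalizer (C : Set G) :=
        H01.le_normalizer_inf hHP (H01.le_normalizer_centralizer le_normalizer)
      have hD : H ≤ centralizer ((⁅Y, C⁆ : Subgroup G) : Set G) := by
        intro h hh
        by_contra hn
        have hlt' := H04.card_lt_of_lt hlt
        rcases small (hYp.to_le hlt.le) (fun ⟨B, h1, h2⟩ => hna ⟨B, h1.trans hlt.le, h2⟩)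
          (H01.le_normalizer_commutator hHY hHC hh) (hgo h hh) hn with h4 | ⟨⟨e'⟩⟩
        · apply h4.not_cyc
          have hq : ∀ x y : QuaternionGroup 2, x ^ 2 = 1 → y ^ 2 = 1 → x = 1 ∨ y = 1 ∨ x = y := by decide +kernel
          have hle : Nat.card ↥⁅Y, C⁆ ≤ 2 := by
            by_contra hcon
            obtain ⟨x, hx, hx1⟩ := (⁅Y, C⁆).bot_or_exists_ne_one.resolve_left
              (fun h => by rw [h, card_bot] at hcon; omega)
            have hsub : ⁅Y, C⁆ ≤ zpowers x := by
              intro y hy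
              rcases hq (e ⟨x, hlt.le hx⟩) (e ⟨y, hlt.le hy⟩)
                (by rw [← map_pow, ← map_one e]; exact congrArg e (Subtype.ext (h4.1.2 x hx)))
                (by rw [← map_pow, ← map_one e]; exact congrArg e (Subtype.ext (h4.1.2 y hy))) with h | h | h
              · exact absurd (congrArg Subtype.val (e.map_eq_one_iff.1 h)) hx1
              · rw [show y = 1 from congrArg Subtype.val (e.map_eq_one_iff.1 h)]; exact one_mem _
              · rw [← show x = y from congrArg Subtype.val (e.injective h)]; exact mem_zpowers _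
            have := card_le_of_le hsub
            rw [Nat.card_zpowers, orderOf_eq_prime (h4.1.2 x hx) hx1] at this
            exact hcon this
          rw [h4.2] at hle
          omega
        · rw [hY8, Nat.card_congr e'.toEquiv, Nat.card_eq_fintype_card, QuaternionGroup.card] at hlt'
          omega
      have hCC : C ≤ centralizer (Y : Set G) := by
        have h1 : ⁅⁅H, C⁆, Y⁆ = ⊥ := by
          rw [commutator_eq_bot_iff_le_centralizer.2 (le_centralizer_iff.1 (inf_le_right : C ≤ _)), commutator_bot_left]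
        have h2 : ⁅⁅C, Y⁆, H⁆ = ⊥ := by
          rw [commutator_comm C, commutator_comm, commutator_eq_bot_iff_le_centralizer]; exact hD
        have h3 := commutator_commutator_eq_bot_of_rotate h1 h2
        rw [hst, commutator_comm, commutator_eq_bot_iff_le_centralizer] at h3
        exact h3
      have hK : zpowers c ≤ C := zpowers_le.2 hc
      obtain ⟨x, hx, -, hx1, hx2⟩ := H04.exists_card_mul_of_lt (hXp.to_le (hK.trans hCP))
        (lt_of_le_of_ne (inf_le_right : Y ⊓ zpowers c ≤ _) fun h => hc' (inf_eq_right.1 h (mem_zpowers c)))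
      have hxY : x ∉ Y := fun h => hx1 ⟨h, hx⟩
      have hxn : x ∈ normalizer (Y : Set G) := hPY (hCP (hK hx))
      have hB : Y ⊔ zpowers x ≤ P := sup_le hYP (zpowers_le.2 (hCP (hK hx)))
      have hHB := H01.le_normalizer_sup hHY (hzn x (hK hx))
      have hB16 := H04.card_sup_zpowers Y hxn hxY hx2.1
      have hnaB : NA (Y ⊔ zpowers x) := by
        by_contra hn
        rcases small (hXp.to_le hB) hn (hHB hg) (hgo g hg)
          (fun h => hg' (centralizer_le (SetLike.coe_subset_coe.2 le_sup_left) h)) with h4 | ⟨⟨e'⟩⟩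
        · rw [h4.2, hY8] at hB16; omega
        · rw [hY8, Nat.card_congr e'.toEquiv, Nat.card_eq_fintype_card, QuaternionGroup.card] at hB16
          omega
      have hBP := (star _ (hXp.to_le hB) hHB hnaB).1
      refine Or.inr (Or.inl ⟨Y, 0, hYP, ?_, ⟨e⟩, le_antisymm (sup_le hYP inf_le_left) ?_⟩)
      · rw [← hBP]; exact H04.relIndex_sup_zpowers Y hxn hxY hx2.1
      · exact hBP.symm.le.trans (sup_le_sup_left (zpowers_le.2 (mem_inf.2 ⟨hCP (hK hx), hCC (hK hx)⟩)) _)
  have hYP' : Y = P := (star Y hYp hHY hna).1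
  rw [hYP'] at hg'
  obtain ⟨K, hKc, hK1, hK2, hK3⟩ := H04.exists_critical hXp
  have hKP : K.map P.subtype ≤ P := map_subtype_le _
  have hHK : H ≤ normalizer (K.map P.subtype : Set G) := H01.le_normalizer_map_characteristic hHP K
  have hKt : K = ⊤ := by
    have h1 : NA (K.map P.subtype) := by
      by_contra hn
      refine not_na hXp hKP (small (hXp.to_le hKP) hn (hHK hg) (hgo g hg) fun h => hg' ?_) ?_ hnaO
      · have h1 := H04.aut_eq_one_of_centralizer_le hXp (a := H17.conjAut P (hHP hg))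
          ((hgo g hg).coprime_dvd_left (H17.orderOf_conjAut_dvd P _)) K hK3 (fun x hx => Subtype.ext (by
            rw [H17.conjAut_apply, ← h x ⟨x, hx, rfl⟩]; simp))
        intro y hy
        have := congrArg (fun a : MulAut P => ((a ⟨y, hy⟩ : P) : G)) h1
        simp only [H17.conjAut_apply, MulAut.one_apply] at this
        exact (mul_inv_eq_iff_eq_mul.1 this).symm
      · rw [← H04.map_subtype_centralizer]; exact map_mono hK3
    have h2 := (star _ (hXp.to_le hKP) hHK h1).1
    apply map_injective P.subtype_injective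
    rw [h2, H04.map_subtype_top]
  subst hKt
  have hsq : ∀ x : P, x ^ 2 ∈ center P := fun x => by
    rw [← centralizer_univ]; exact (hK1 x (mem_top x)).2
  have hcm : commutator P ≤ center P := by
    rw [← centralizer_univ]; exact hK2.trans inf_le_right
  set Z := P ⊓ centralizer (P : Set G) with hZ
  have hZm : (center P).map P.subtype = Z := H04.map_subtype_center P
  have hDm : (commutator P).map P.subtype = ⁅P, P⁆ := H04.map_subtype_commutator' P
  have hDZ : ⁅P, P⁆ ≤ Z := hDm ▸ hZm ▸ map_mono hcm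
  have hD1 : ⁅P, P⁆ ≠ ⊥ := fun h => hab (by
    rw [← commutator_eq_bot_iff, ← map_eq_bot_iff_of_injective _ P.subtype_injective, hDm, h])
  have hHZ : H ≤ normalizer (Z : Set G) := H01.le_normalizer_inf hHP (H01.le_normalizer_centralizer hHP)
  have hZc : IsMulCommutative Z := ⟨⟨fun x y => Subtype.ext (y.2.2 x x.2.1)⟩⟩
  have hZp := hXp.to_le (inf_le_left : Z ≤ P)
  have hZn := hnab Z inf_le_left hHZ hZc
  have hZD : Z ≤ ⁅P, P⁆ := by
    by_cases hc : H ≤ centralizer (Z : Set G)
    · let π := QuotientGroup.mk' ⁅P, P⁆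
      haveI : IsMulCommutative (P.map π) := ⟨⟨by
        rintro ⟨_, x, hx, rfl⟩ ⟨_, y, hy, rfl⟩
        apply Subtype.ext
        change π x * π y = π y * π x
        rw [← commutatorElement_eq_one_iff_mul_comm, ← map_commutatorElement]
        exact (QuotientGroup.eq_one_iff _).2 (commutator_mem_commutator hx hy)⟩⟩
      haveI : (P.map π).Normal := hXn.map π (QuotientGroup.mk'_surjective _)
      have h1 := (Cfsg.Agent.S0055.result (H.map π) (P.map π) (H01.le_normalizer_of_normal _ _)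
        (((hcop P hXp).coprime_dvd_left (card_map_dvd H π)).coprime_dvd_right (card_map_dvd P π))).1
      rw [← map_commutator, ← hY, hYP'] at h1
      intro z hz
      have h2 : π z ∈ (⊥ : Subgroup (G ⧸ ⁅P, P⁆)) := by
        rw [← h1]
        refine ⟨⟨⟨z, hz.1, rfl⟩, ?_⟩, ⟨z, hz.1, rfl⟩⟩
        rintro _ ⟨h, hh, rfl⟩
        rw [← map_mul, ← map_mul, hc hh z hz]
      exact (QuotientGroup.eq_one_iff _).1 (mem_bot.1 h2)
    · obtain ⟨h, hh, hh'⟩ := SetLike.not_le_iff_exists.1 hc
      rcases small hZp hZn (hHZ hh) (hgo h hh) hh' with h4 | ⟨⟨e⟩⟩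
      · exact (h4.eq_of_inv hDZ hD1 (hHZ hh) (H01.le_normalizer_of_normal H _ hh) (hgo h hh) hh').ge
      · exact absurd hZc (q_not_comm (n := 0) e)
  have hce : commutator P = center P := by
    apply map_injective P.subtype_injective
    rw [hDm, hZm]; exact le_antisymm hDZ hZD
  have hsp : IsSpecial 2 P := ⟨hXp, le_antisymm (H04.frattini_le _ hcm hsq) (hce ▸ H04.commutator_le_frattini hXp), hce⟩
  have hcard : Nat.card (center P) = Nat.card Z := by rw [← hZm, card_map_of_injective P.subtype_injective]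
  by_cases hcy : IsCyclic Z
  · left
    have hexp : ∀ z ∈ center P, z ^ 2 = 1 := by
      intro z hz
      rw [← hce] at hz
      have key : ∀ z ∈ commutator P, z ∈ commutator P ∧ z ^ 2 = 1 := by
        intro z hz
        rw [commutator_eq_closure] at hz
        induction hz using closure_induction with
        | mem x hx =>
          obtain ⟨a, b, rfl⟩ := hx
          have hm : ⁅a, b⁆ ∈ commutator P := commutator_mem_commutator (mem_top a) (mem_top b)
          refine ⟨hm, ?_⟩
          have h1 := mem_center_iff.1 (hcm hm) a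
          have h2 := mem_center_iff.1 (hsq a) b
          have h3 : a * ⁅a, b⁆ * a⁻¹ * ⁅a, b⁆ = 1 := by
            calc a * ⁅a, b⁆ * a⁻¹ * ⁅a, b⁆ = a ^ 2 * b * (a ^ 2)⁻¹ * b⁻¹ := by
                  simp only [commutatorElement_def, pow_two]; group
              _ = 1 := by rw [← h2]; group
          rw [h1, mul_inv_cancel_right] at h3
          rw [pow_two, h3]
        | one => exact ⟨one_mem _, one_pow 2⟩
        | mul x y _ _ hx hy =>
          refine ⟨mul_mem hx.1 hy.1, ?_⟩
          rw [(show Commute x y from mem_center_iff.1 (hcm hy.1) x).mul_pow, hx.2, hy.2, one_mul]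
        | inv x _ hx => exact ⟨inv_mem hx.1, by rw [inv_pow, hx.2, inv_one]⟩
      exact (key z hz).2
    have h2 : Nat.card (center P) = 2 := by
      have hc2 : IsCyclic (center P) := by
        rw [← H04.isCyclic_map_subtype, hZm]; exact hcy
      have h3 : ¬ 2 < Nat.card (center P) := fun h =>
        H04.not_isCyclic_of_elemAb Nat.prime_two (V := center P) ⟨inferInstance, hexp⟩ h hc2
      have h4 : Nat.card (center P) ≠ 1 := by
        rw [hcard]
        intro h
        exact hD1 (eq_bot_iff.2 (hDZ.trans (card_eq_one.1 h).le))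
      have := Nat.card_pos (α := center P)
      omega
    have hes : IsExtraspecial 2 P := ⟨hsp, h2⟩
    refine ⟨hes, ?_⟩
    obtain ⟨n, hn1, hn⟩ := Cfsg.Agent.S0095.result hes
    change 32 ≤ Nat.card P
    rw [hn]
    have hn2 : n ≠ 1 := by
      rintro rfl
      obtain ⟨B, h1, h2, -, h3⟩ := hnaO
      exact hab (H04.eq_of_le_of_card_le h1 (by rw [hn, h3]; norm_num) ▸ h2)
    exact (Nat.pow_le_pow_right two_pos (by omega) : 2 ^ 5 ≤ 2 ^ (2 * n + 1))
  · right; right
    refine ⟨hsp, ?_⟩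
    obtain ⟨V, hV, h4⟩ := v4_of_ab hZp hZc hcy
    have : V = Z := le_antisymm hV fun z hz => by_contra fun h =>
      hZn (na_of hZp hV h4 hz (fun v hv => hz.2 v (hV hv).1) h)
    change Nat.card (center P) = 4
    rw [hcard, ← this, h4.2]

end H29.N8
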