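import Cfsg.Agent.H06.PT1
import Cfsg.Agent.S0028
set_option autoImplicit false
open Cfsg BG Subgroup Cfsg.Agent.H06.PT
open scoped commutatorElement
universe u
namespace Cfsg.Agent.H29.PtB

variable {Γ : Type u} [Group Γ] {r p s t : ℕ} {A G X Y Z V U D P Q : Subgroup Γ} {a : Γ}

/-- the elements normalizing `Z` and centralizing `X` modulo `Z` -/
def Cm (X Z : Subgroup Γ) : Subgroup Γ where
  carrier := {g | g ∈ N_(Z) ∧ ∀ x ∈ X, ⁅g, x⁆ ∈ Z}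
  one_mem' := ⟨one_mem _, fun k _ => by simp [one_mem]⟩
  mul_mem' := by
    rintro x y ⟨hx, hx'⟩ ⟨hy, hy'⟩
    refine ⟨mul_mem hx hy, fun k hk => ?_⟩
    rw [commutatorElement_mul_left_eq_conj_mul]
    exact mul_mem (conj_mem_of_norm hx (hy' k hk)) (hx' k hk)
  inv_mem' := by
    rintro x ⟨hx, hx'⟩
    refine ⟨inv_mem hx, fun k hk => ?_⟩
    have := conj_mem_of_norm (inv_mem hx) (inv_mem (hx' k hk))
    convert this using 1
    simp only [commutatorElement_def]; group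

theorem le_cm : Y ≤ Cm X Z ↔ Y ≤ N_(Z) ∧ ⁅Y, X⁆ ≤ Z :=
  ⟨fun h => ⟨fun _ hy => (h hy).1, Subgroup.commutator_le.2 fun _ hy x hx => (h hy).2 x hx⟩,
    fun h _ hy => ⟨h.1 hy, fun _ hx => h.2 (Subgroup.commutator_mem_commutator hy hx)⟩⟩

theorem norm_cm (h1 : A ≤ N_(X)) (h2 : A ≤ N_(Z)) : A ≤ N_(Cm X Z) := by
  refine le_norm_iff.2 fun c hc g hg => ⟨mul_mem (mul_mem (h2 hc) hg.1) (inv_mem (h2 hc)), fun x hx => ?_⟩
  have := conj_mem_of_norm (h2 hc) (hg.2 _ (conj_mem_of_norm (inv_mem (h1 hc)) hx))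
  convert this using 1
  simp only [commutatorElement_def]; group

variable [Finite Γ]

/-- the `P × Q` lemma modulo a normalized subgroup -/
theorem pq (hp : p.Prime) (hP : IsPGroup p P) (hQ : (Nat.card Q).Coprime p) (hV : IsPGroup p V) (hPQ : P ≤ C_(Q))
    (hPV : P ≤ N_(V)) (hQV : Q ≤ N_(V)) (pZ : P ≤ N_(Z)) (qZ : Q ≤ N_(Z)) (vZ : V ≤ N_(Z))
    (hC : ⁅V ⊓ Cm P Z, Q⁆ ≤ Z) : ⁅V, Q⁆ ≤ Z := by
  haveI := Fact.mk hp
  set L := N_(Z) with hL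
  haveI : (Z.subgroupOf L).Normal := normal_in_normalizer
  let φ := QuotientGroup.mk' (Z.subgroupOf L)
  have key : ∀ x y : L, φ x * φ y = φ y * φ x ↔ ⁅(x : Γ), (y : Γ)⁆ ∈ Z := fun x y => by
    rw [← commutatorElement_eq_one_iff_mul_comm, ← map_commutatorElement]
    exact (QuotientGroup.eq_one_iff _).trans Iff.rfl
  have hn : ∀ {X Y : Subgroup Γ}, X ≤ N_(Y) → (X.subgroupOf L).map φ ≤ N_((Y.subgroupOf L).map φ) := fun h =>
    (map_mono ((comap_mono h).trans (le_normalizer_comap _))).trans (le_normalizer_map φ)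
  have hpg : ∀ {X : Subgroup Γ}, IsPGroup p X → IsPGroup p ((X.subgroupOf L).map φ) := fun h =>
    (h.comap_subtype).map φ
  have h := Cfsg.Agent.S0028.result p ((P.subgroupOf L).map φ) ((Q.subgroupOf L).map φ) ((V.subgroupOf L).map φ)
    (hpg hP) (Nat.Coprime.coprime_dvd_left ((card_map_dvd _ _).trans (card_comap_dvd_of_injective _ _ L.subtype_injective)) hQ)
    (hpg hV) ?_ (hn hPV) (hn hQV) ?_
  · refine Subgroup.commutator_le.2 fun v hv q hq => ?_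
    exact (key ⟨v, vZ hv⟩ ⟨q, qZ hq⟩).1 (mem_cent.1 (h ⟨⟨q, qZ hq⟩, hq, rfl⟩) _ ⟨⟨v, vZ hv⟩, hv, rfl⟩)
  · refine le_cent_iff.2 ?_
    rintro _ ⟨x, hx, rfl⟩ _ ⟨y, hy, rfl⟩
    have e : (x : Γ) * y = y * x := le_cent_iff.1 hPQ _ hx _ hy
    rw [key, commutatorElement_eq_one_iff_mul_comm.2 e]
    exact one_mem _
  · rintro _ ⟨⟨v, hv, rfl⟩, hc⟩
    refine mem_cent.2 ?_
    rintro _ ⟨q, hq, rfl⟩
    refine ((key v q).2 (hC (Subgroup.commutator_mem_commutator ⟨hv, v.2, fun x hx => ?_⟩ hq))).symm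
    exact (key v ⟨x, pZ hx⟩).1 (mem_cent.1 hc _ ⟨⟨x, pZ hx⟩, hx, rfl⟩).symm

theorem aux (hG : GLS.{u}) (h : R2 r A G) (hs : s.Prime) (ht : t.Prime) (hst : s ≠ t) (hV : V ≤ G) (hU : U ≤ G)
    (hD : D ≤ G) (pV : IsPGroup s V) (pU : IsPGroup s U) (pD : IsPGroup t D) (nV : A ≤ N_(V)) (nU : A ≤ N_(U))
    (nD : A ≤ N_(D)) (dV : D ≤ N_(V)) (uV : U ≤ N_(V)) (uD : U ≤ N_(D)) (ha : a ∈ A) (h1 : a ≠ 1) (uA : U ≤ C_[a])
    (eU : ⁅U, A⁆ = U) (eD : ⁅D, U⁆ = D) (z1 : Z ≤ C_(D)) (z2 : V ⊓ C_(D) ≤ Z) (z3 : Z ≤ V) (vZ : V ≤ N_(Z))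
    (aZ : A ≤ N_(Z)) (uZ : U ≤ N_(Z)) : D ≤ C_(V) := by
  by_cases hV0 : V = ⊥
  · rw [hV0]; exact le_cent_bot
  have hz : zpowers a ≤ A := zpowers_le.2 ha
  have dZ : D ≤ N_(Z) := le_norm_of_cent (cent_symm z1)
  have uz : U ≤ C_(zpowers a) := by rw [cent_zpowers]; exact uA
  have cDV : ∀ {Y : Subgroup Γ}, Y ≤ V → (Nat.card D).Coprime (Nat.card Y) := fun hY =>
    pg_coprime_ne ht hs pD (pg_le pV hY) hst.symm
  -- `D = [D, a]`
  have e1 : D ≤ ⁅D, zpowers a⁆ := by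
    have c1 : U ≤ C_(D ⊓ C_[a]) := h.c2' ht hs hst.symm ha h1 hD pD (le_inf hU uA) pU nU eU uD
    have c2 := coprime_comm_sup_cent (hz.trans nD) (h.toSt.cop' hz hD) (Or.inr (pg_sol ht pD))
    rw [cent_zpowers] at c2
    have c3 : ⁅⁅D, zpowers a⁆ ⊔ (D ⊓ C_[a]), U⁆ ≤ ⁅D, zpowers a⁆ := by
      refine comm_sup_le (le_norm _) (inf_le_left.trans (left_le_norm_comm _ _))
        (comm_le_left (norm_comm uD (le_norm_of_cent uz))) ?_
      rw [comm_eq_bot.2 (cent_symm c1)]; exact bot_le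
    rwa [c2, eD] at c3
  set W := V ⊓ Cm U Z with hW
  have nW : A ≤ N_(W) := norm_inf nV (norm_cm nU aZ)
  have wU : ⁅W, U⁆ ≤ Z := (le_cm.1 (inf_le_right : W ≤ _)).2
  have e2 : ∀ b, Ind A a b → W ⊓ C_[b] ≤ Z := fun b hi => by
    have nb : A ≤ N_(C_[b]) := h.toSt.nc hi.rr
    have l1 : ⁅D ⊓ C_[b], A⁆ ≤ D ⊓ C_[b] := comm_le_left (norm_inf nD nb)
    have c1 : ⁅D ⊓ C_[b], A⁆ ≤ C_(V ⊓ C_[b]) :=
      h.c2' hs ht hst hi.rr (h.ne hi.symm) hV pV (l1.trans (inf_le_inf_right _ hD)) (pg_le pD (l1.trans inf_le_left))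
        (right_le_norm_comm _ _) (h.toSt.cc (inf_le_left.trans hD) (norm_inf nD nb)) (l1.trans (inf_le_left.trans dV))
    have c2 : D ≤ Cm (W ⊓ C_[b]) Z := by
      refine h.gk hG ht hs hst.symm hi hD pD nD (le_inf hU uA) pU nU eU uD eD (norm_cm (norm_inf nW nb) aZ)
        (le_cm.2 ⟨uZ, ?_⟩) (le_cm.2 ⟨l1.trans (inf_le_left.trans dZ), ?_⟩)
      · rw [comm_comm]; exact (comm_mono inf_le_left le_rfl).trans wU
      · rw [comm_eq_bot.2 (c1.trans (cent_anti (inf_le_inf_right _ inf_le_left)))]; exact bot_le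
    have lV : W ⊓ C_[b] ≤ V := inf_le_left.trans inf_le_left
    have c3 : ⁅(W ⊓ C_[b]) ⊔ Z, D⁆ ≤ Z := by
      refine comm_sup_le (lV.trans vZ) (le_norm _) ?_ (comm_le_left dZ)
      rw [comm_comm]; exact (le_cm.1 c2).2
    have c4 := coprime_cent_of_comm (le_norm_of_comm_le (c3.trans le_sup_right)) (cDV (sup_le lV z3))
      (Or.inl (pg_sol ht pD)) (c3.trans z1)
    exact (le_inf lV (le_sup_left.trans (cent_symm c4))).trans z2
  have e3 : W ≤ Z ⊔ (W ⊓ C_[a]) := by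
    refine h.dec (inf_le_left.trans hV) nW fun b hb hb1 => ?_
    rcases h.or ha h1 hb hb1 with hi | he
    · exact le_sup_of_le_left (e2 b hi)
    · rw [← he]; exact le_sup_right
  have e4 : ⁅W, zpowers a⁆ ≤ Z := by
    refine (comm_mono e3 le_rfl).trans (comm_sup_le (le_norm _) (inf_le_left.trans (inf_le_left.trans vZ))
      (comm_le_left (hz.trans aZ)) ?_)
    rw [comm_eq_bot.2 (by rw [cent_zpowers]; exact inf_le_right)]; exact bot_le
  have cs : (Nat.card (zpowers a)).Coprime s := by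
    rw [h.ea.card_zpowers h.rp ha h1]
    exact (Nat.coprime_primes h.rp hs).2 (h.toSt.ne_r hs hV pV hV0).symm
  have e5 : ⁅V, zpowers a⁆ ≤ Z := pq hs pU cs pV uz uV (hz.trans nV) uZ (hz.trans aZ) vZ e4
  have e6 : zpowers a ≤ Cm V Z := le_cm.2 ⟨hz.trans aZ, by rw [comm_comm]; exact e5⟩
  have e7 : D ≤ Cm V Z := e1.trans ((comm_mono le_rfl e6).trans (comm_le_right (norm_cm dV dZ)))
  refine coprime_cent_of_comm dV (cDV le_rfl) (Or.inl (pg_sol ht pD)) ?_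
  rw [comm_comm]; exact (le_cm.1 e7).2.trans z1

theorem l3 (hG : GLS.{u}) : L3S.{u} := by
  intro Γ _ _ r s t A G V U D a h hs ht hst hV hU hD pV pU pD nV nU nD dV uV uD ha h1 uA eU eD
  set Z := V ⊓ C_(D) with hZ
  have aZ : A ≤ N_(Z) := norm_inf nV (norm_cent nD)
  have uZ : U ≤ N_(Z) := norm_inf uV (norm_cent uD)
  have dZ : D ≤ N_(Z) := norm_inf dV (norm_cent (le_norm _))
  have key := aux (V := V ⊓ N_(Z)) (Z := Z) hG h hs ht hst (inf_le_left.trans hV) hU hD (pg_le pV inf_le_left) pU pD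
    (norm_inf nV (norm_norm aZ)) nU nD (norm_inf dV (norm_norm dZ)) (norm_inf uV (norm_norm uZ)) uD ha h1 uA eU eD
    inf_le_right (inf_le_inf_right _ inf_le_left) (le_inf inf_le_left (le_norm _)) inf_le_right aZ uZ
  have := nil_eq_of_norm_le (pg_nil hs pV) (inf_le_left : Z ≤ V) (le_inf inf_le_left (cent_symm key))
  rw [← this]
  exact cent_symm inf_le_right

end Cfsg.Agent.H29.PtB
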