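import Cfsg.Agent.H27.SylowNum
import Cfsg.Agent.S0144
import Cfsg.Agent.BG.Api2

/-! Sylow numbers of simple groups: coprime Sylow numbers. -/

set_option autoImplicit false

namespace H29.SyN
open Subgroup BG Cfsg

universe u
variable {G : Type u} [Group G] [Finite G]

theorem not_pg [IsSimpleGroup G] (hG : ¬ Group.IsSolvable G) {p : ℕ} [Fact p.Prime] (P : Sylow p G) (hp : p ∣ Nat.card G)
    (h : normalizer (P : Set G) = ⊤) : False := by
  haveI : (P : Subgroup G).Normal := normalizer_eq_top_iff.1 h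
  rcases IsSimpleGroup.eq_bot_or_eq_top_of_normal (P : Subgroup G) inferInstance with e | e
  · exact P.ne_bot_of_dvd_card hp e
  · have : IsPGroup p G := fun g => by
      obtain ⟨k, hk⟩ := P.isPGroup' ⟨g, e ▸ mem_top g⟩
      exact ⟨k, congrArg Subtype.val hk⟩
    haveI := this.isNilpotent
    exact hG inferInstance

theorem ne_one [IsSimpleGroup G] (hG : ¬ Group.IsSolvable G) {p : ℕ} [Fact p.Prime] (hp : p ∣ Nat.card G) :
    Nat.card (Sylow p G) ≠ 1 := fun h => by
  obtain ⟨P⟩ : Nonempty (Sylow p G) := inferInstance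
  rw [P.card_eq_index_normalizer, index_eq_one] at h
  exact not_pg hG P hp h

/-- in a simple group, coprime Sylow numbers `n_p, n_q` force `p ∣ n_q` -/
theorem key [IsSimpleGroup G] (hG : ¬ Group.IsSolvable G) {p q : ℕ} [Fact p.Prime] [Fact q.Prime] (hp : p ∣ Nat.card G)
    (hq : q ∣ Nat.card G) (hc : (Nat.card (Sylow q G)).Coprime (Nat.card (Sylow p G))) : p ∣ Nat.card (Sylow q G) := by
  by_contra hn
  obtain ⟨Q⟩ : Nonempty (Sylow q G) := inferInstance
  rw [Q.card_eq_index_normalizer] at hn hc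
  obtain ⟨P0, hP0⟩ := sylow_exists (p := p) Fact.out (normalizer (Q : Set G))
  obtain ⟨P, rfl⟩ := (hP0.trans_idx le_top (by rwa [relIndex_top_right])).exists_sylow_top Fact.out
  rw [P.card_eq_index_normalizer] at hc
  have l : normalClosure (P : Set G) ≤ normalizer (Q : Set G) := (closure_le _).2 fun x hx => by
    obtain ⟨a, ha, r⟩ := Group.mem_conjugatesOfSet_iff.1 hx
    obtain ⟨g, rfl⟩ := isConj_iff.1 r
    obtain ⟨m, hm, n, hn', rfl⟩ := H27.exists_mul_of_coprime_index hc g
    have := conj_mem_of_norm (K := normalizer (Q : Set G)) (le_normalizer hm) (hP0.le (conj_mem_of_norm (K := (P : Subgroup G)) (x := a) hn' ha))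
    simpa [mul_assoc] using this
  rcases IsSimpleGroup.eq_bot_or_eq_top_of_normal (normalClosure (P : Set G)) inferInstance with e | e
  · exact P.ne_bot_of_dvd_card hp (eq_bot_iff.2 (le_normalClosure.trans e.le))
  · exact not_pg hG Q hq (eq_top_iff.2 (e.ge.trans l))

theorem third (hG : ¬ Group.IsSolvable G) {p q : ℕ} (hp : p.Prime) (hq : q.Prime) :
    ∃ r : ℕ, r.Prime ∧ r ∣ Nat.card G ∧ r ≠ p ∧ r ≠ q := by
  by_contra! h
  obtain ⟨a, m, hm, e⟩ := Nat.exists_eq_pow_mul_and_not_dvd (Nat.card_pos (α := G)).ne' p hp.ne_one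
  have m0 : m ≠ 0 := fun k => hm (k ▸ dvd_zero p)
  have : m = q ^ m.primeFactorsList.length := Nat.eq_prime_pow_of_unique_prime_dvd m0 fun {r} hr hd =>
    h r hr (e ▸ hd.mul_left _) fun k => hm (k ▸ hd)
  exact hG (Cfsg.Agent.S0144.result p q a _ hp hq (e.trans (congrArg _ this)))

theorem dvd_quot {p : ℕ} [Fact p.Prime] (K : Subgroup G) [K.Normal] : Nat.card (Sylow p (G ⧸ K)) ∣ Nat.card (Sylow p G) := by
  obtain ⟨P⟩ : Nonempty (Sylow p G) := inferInstance
  rw [H27.card_sylow_quotient P, P.card_eq_index_normalizer]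
  exact index_dvd_of_le le_sup_left

theorem dvd_normal {p : ℕ} [Fact p.Prime] (K : Subgroup G) [K.Normal] : Nat.card (Sylow p K) ∣ Nat.card (Sylow p G) := by
  obtain ⟨P⟩ : Nonempty (Sylow p G) := inferInstance
  rw [H27.card_sylow_normal P, P.card_eq_index_normalizer]
  exact index_dvd_of_le (norm_inf (X := (P : Subgroup G)) (Y := K) le_rfl ((normalizer_eq_top K).symm ▸ le_top))

/-- induction: a property inherited by normal subgroups and quotients, failing for non-solvable simple groups, gives solvability -/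
theorem induct (Φ : ∀ (G : Type u) [Group G] [Finite G], Prop)
    (h1 : ∀ (G : Type u) [Group G] [Finite G] (K : Subgroup G) [K.Normal], Φ G → Φ K)
    (h2 : ∀ (G : Type u) [Group G] [Finite G] (K : Subgroup G) [K.Normal], Φ G → Φ (G ⧸ K))
    (h3 : ∀ (G : Type u) [Group G] [Finite G] [IsSimpleGroup G], Φ G → Group.IsSolvable G)
    (n : ℕ) : ∀ (G : Type u) [Group G] [Finite G], Nat.card G = n → Φ G → Group.IsSolvable G := by
  induction n using Nat.strong_induction_on with
  | _ n ih =>
  intro G _ _ hn h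
  rcases subsingleton_or_nontrivial G with _ | _
  · infer_instance
  by_cases hs : IsSimpleGroup G
  · exact h3 G h
  obtain ⟨K, _, k1, k2⟩ := H27.exists_normal_of_not_simple hs
  haveI := ih _ (hn ▸ (card_le_card_group K).lt_of_ne fun e => k2 (eq_top_of_card_eq K e)) K rfl (h1 G K h)
  haveI := ih _ (by
    rw [← hn, ← K.index_mul_card, ← index_eq_card]
    exact lt_mul_of_one_lt_right (Nat.pos_of_ne_zero index_ne_zero_of_finite) (K.one_lt_card_iff_ne_bot.2 k1)) (G ⧸ K) rfl (h2 G K h)
  exact solvable_of_ker_le_range K.subtype (QuotientGroup.mk' K) (by simp)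

end H29.SyN
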